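import Mathlib.GroupTheory.GroupAction.Basic
import Mathlib.Algebra.BigOperators.Field
import Mathlib.Algebra.BigOperators.Ring.Finset
import Mathlib.Algebra.Order.BigOperators.Ring.Finset
import Mathlib.Data.Fintype.BigOperators
import Mathlib.Data.Rat.Cast.Order
import Mathlib.Tactic

/-! Counting over multiply transitive groups. -/

set_option autoImplicit false

namespace CF.Prn

open Finset

section
variable (H Ω : Type) [Group H] [MulAction H Ω]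

def Tr1 : Prop := ∀ x y : Ω, ∃ g : H, g • x = y
def Tr2 : Prop := ∀ x1 x2 y1 y2 : Ω, x1 ≠ x2 → y1 ≠ y2 → ∃ g : H, g • x1 = y1 ∧ g • x2 = y2
def Tr3 : Prop := ∀ x1 x2 x3 y1 y2 y3 : Ω, x1 ≠ x2 → x1 ≠ x3 → x2 ≠ x3 →
  y1 ≠ y2 → y1 ≠ y3 → y2 ≠ y3 → ∃ g : H, g • x1 = y1 ∧ g • x2 = y2 ∧ g • x3 = y3
def Tr4 : Prop := ∀ x1 x2 x3 x4 y1 y2 y3 y4 : Ω, x1 ≠ x2 → x1 ≠ x3 → x2 ≠ x3 →
  x1 ≠ x4 → x2 ≠ x4 → x3 ≠ x4 → y1 ≠ y2 → y1 ≠ y3 → y2 ≠ y3 → y1 ≠ y4 → y2 ≠ y4 → y3 ≠ y4 →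
  ∃ g : H, g • x1 = y1 ∧ g • x2 = y2 ∧ g • x3 = y3 ∧ g • x4 = y4
end

theorem avg {H X : Type} [Group H] [Fintype H] [Fintype X] [MulAction H X] (P : X → ℚ)
    (hP : ∀ (g : H) x, P (g • x) = P x) (f : X → ℚ) (x0 : X)
    (ht : ∀ y, P y ≠ 0 → ∃ g : H, g • x0 = y) :
    (∑ y, P y) * ∑ g : H, f (g • x0) = (Fintype.card H : ℚ) * ∑ y, P y * f y := by
  have h1 : ∀ y, P y * ∑ g : H, f (g • x0) = ∑ g : H, P (g • y) * f (g • y) := by
    intro y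
    by_cases h : P y = 0
    · simp [hP, h]
    · obtain ⟨t, rfl⟩ := ht y h
      rw [mul_sum]
      refine (Equiv.sum_comp (Equiv.mulRight t) _).symm.trans ?_
      refine sum_congr rfl fun g _ => ?_
      simp only [Equiv.coe_mulRight, mul_smul, hP]
  rw [sum_mul, sum_congr rfl fun y _ => h1 y, sum_comm]
  have h2 : ∀ g : H, ∑ y, P (g • y) * f (g • y) = ∑ y, P y * f y := fun g =>
    Equiv.sum_comp (MulAction.toPerm g) (fun y => P y * f y)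
  rw [sum_congr rfl fun g _ => h2 g]
  simp

variable {Ω : Type} [Fintype Ω] [DecidableEq Ω]

def ne (a b : Ω) : ℚ := if a = b then 0 else 1
def I (a : Ω → ℚ) : ℚ := ∑ y, a y
def D2 (a b : Ω → ℚ) : ℚ := ∑ y1, ∑ y2, ne y1 y2 * (a y1 * b y2)
def D3 (a b c : Ω → ℚ) : ℚ :=
  ∑ y1, ∑ y2, ∑ y3, ne y1 y2 * ne y1 y3 * ne y2 y3 * (a y1 * b y2 * c y3)
def D4 (a b c d : Ω → ℚ) : ℚ :=
  ∑ y1, ∑ y2, ∑ y3, ∑ y4, ne y1 y2 * ne y1 y3 * ne y2 y3 * (ne y1 y4 * ne y2 y4 * ne y3 y4) *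
    (a y1 * b y2 * c y3 * d y4)

theorem s1 (y1 : Ω) (c : Ω → ℚ) : ∑ y, ne y1 y * c y = I c - c y1 := by
  have : ∀ y, ne y1 y * c y = c y - if y1 = y then c y else 0 := by
    intro y; unfold ne; split_ifs <;> simp
  simp only [this, sum_sub_distrib, sum_ite_eq, mem_univ, if_true, I]

theorem s2 {y1 y2 : Ω} (h : y1 ≠ y2) (c : Ω → ℚ) :
    ∑ y, ne y1 y * ne y2 y * c y = I c - c y1 - c y2 := by
  have : ∀ y, ne y1 y * ne y2 y * c y =
      c y - (if y1 = y then c y else 0) - if y2 = y then c y else 0 := by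
    intro y; unfold ne; split_ifs <;> simp_all
  simp only [this, sum_sub_distrib, sum_ite_eq, mem_univ, if_true, I]

theorem s3 {y1 y2 y3 : Ω} (h : y1 ≠ y2) (h' : y1 ≠ y3) (h'' : y2 ≠ y3) (c : Ω → ℚ) :
    ∑ y, ne y1 y * ne y2 y * ne y3 y * c y = I c - c y1 - c y2 - c y3 := by
  have : ∀ y, ne y1 y * ne y2 y * ne y3 y * c y =
      c y - (if y1 = y then c y else 0) - (if y2 = y then c y else 0) -
        if y3 = y then c y else 0 := by
    intro y; unfold ne; split_ifs <;> simp_all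
  simp only [this, sum_sub_distrib, sum_ite_eq, mem_univ, if_true, I]

theorem D2_eq (a b : Ω → ℚ) : D2 a b = I a * I b - I (a * b) := by
  unfold D2
  have : ∀ y1, ∑ y2, ne y1 y2 * (a y1 * b y2) = a y1 * I b - (a * b) y1 := by
    intro y1
    have := s1 y1 b
    rw [Pi.mul_apply, ← mul_sub, ← this, mul_sum]
    exact sum_congr rfl fun y _ => by ring
  simp only [this, sum_sub_distrib, ← sum_mul]
  rfl

theorem D3_eq (a b c : Ω → ℚ) : D3 a b c = D2 a b * I c - D2 (a * c) b - D2 a (b * c) := by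
  unfold D3 D2
  simp only [sum_mul, ← sum_sub_distrib]
  refine sum_congr rfl fun y1 _ => sum_congr rfl fun y2 _ => ?_
  by_cases h : y1 = y2
  · simp [ne, h]
  · have := s2 h c
    have e : ∀ y3, ne y1 y2 * ne y1 y3 * ne y2 y3 * (a y1 * b y2 * c y3) =
        (ne y1 y2 * a y1 * b y2) * (ne y1 y3 * ne y2 y3 * c y3) := fun y => by ring
    simp only [e, ← mul_sum, this, Pi.mul_apply]
    ring

theorem D4_eq (a b c d : Ω → ℚ) :
    D4 a b c d = D3 a b c * I d - D3 (a * d) b c - D3 a (b * d) c - D3 a b (c * d) := by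
  unfold D4 D3
  simp only [sum_mul, ← sum_sub_distrib]
  refine sum_congr rfl fun y1 _ => sum_congr rfl fun y2 _ => sum_congr rfl fun y3 _ => ?_
  by_cases h : y1 = y2
  · simp [ne, h]
  by_cases h' : y1 = y3
  · simp [ne, h']
  by_cases h'' : y2 = y3
  · simp [ne, h'']
  have := s3 h h' h'' d
  have e : ∀ y4, ne y1 y2 * ne y1 y3 * ne y2 y3 * (ne y1 y4 * ne y2 y4 * ne y3 y4) *
      (a y1 * b y2 * c y3 * d y4) = (ne y1 y2 * ne y1 y3 * ne y2 y3 * a y1 * b y2 * c y3) *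
        (ne y1 y4 * ne y2 y4 * ne y3 y4 * d y4) := fun y => by ring
  simp only [e, ← mul_sum, this, Pi.mul_apply]
  ring

theorem I_one : I (1 : Ω → ℚ) = Fintype.card Ω := by simp [I]

variable {H : Type} [Group H] [Fintype H] [MulAction H Ω]

omit [Fintype Ω] [Fintype H] in
theorem ne_smul (g : H) (a b : Ω) : ne (g • a) (g • b) = ne a b := by
  simp [ne]

omit [Fintype Ω] in
theorem ne_ne {a b : Ω} (h : ne a b ≠ 0) : a ≠ b := fun e => h (by simp [ne, e])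

/-- The number of points, as a rational number. -/
abbrev nn (Ω : Type) [Fintype Ω] : ℚ := Fintype.card Ω

omit [DecidableEq Ω] in
theorem sum1 (h : Tr1 H Ω) (x : Ω) (a : Ω → ℚ) :
    nn Ω * ∑ g : H, a (g • x) = (Fintype.card H : ℚ) * I a := by
  have := avg (H := H) (fun _ : Ω => (1 : ℚ)) (fun _ _ => rfl) a x fun y _ => h x y
  simpa [I] using this

theorem sum2 (h : Tr2 H Ω) {x1 x2 : Ω} (h12 : x1 ≠ x2) (a b : Ω → ℚ) :
    nn Ω * (nn Ω - 1) * ∑ g : H, a (g • x1) * b (g • x2) = (Fintype.card H : ℚ) * D2 a b := by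
  have := avg (H := H) (fun y : Ω × Ω => ne y.1 y.2) (fun g y => ne_smul g _ _)
    (fun y => a y.1 * b y.2) (x1, x2) fun y hy => by
      obtain ⟨g, e1, e2⟩ := h x1 x2 y.1 y.2 h12 (ne_ne hy)
      exact ⟨g, Prod.ext e1 e2⟩
  have e : ∑ y : Ω × Ω, ne y.1 y.2 = D2 (1 : Ω → ℚ) 1 := by
    simp [D2, Fintype.sum_prod_type]
  rw [e, D2_eq, mul_one, I_one, Fintype.sum_prod_type] at this
  rw [D2, ← this]
  simp only [Prod.smul_mk]
  ring

theorem sum3 (h : Tr3 H Ω) {x1 x2 x3 : Ω} (h12 : x1 ≠ x2) (h13 : x1 ≠ x3) (h23 : x2 ≠ x3)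
    (a b c : Ω → ℚ) :
    nn Ω * (nn Ω - 1) * (nn Ω - 2) * ∑ g : H, a (g • x1) * b (g • x2) * c (g • x3) =
      (Fintype.card H : ℚ) * D3 a b c := by
  have := avg (H := H) (fun y : Ω × Ω × Ω => ne y.1 y.2.1 * ne y.1 y.2.2 * ne y.2.1 y.2.2)
    (fun g y => by simp only [Prod.smul_fst, Prod.smul_snd, ne_smul])
    (fun y => a y.1 * b y.2.1 * c y.2.2) (x1, x2, x3) fun y hy => by
      simp only [ne_eq, mul_eq_zero, not_or] at hy
      obtain ⟨g, e1, e2, e3⟩ := h x1 x2 x3 y.1 y.2.1 y.2.2 h12 h13 h23 (ne_ne hy.1.1)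
        (ne_ne hy.1.2) (ne_ne hy.2)
      exact ⟨g, Prod.ext e1 (Prod.ext e2 e3)⟩
  have e : ∑ y : Ω × Ω × Ω, ne y.1 y.2.1 * ne y.1 y.2.2 * ne y.2.1 y.2.2 =
      D3 (1 : Ω → ℚ) 1 1 := by
    simp [D3, Fintype.sum_prod_type]
  rw [e, D3_eq, mul_one, D2_eq, mul_one, I_one] at this
  simp only [Fintype.sum_prod_type] at this
  rw [D3, ← this]
  simp only [Prod.smul_mk]
  ring

theorem sum4 (h : Tr4 H Ω) {x1 x2 x3 x4 : Ω} (h12 : x1 ≠ x2) (h13 : x1 ≠ x3) (h23 : x2 ≠ x3)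
    (h14 : x1 ≠ x4) (h24 : x2 ≠ x4) (h34 : x3 ≠ x4) (a b c d : Ω → ℚ) :
    nn Ω * (nn Ω - 1) * (nn Ω - 2) * (nn Ω - 3) *
      ∑ g : H, a (g • x1) * b (g • x2) * c (g • x3) * d (g • x4) =
      (Fintype.card H : ℚ) * D4 a b c d := by
  have := avg (H := H) (fun y : Ω × Ω × Ω × Ω => ne y.1 y.2.1 * ne y.1 y.2.2.1 * ne y.2.1 y.2.2.1 *
      (ne y.1 y.2.2.2 * ne y.2.1 y.2.2.2 * ne y.2.2.1 y.2.2.2))
    (fun g y => by simp only [Prod.smul_fst, Prod.smul_snd, ne_smul])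
    (fun y => a y.1 * b y.2.1 * c y.2.2.1 * d y.2.2.2) (x1, x2, x3, x4) fun y hy => by
      simp only [ne_eq, mul_eq_zero, not_or] at hy
      obtain ⟨g, e1, e2, e3, e4⟩ := h x1 x2 x3 x4 y.1 y.2.1 y.2.2.1 y.2.2.2 h12 h13 h23 h14 h24
        h34 (ne_ne hy.1.1.1) (ne_ne hy.1.1.2) (ne_ne hy.1.2) (ne_ne hy.2.1.1) (ne_ne hy.2.1.2)
        (ne_ne hy.2.2)
      exact ⟨g, Prod.ext e1 (Prod.ext e2 (Prod.ext e3 e4))⟩
  have e : ∑ y : Ω × Ω × Ω × Ω, ne y.1 y.2.1 * ne y.1 y.2.2.1 * ne y.2.1 y.2.2.1 *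
      (ne y.1 y.2.2.2 * ne y.2.1 y.2.2.2 * ne y.2.2.1 y.2.2.2) = D4 (1 : Ω → ℚ) 1 1 1 := by
    simp [D4, Fintype.sum_prod_type]
  rw [e, D4_eq, mul_one, D3_eq, mul_one, D2_eq, mul_one, I_one] at this
  simp only [Fintype.sum_prod_type] at this
  rw [D4, ← this]
  simp only [Prod.smul_mk]
  ring

omit [Fintype Ω] [Group H] [MulAction H Ω] in
/-- Conditional first and second moments. -/
theorem mom (e : H → ℚ) (Z : Finset Ω) (t : H → Ω → ℚ) (ht : ∀ g x, t g x * t g x = t g x)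
    (p0 p1 p2 A B C : ℚ) (h0 : ∑ g, e g = p0) (h1 : B = 0 ∧ C = 0 ∨ ∀ x ∈ Z, ∑ g, e g * t g x = p1)
    (h2 : C = 0 ∨ ∀ x ∈ Z, ∀ y ∈ Z, x ≠ y → ∑ g, e g * t g x * t g y = p2) :
    ∑ g, e g * (A + B * (∑ x ∈ Z, t g x) + C * (∑ x ∈ Z, t g x) ^ 2) =
      A * p0 + B * (Z.card * p1) + C * (Z.card * p1 + Z.card * (Z.card - 1) * p2) := by
  have e1 : ∀ g, e g * (A + B * (∑ x ∈ Z, t g x) + C * (∑ x ∈ Z, t g x) ^ 2) =
      A * e g + B * (∑ x ∈ Z, e g * t g x) + C * ∑ x ∈ Z, ∑ y ∈ Z, e g * t g x * t g y := by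
    intro g
    have : ∑ x ∈ Z, ∑ y ∈ Z, e g * t g x * t g y = e g * (∑ x ∈ Z, t g x) ^ 2 := by
      rw [sq, sum_mul_sum, mul_sum]
      refine sum_congr rfl fun x _ => ?_
      rw [mul_sum]
      exact sum_congr rfl fun y _ => by ring
    rw [this, ← mul_sum]; ring
  simp only [e1, sum_add_distrib, ← mul_sum, h0]
  rcases h1 with ⟨hB, hC⟩ | h1
  · simp [hB, hC]
  have f1 : ∑ g, e g * ∑ x ∈ Z, t g x = Z.card * p1 := by
    simp only [mul_sum]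
    rw [sum_comm, sum_congr rfl h1]; simp
  rw [f1]
  rcases h2 with hC | h2
  · simp [hC]
  have f2 : ∑ g, ∑ x ∈ Z, e g * t g x * ∑ y ∈ Z, t g y =
      Z.card * p1 + Z.card * (Z.card - 1) * p2 := by
    simp only [mul_sum]
    rw [sum_comm]
    have : ∀ x ∈ Z, ∑ g, ∑ y ∈ Z, e g * t g x * t g y = p1 + (Z.card - 1) * p2 := by
      intro x hx
      rw [sum_comm, ← add_sum_erase Z _ hx]
      congr 1
      · rw [← h1 x hx]; exact sum_congr rfl fun g _ => by rw [mul_assoc, ht]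
      · rw [sum_congr rfl fun y hy => h2 x hx y (mem_of_mem_erase hy) (ne_of_mem_erase hy).symm,
          sum_const, card_erase_of_mem hx, nsmul_eq_mul, Nat.cast_sub (card_pos.2 ⟨x, hx⟩)]
        simp
    rw [sum_congr rfl this]; simp; ring
  rw [f2]

end CF.Prn
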