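import Cfsg.Agent.Pron.A

/-! Moments of intersection numbers. -/

set_option autoImplicit false

namespace CF.Prn

open Finset

variable {Ω : Type} [Fintype Ω] [DecidableEq Ω]

def ch (F : Finset Ω) : Ω → ℚ := fun x => if x ∈ F then 1 else 0
def cb (F : Finset Ω) : Ω → ℚ := fun x => if x ∈ F then 0 else 1
def dl (a : Ω) : Ω → ℚ := fun x => if x = a then 1 else 0

section
variable (F : Finset Ω)
omit [Fintype Ω]
@[simp] theorem ch_ch : ch F * ch F = ch F := by ext x; by_cases h : x ∈ F <;> simp [ch, h]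
@[simp] theorem cb_cb : cb F * cb F = cb F := by ext x; by_cases h : x ∈ F <;> simp [cb, h]
@[simp] theorem ch_cb : ch F * cb F = 0 := by ext x; by_cases h : x ∈ F <;> simp [ch, cb, h]
@[simp] theorem cb_ch : cb F * ch F = 0 := by ext x; by_cases h : x ∈ F <;> simp [ch, cb, h]
theorem ch_dl {a : Ω} (h : a ∉ F) : ch F * dl a = 0 := by
  ext x; by_cases e : x = a <;> simp [ch, dl, e, h]
theorem cb_dl {a : Ω} (h : a ∉ F) : cb F * dl a = dl a := by
  ext x; by_cases e : x = a <;> simp [cb, dl, e, h]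
theorem dl_dl {a b : Ω} (h : a ≠ b) : dl a * dl b = 0 := by
  ext x; by_cases e : x = a <;> simp [dl, e, h]
theorem ch_nonneg (x : Ω) : 0 ≤ ch F x := by unfold ch; split_ifs <;> norm_num
theorem cb_nonneg (x : Ω) : 0 ≤ cb F x := by unfold cb; split_ifs <;> norm_num
theorem dl_nonneg (a x : Ω) : 0 ≤ dl a x := by unfold dl; split_ifs <;> norm_num
theorem ch_mul_self (x : Ω) : ch F x * ch F x = ch F x := congrFun (ch_ch F) x
theorem ch_mul_cb (x : Ω) : ch F x * cb F x = 0 := congrFun (ch_cb F) x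
end

@[simp] theorem I_ch (F : Finset Ω) : I (ch F) = F.card := by simp [I, ch]
@[simp] theorem I_cb (F : Finset Ω) : I (cb F) = nn Ω - F.card := by
  have : ∀ x, cb F x = 1 - ch F x := by intro x; unfold cb ch; split_ifs <;> simp
  have h := I_ch F
  unfold I at h ⊢
  simp only [this, sum_sub_distrib, h]; simp
@[simp] theorem I_dl (a : Ω) : I (dl a) = 1 := by simp [I, dl]
omit [DecidableEq Ω] in
@[simp] theorem I_zero : I (0 : Ω → ℚ) = 0 := by simp [I]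

theorem card_compl' (F : Finset Ω) : ((Fᶜ).card : ℚ) = nn Ω - F.card := by
  rw [card_compl, Nat.cast_sub (card_le_univ F)]

variable {H : Type} [Group H] [Fintype H] [MulAction H Ω]

/-- `|H| / n (n-1) ...`. -/
abbrev q1 (H Ω : Type) [Fintype H] [Fintype Ω] : ℚ := Fintype.card H / nn Ω
abbrev q2 (H Ω : Type) [Fintype H] [Fintype Ω] : ℚ := Fintype.card H / (nn Ω * (nn Ω - 1))
abbrev q3 (H Ω : Type) [Fintype H] [Fintype Ω] : ℚ :=
  Fintype.card H / (nn Ω * (nn Ω - 1) * (nn Ω - 2))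
abbrev q4 (H Ω : Type) [Fintype H] [Fintype Ω] : ℚ :=
  Fintype.card H / (nn Ω * (nn Ω - 1) * (nn Ω - 2) * (nn Ω - 3))

omit [DecidableEq Ω] in
theorem sum1' (hn : 4 ≤ nn Ω) (h : Tr1 H Ω) (x : Ω) (a : Ω → ℚ) :
    ∑ g : H, a (g • x) = q1 H Ω * I a := by
  have := sum1 h x a
  have : nn Ω ≠ 0 := by linarith
  field_simp; linarith

theorem sum2' (hn : 4 ≤ nn Ω) (h : Tr2 H Ω) {x1 x2 : Ω} (h12 : x1 ≠ x2) (a b : Ω → ℚ) :
    ∑ g : H, a (g • x1) * b (g • x2) = q2 H Ω * D2 a b := by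
  have := sum2 h h12 a b
  have : nn Ω ≠ 0 := by linarith
  have : nn Ω - 1 ≠ 0 := by linarith
  field_simp; linarith

theorem sum3' (hn : 4 ≤ nn Ω) (h : Tr3 H Ω) {x1 x2 x3 : Ω} (h12 : x1 ≠ x2) (h13 : x1 ≠ x3)
    (h23 : x2 ≠ x3) (a b c : Ω → ℚ) :
    ∑ g : H, a (g • x1) * b (g • x2) * c (g • x3) = q3 H Ω * D3 a b c := by
  have := sum3 h h12 h13 h23 a b c
  have : nn Ω ≠ 0 := by linarith
  have : nn Ω - 1 ≠ 0 := by linarith
  have : nn Ω - 2 ≠ 0 := by linarith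
  field_simp; linarith

theorem sum4' (hn : 4 ≤ nn Ω) (h : Tr4 H Ω) {x1 x2 x3 x4 : Ω} (h12 : x1 ≠ x2) (h13 : x1 ≠ x3)
    (h23 : x2 ≠ x3) (h14 : x1 ≠ x4) (h24 : x2 ≠ x4) (h34 : x3 ≠ x4) (a b c d : Ω → ℚ) :
    ∑ g : H, a (g • x1) * b (g • x2) * c (g • x3) * d (g • x4) = q4 H Ω * D4 a b c d := by
  have := sum4 h h12 h13 h23 h14 h24 h34 a b c d
  have : nn Ω ≠ 0 := by linarith
  have : nn Ω - 1 ≠ 0 := by linarith
  have : nn Ω - 2 ≠ 0 := by linarith
  have : nn Ω - 3 ≠ 0 := by linarith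
  field_simp; linarith

/-- Number of points outside `F` carried into `F`. -/
def sv (F : Finset Ω) (g : H) : ℚ := ∑ a ∈ Fᶜ, ch F (g • a)
/-- Number of witnesses. -/
def W (F : Finset Ω) (u g : H) : ℚ := ∑ a, ch F (g • a) * cb F (g • u • a)

theorem c0 (hn : 4 ≤ nn Ω) (h1 : Tr1 H Ω) (h2 : Tr2 H Ω) (F : Finset Ω) (A B C ν μ : ℚ)
    (hν : ν = F.card) (hμ : μ = nn Ω - ν) :
    ∑ g : H, (A + B * sv F g + C * sv F g ^ 2) = A * Fintype.card H + B * (μ * (q1 H Ω * ν)) +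
      C * (μ * (q1 H Ω * ν) + μ * (μ - 1) * (q2 H Ω * (ν * (ν - 1)))) := by
  have := mom (fun _ : H => (1 : ℚ)) Fᶜ (fun g x => ch F (g • x)) (fun g x => ch_mul_self F _)
    (Fintype.card H) (q1 H Ω * ν) (q2 H Ω * (ν * (ν - 1))) A B C (by simp)
    (Or.inr fun x _ => by simp only [one_mul]; rw [sum1' hn h1, I_ch, hν])
    (Or.inr fun x _ y _ hxy => by
      simp only [one_mul]; rw [sum2' hn h2 hxy, D2_eq, ch_ch, I_ch, hν]; ring)
  simp only [one_mul] at this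
  rw [card_compl', ← hν, ← hμ] at this
  exact this

theorem c1 (hn : 4 ≤ nn Ω) (h1 : Tr1 H Ω) (h2 : Tr2 H Ω) (h3 : Tr3 H Ω) (F : Finset Ω)
    (A B C ν μ : ℚ) (hν : ν = F.card) (hμ : μ = nn Ω - ν) :
    ∑ g : H, sv F g * (A + B * sv F g + C * sv F g ^ 2) =
      μ * ((A + B + C) * (q1 H Ω * ν) + (B + 2 * C) * ((μ - 1) * (q2 H Ω * (ν * (ν - 1)))) +
      C * ((μ - 1) * (q2 H Ω * (ν * (ν - 1))) +
        (μ - 1) * (μ - 2) * (q3 H Ω * (ν * (ν - 1) * (ν - 2))))) := by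
  have key : ∀ a ∈ Fᶜ, ∑ g : H, ch F (g • a) * (A + B * sv F g + C * sv F g ^ 2) =
      (A + B + C) * (q1 H Ω * ν) + (B + 2 * C) * ((μ - 1) * (q2 H Ω * (ν * (ν - 1)))) +
      C * ((μ - 1) * (q2 H Ω * (ν * (ν - 1))) +
        (μ - 1) * (μ - 2) * (q3 H Ω * (ν * (ν - 1) * (ν - 2)))) := by
    intro a ha
    have := mom (fun g : H => ch F (g • a)) ((Fᶜ).erase a) (fun g x => ch F (g • x))
      (fun g x => ch_mul_self F _) (q1 H Ω * ν) (q2 H Ω * (ν * (ν - 1)))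
      (q3 H Ω * (ν * (ν - 1) * (ν - 2))) (A + B + C) (B + 2 * C) C
      (by rw [sum1' hn h1, I_ch, hν])
      (Or.inr fun x hx => by
        rw [sum2' hn h2 (ne_of_mem_erase hx).symm, D2_eq, ch_ch, I_ch, hν]; ring)
      (Or.inr fun x hx y hy hxy => by
        rw [sum3' hn h3 (ne_of_mem_erase hx).symm (ne_of_mem_erase hy).symm hxy, D3_eq, ch_ch,
          D2_eq, ch_ch, I_ch, hν]; ring)
    rw [card_erase_of_mem ha, Nat.cast_sub (card_pos.2 ⟨a, ha⟩), card_compl', ← hν, ← hμ,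
      Nat.cast_one] at this
    rw [show μ - 2 = μ - 1 - 1 by ring, ← this]
    refine sum_congr rfl fun g _ => ?_
    rw [sv, ← add_sum_erase _ _ ha]
    unfold ch; split_ifs <;> ring
  have e : ∀ g : H, sv F g * (A + B * sv F g + C * sv F g ^ 2) =
      ∑ a ∈ Fᶜ, ch F (g • a) * (A + B * sv F g + C * sv F g ^ 2) := fun g => by
    rw [← sum_mul]; rfl
  rw [sum_congr rfl fun g _ => e g, sum_comm, sum_congr rfl key, sum_const, nsmul_eq_mul,
    card_compl', ← hν, ← hμ]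

theorem c11 (hn : 4 ≤ nn Ω) (h2 : Tr2 H Ω) (h3 : Tr3 H Ω) (F : Finset Ω)
    (A B C ν μ : ℚ) (h4 : C = 0 ∨ Tr4 H Ω) (hν : ν = F.card) (hμ : μ = nn Ω - ν) {a a' : Ω}
    (ha : a ∉ F) (ha' : a' ∉ F) (hne : a ≠ a') :
    ∑ g : H, ch F (g • a) * cb F (g • a') * (A + B * sv F g + C * sv F g ^ 2) =
      (A + B + C) * (q2 H Ω * (ν * μ)) + (B + 2 * C) * ((μ - 2) * (q3 H Ω * (ν * (ν - 1) * μ))) +
      C * ((μ - 2) * (q3 H Ω * (ν * (ν - 1) * μ)) +
        (μ - 2) * (μ - 3) * (q4 H Ω * (ν * (ν - 1) * (ν - 2) * μ))) := by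
  have ha1 : a ∈ Fᶜ := mem_compl.2 ha
  have ha2 : a' ∈ (Fᶜ).erase a := mem_erase.2 ⟨hne.symm, mem_compl.2 ha'⟩
  have := mom (fun g : H => ch F (g • a) * cb F (g • a')) (((Fᶜ).erase a).erase a')
    (fun g x => ch F (g • x)) (fun g x => ch_mul_self F _) (q2 H Ω * (ν * μ))
    (q3 H Ω * (ν * (ν - 1) * μ)) (q4 H Ω * (ν * (ν - 1) * (ν - 2) * μ)) (A + B + C) (B + 2 * C) C
    (by rw [sum2' hn h2 hne, D2_eq, ch_cb, I_ch, I_cb, I_zero, hμ, hν]; ring)
    (Or.inr fun x hx => by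
      rw [sum3' hn h3 hne (ne_of_mem_erase (mem_of_mem_erase hx)).symm (ne_of_mem_erase hx).symm]
      simp only [D3_eq, D2_eq, ch_ch, ch_cb, cb_ch, I_ch, I_cb, I_zero, mul_zero, hμ, hν]; ring)
    (h4.imp id fun h4 x hx y hy hxy => by
      rw [sum4' hn h4 hne (ne_of_mem_erase (mem_of_mem_erase hx)).symm (ne_of_mem_erase hx).symm
        (ne_of_mem_erase (mem_of_mem_erase hy)).symm (ne_of_mem_erase hy).symm hxy]
      simp only [D4_eq, D3_eq, D2_eq, ch_ch, ch_cb, cb_ch, I_ch, I_cb, I_zero, mul_zero, zero_mul,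
        hμ, hν]; ring)
  have hc : ((((Fᶜ).erase a).erase a').card : ℚ) = μ - 2 := by
    rw [card_erase_of_mem ha2, Nat.cast_sub (card_pos.2 ⟨a', ha2⟩), card_erase_of_mem ha1,
      Nat.cast_sub (card_pos.2 ⟨a, ha1⟩), card_compl', ← hν, ← hμ]
    push_cast; ring
  rw [hc] at this
  rw [show μ - 3 = μ - 2 - 1 by ring, ← this]
  refine sum_congr rfl fun g _ => ?_
  rw [sv, ← add_sum_erase _ _ ha1, ← add_sum_erase _ _ ha2]
  unfold ch cb; split_ifs <;> ring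

omit [Fintype H] in
theorem sv_inv (F : Finset Ω) (g : H) : sv F g⁻¹ = sv F g := by
  have e : ∀ g : H, sv F g = F.card - ∑ a, ch F a * ch F (g • a) := by
    intro g
    have h1 : ∑ a, ch F (g • a) = F.card := by
      rw [← I_ch F]; exact Equiv.sum_comp (MulAction.toPerm g) (ch F)
    have h2 : ∑ a, ch F a * ch F (g • a) = ∑ a ∈ F, ch F (g • a) := by
      rw [← sum_filter_add_sum_filter_not univ (· ∈ F)]
      have : ∑ a ∈ univ.filter (fun a => ¬ a ∈ F), ch F a * ch F (g • a) = 0 :=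
        sum_eq_zero fun a ha => by simp [ch, (mem_filter.1 ha).2]
      rw [this, add_zero, filter_mem_eq_inter, univ_inter]
      exact sum_congr rfl fun a ha => by simp [ch, ha]
    rw [h2, ← h1, ← sum_add_sum_compl F, sv]; ring
  rw [e, e, ← Equiv.sum_comp (MulAction.toPerm g)]
  simp [mul_comm]

omit [Fintype H] in
theorem W_nonneg (F : Finset Ω) (u g : H) : 0 ≤ W F u g :=
  sum_nonneg fun _ _ => mul_nonneg (ch_nonneg F _) (cb_nonneg F _)

omit [Fintype H] in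
theorem W_eq (F : Finset Ω) (u g : H) (hu : ∀ a ∈ F, u • a = a) :
    W F u g = ∑ a ∈ univ.filter (fun a => u • a ≠ a), ch F (g • a) * cb F (g • u • a) := by
  rw [W, sum_filter]
  refine sum_congr rfl fun a _ => ?_
  split_ifs with h
  · rfl
  · rw [not_not.1 h, ch_mul_cb]

omit [Fintype Ω] [DecidableEq Ω] [Fintype H] in
theorem mv_not {F : Finset Ω} {u : H} (hu : ∀ a ∈ F, u • a = a) {a : Ω} (h : u • a ≠ a) :
    a ∉ F ∧ u • a ∉ F :=
  ⟨fun ha => h (hu a ha), fun ha => h (smul_left_cancel u (hu _ ha))⟩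

/-- The global averaging inequality. -/
theorem glob (F : Finset Ω) (K : Finset H) (h1 : (1 : H) ∈ K) (hk : 2 ≤ K.card)
    (hK : ∀ u ∈ K, ∀ a ∈ F, u • a = a) (φ : ℚ → ℚ) (θ c : ℚ) (hc0 : 0 ≤ c)
    (hc : ∀ a a', a ∉ F → a' ∉ F → a ≠ a' →
      ∑ g : H, ch F (g • a) * cb F (g • a') * φ (sv F g) = c)
    (LB : ∀ g : H, (K.card - 1) * (sv F g - θ) * φ (sv F g) ≤
      (∑ u ∈ K, W F u g + ∑ u ∈ K, W F u g⁻¹) * φ (sv F g)) :
    ∑ g : H, (sv F g - θ) * φ (sv F g) ≤ 2 * ((nn Ω - F.card) * c) := by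
  classical
  have e1 : ∀ u ∈ K, ∑ g : H, W F u g * φ (sv F g) ≤ (nn Ω - F.card) * c := by
    intro u hu
    simp only [W_eq F u _ (hK u hu), sum_mul]
    rw [sum_comm, sum_congr rfl fun a ha => hc a (u • a) (mv_not (hK u hu) (mem_filter.1 ha).2).1
      (mv_not (hK u hu) (mem_filter.1 ha).2).2 (mem_filter.1 ha).2.symm, sum_const, nsmul_eq_mul,
      ← card_compl']
    refine mul_le_mul_of_nonneg_right ?_ hc0
    exact_mod_cast card_le_card fun a ha => mem_compl.2 (mv_not (hK u hu) (mem_filter.1 ha).2).1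
  have e2 : ∑ g : H, (∑ u ∈ K, W F u g) * φ (sv F g) ≤ (K.card - 1) * ((nn Ω - F.card) * c) := by
    simp only [sum_mul]
    rw [sum_comm, ← add_sum_erase K _ h1]
    have : ∑ g : H, W F 1 g * φ (sv F g) = 0 := sum_eq_zero fun g _ => by
      simp [W, ch_mul_cb]
    rw [this, zero_add]
    refine (sum_le_sum fun u hu => e1 u (mem_of_mem_erase hu)).trans (le_of_eq ?_)
    rw [sum_const, nsmul_eq_mul, card_erase_of_mem h1, Nat.cast_sub (by omega), Nat.cast_one]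
  have e3 : ∑ g : H, (∑ u ∈ K, W F u g⁻¹) * φ (sv F g) =
      ∑ g : H, (∑ u ∈ K, W F u g) * φ (sv F g) := by
    rw [← Equiv.sum_comp (Equiv.inv H)]
    simp only [Equiv.inv_apply, inv_inv, sv_inv]
  have e4 := sum_le_sum fun g (_ : g ∈ univ) => LB g
  simp only [add_mul, sum_add_distrib, e3, mul_assoc, ← mul_sum] at e4
  have hk' : (0 : ℚ) < K.card - 1 := by
    have : (2 : ℚ) ≤ K.card := by exact_mod_cast hk
    linarith
  refine le_of_mul_le_mul_left (e4.trans ?_) hk'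
  linarith

end CF.Prn
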