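import Cfsg.Agent.Pron.B

/-! Numerical contradictions. -/

set_option autoImplicit false

namespace CF.Prn

open Finset

variable {Ω : Type} [Fintype Ω] [DecidableEq Ω] {H : Type} [Group H] [Fintype H] [MulAction H Ω]

omit [Fintype H] in
theorem sv_nat (F : Finset Ω) (g : H) :
    sv F g = ((univ.filter (fun a => g • a ∈ F) \ F).card : ℚ) := by
  have : univ.filter (fun a => g • a ∈ F) \ F = (Fᶜ).filter (fun a => g • a ∈ F) := by
    ext a; simp [and_comm]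
  rw [this, sv, card_filter]; simp [ch]

theorem two_out {F : Finset Ω} (h : 2 ≤ nn Ω - F.card) : ∃ a a', a ∉ F ∧ a' ∉ F ∧ a ≠ a' := by
  rw [← card_compl'] at h
  obtain ⟨a, ha, a', ha', hne⟩ := one_lt_card.1 (show 1 < (Fᶜ).card by exact_mod_cast h)
  exact ⟨a, a', mem_compl.1 ha, mem_compl.1 ha', hne⟩

omit [Group H] [DecidableEq Ω] [MulAction H Ω] in
theorem q32 (hn : 4 ≤ nn Ω) : q2 H Ω = q3 H Ω * (nn Ω - 2) ∧ q1 H Ω = q2 H Ω * (nn Ω - 1) ∧
    (Fintype.card H : ℚ) = q1 H Ω * nn Ω ∧ q3 H Ω = q4 H Ω * (nn Ω - 3) := by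
  have : nn Ω ≠ 0 := by linarith
  have : nn Ω - 1 ≠ 0 := by linarith
  have : nn Ω - 2 ≠ 0 := by linarith
  have : nn Ω - 3 ≠ 0 := by linarith
  refine ⟨?_, ?_, ?_, ?_⟩ <;> field_simp

omit [DecidableEq Ω] [MulAction H Ω] in
theorem q4_pos (hn : 4 ≤ nn Ω) : 0 < q4 H Ω := by
  have : (0 : ℚ) < Fintype.card H := by exact_mod_cast Fintype.card_pos
  have : 0 < nn Ω - 1 := by linarith
  have : 0 < nn Ω - 2 := by linarith
  have : 0 < nn Ω - 3 := by linarith
  have : 0 < nn Ω := by linarith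
  positivity

theorem num0 (h1 : Tr1 H Ω) (h2 : Tr2 H Ω) (h3 : Tr3 H Ω) (F : Finset Ω)
    (hn : nn Ω = 2 * F.card) (hm : 2 ≤ F.card) (K : Finset H) (h1K : (1 : H) ∈ K)
    (hk : 2 ≤ K.card) (hK : ∀ u ∈ K, ∀ a ∈ F, u • a = a)
    (LB : ∀ g : H, (K.card - 1) * sv F g ≤ ∑ u ∈ K, W F u g + ∑ u ∈ K, W F u g⁻¹)
    (LB0 : ∀ g : H, sv F g = 0 → ∑ u ∈ K, W F u g + ∑ u ∈ K, W F u g⁻¹ = 0) : False := by
  obtain ⟨m, hm'⟩ : ∃ m : ℚ, m = F.card := ⟨_, rfl⟩
  have hm2 : 2 ≤ m := by rw [hm']; exact_mod_cast hm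
  rw [← hm'] at hn
  have hn4 : 4 ≤ nn Ω := by linarith
  have hμ : m = nn Ω - m := by linarith
  obtain ⟨e2, e1, e0, e3⟩ := q32 (H := H) hn4
  have hq : 0 < q3 H Ω := by rw [e3]; exact mul_pos (q4_pos hn4) (by linarith)
  have hc := fun a a' (ha : a ∉ F) (ha' : a' ∉ F) (hne : a ≠ a') =>
    c11 hn4 h2 h3 F (-1) 1 0 m m (Or.inl rfl) hm' hμ ha ha' hne
  have := glob F K h1K hk hK (fun s => -1 + 1 * s + 0 * s ^ 2) 0 _ (by
      have : 0 ≤ m - 2 := by linarith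
      have : 0 ≤ m - 1 := by linarith
      have : 0 ≤ m := by linarith
      simp only [neg_add_cancel, zero_mul, mul_zero, add_zero, zero_add, one_mul]
      positivity) hc (fun g => by
      by_cases h : sv F g = 0
      · rw [LB0 g h, h]; simp
      · have : 1 ≤ sv F g := by
          rw [sv_nat] at h ⊢
          exact_mod_cast Nat.one_le_iff_ne_zero.2 (by exact_mod_cast h)
        rw [sub_zero]
        exact mul_le_mul_of_nonneg_right (LB g) (by linarith))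
  simp only [sub_zero] at this
  rw [c1 hn4 h1 h2 h3 F (-1) 1 0 m m hm' hμ, ← hm', ← hμ, e2, hn] at this
  have h0 : 0 < q3 H Ω * (m * m * (m - 1)) := by
    have : 0 < m - 1 := by linarith
    have : 0 < m := by linarith
    positivity
  nlinarith

theorem num1 (h1 : Tr1 H Ω) (h2 : Tr2 H Ω) (h3 : Tr3 H Ω) (h4 : Tr4 H Ω) (F : Finset Ω)
    (hn : nn Ω = 2 * F.card) (θ : ℚ) (hm : θ = 1 ∧ 6 ≤ F.card ∨ θ = 15 / 11 ∧ 16 ≤ F.card)
    (K : Finset H) (h1K : (1 : H) ∈ K) (hk : 2 ≤ K.card) (hK : ∀ u ∈ K, ∀ a ∈ F, u • a = a)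
    (LB : ∀ g : H, (K.card - 1) * (sv F g - θ) ≤ ∑ u ∈ K, W F u g + ∑ u ∈ K, W F u g⁻¹) :
    False := by
  obtain ⟨m, hm'⟩ : ∃ m : ℚ, m = F.card := ⟨_, rfl⟩
  have hm6 : 6 ≤ m := by
    rw [hm']; exact_mod_cast (show 6 ≤ F.card by omega)
  rw [← hm'] at hn
  have hn4 : 4 ≤ nn Ω := by linarith
  have hμ : m = nn Ω - m := by linarith
  obtain ⟨e2, e1, e0, e3⟩ := q32 (H := H) hn4
  have hq : 0 < q4 H Ω := q4_pos hn4
  obtain ⟨δ, hδ, hδ'⟩ : ∃ δ : ℚ, (∀ g : H, 0 ≤ (4 * m ^ 2 - δ) + (-20 * m) * sv F g + 25 * sv F g ^ 2) ∧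
      (δ = 4 ∧ m = 6 ∨ δ = 0 ∧ 7 ≤ m) := by
    by_cases h6 : F.card = 6
    · have : m = 6 := by rw [hm', h6]; norm_num
      refine ⟨4, fun g => ?_, Or.inl ⟨rfl, this⟩⟩
      rw [this, sv_nat]
      generalize (univ.filter (fun a => g • a ∈ F) \ F).card = s
      rcases le_or_gt s 2 with h | h
      · have : (s : ℚ) ≤ 2 := by exact_mod_cast h
        nlinarith
      · have : (3 : ℚ) ≤ s := by exact_mod_cast h
        nlinarith
    · refine ⟨0, fun g => by nlinarith [sq_nonneg (5 * sv F g - 2 * m)], Or.inr ⟨rfl, ?_⟩⟩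
      rw [hm']; exact_mod_cast (show 7 ≤ F.card by omega)
  have hc := fun a a' (ha : a ∉ F) (ha' : a' ∉ F) (hne : a ≠ a') =>
    c11 hn4 h2 h3 F (4 * m ^ 2 - δ) (-20 * m) 25 m m (Or.inr h4) hm' hμ ha ha' hne
  obtain ⟨a, a', ha, ha', hne⟩ := two_out (F := F) (by rw [← hm']; linarith)
  have := glob F K h1K hk hK (fun s => (4 * m ^ 2 - δ) + (-20 * m) * s + 25 * s ^ 2) θ _ (by
      rw [← hc a a' ha ha' hne]
      exact sum_nonneg fun g _ => mul_nonneg (mul_nonneg (ch_nonneg _ _) (cb_nonneg _ _)) (hδ g))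
      hc (fun g => mul_le_mul_of_nonneg_right (LB g) (hδ g))
  simp only [sub_mul, sum_sub_distrib, ← mul_sum] at this
  rw [c1 hn4 h1 h2 h3 F _ _ _ m m hm' hμ, c0 hn4 h1 h2 F _ _ _ m m hm' hμ, ← hm', e0, e1, e2, e3,
    hn] at this
  generalize q4 H Ω = q at this hq
  rcases hm with ⟨rfl, -⟩ | ⟨rfl, h16⟩
  · rcases hδ' with ⟨rfl, rfl⟩ | ⟨rfl, h7⟩
    · nlinarith
    · obtain ⟨i, rfl⟩ : ∃ i, m = i + 7 := ⟨m - 7, by ring⟩
      have hi : 0 ≤ i := by linarith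
      have : 0 < q * (32928 + 75166 * i + 47733 * i ^ 2 + 13928 * i ^ 3 + 2110 * i ^ 4 +
        162 * i ^ 5 + 5 * i ^ 6) := by positivity
      nlinarith
  · have h16' : 16 ≤ m := by rw [hm']; exact_mod_cast h16
    obtain ⟨rfl, -⟩ : δ = 0 ∧ 7 ≤ m := hδ'.resolve_left fun h => by linarith [h.2]
    obtain ⟨i, rfl⟩ : ∃ i, m = i + 16 := ⟨m - 16, by ring⟩
    have hi : 0 ≤ i := by linarith
    have : 0 < q * (49643520 / 11 + 49911808 / 11 * i + 13077376 / 11 * i ^ 2 + 142104 * i ^ 3 +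
      97081 / 11 * i ^ 4 + 3064 / 11 * i ^ 5 + 39 / 11 * i ^ 6) := by positivity
    nlinarith

/-- Points where `u` and its conjugate agree. -/
def Cc (F : Finset Ω) (u g : H) : ℚ :=
  ∑ y ∈ Fᶜ, ∑ z ∈ Fᶜ, dl z (g • y) * dl (u • z) (g • u • y)

theorem D4_dl (F : Finset Ω) {z z' : Ω} (hz : z ∉ F) (hz' : z' ∉ F) (hne : z ≠ z') :
    D4 (ch F) (cb F) (dl z) (dl z') = F.card * (nn Ω - F.card - 2) := by
  simp only [D4_eq, D3_eq, D2_eq, ch_dl F hz, ch_dl F hz', cb_dl F hz, cb_dl F hz', dl_dl hne,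
    dl_dl hne.symm, ch_cb, I_ch, I_cb, I_dl, I_zero, mul_zero, zero_mul]
  ring

theorem boch_num (h2 : Tr2 H Ω) (h3 : Tr3 H Ω) (h4 : Tr4 H Ω) (F : Finset Ω) (u : H)
    (hF : ∀ a, a ∈ F ↔ u • a = a) (μ ν κ : ℚ) (hν : ν = F.card) (hμ : μ = nn Ω - ν)
    (hμν : μ + 4 ≤ ν)
    (hκ : κ = 0 ∧ 5 ≤ μ ∧ (∀ a, a ∉ F → u • u • a ≠ a) ∨ κ = 1 ∧ 6 ≤ μ ∧ ∀ a : Ω, u • u • a = a)
    (hp : ∀ g : H, 0 ≤ W F u g * (W F u g + W F u g⁻¹ - sv F g - κ * Cc F u g)) : False := by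
  have hμ5 : 5 ≤ μ := by rcases hκ with h | h <;> linarith [h.2.1]
  have hn4 : 4 ≤ nn Ω := by linarith
  have hq := q4_pos (H := H) hn4
  obtain ⟨-, -, -, e3⟩ := q32 (H := H) hn4
  have hU : ((Fᶜ).card : ℚ) = μ := by rw [card_compl', ← hν, hμ]
  have hW : ∀ g : H, W F u g = ∑ a ∈ Fᶜ, ch F (g • a) * cb F (g • u • a) := by
    intro g
    rw [W_eq F u g fun a ha => (hF a).1 ha]
    congr 1; ext a; simp [hF]
  have hmv : ∀ a ∈ Fᶜ, a ≠ u • a ∧ u • a ∉ F := fun a ha =>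
    ⟨fun e => mem_compl.1 ha ((hF a).2 e.symm),
      (mv_not (fun a ha => (hF a).1 ha) (fun e => mem_compl.1 ha ((hF a).2 e))).2⟩
  have cst : ∀ {f : Ω → ℚ} {c : ℚ}, (∀ a ∈ Fᶜ, f a = c) → ∑ a ∈ Fᶜ, f a = μ * c := by
    intro f c h
    rw [sum_congr rfl h, sum_const, nsmul_eq_mul, hU]
  have hZ2 : ∀ a ∈ Fᶜ, ((((Fᶜ).erase a).erase (u • a)).card : ℚ) = μ - 2 := by
    intro a ha
    have ha2 : u • a ∈ (Fᶜ).erase a := mem_erase.2 ⟨(hmv a ha).1.symm, mem_compl.2 (hmv a ha).2⟩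
    rw [card_erase_of_mem ha2, Nat.cast_sub (card_pos.2 ⟨_, ha2⟩), card_erase_of_mem ha,
      Nat.cast_sub (card_pos.2 ⟨a, ha⟩), hU]
    push_cast; ring
  -- W * s
  have E1 : ∑ g : H, W F u g * sv F g =
      μ * (q2 H Ω * (ν * μ) + (μ - 2) * (q3 H Ω * (ν * (ν - 1) * μ))) := by
    simp only [hW, sum_mul]
    rw [sum_comm]
    refine cst fun a ha => ?_
    have := c11 hn4 h2 h3 F 0 1 0 ν μ (Or.inl rfl) hν hμ (mem_compl.1 ha) (hmv a ha).2 (hmv a ha).1
    simpa using this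
  -- W * W
  have E2 : ∑ g : H, W F u g * W F u g =
      μ * (q2 H Ω * (ν * μ) + (μ - 3 + κ) * (q4 H Ω * (ν * (ν - 1) * μ * (μ - 1)))) := by
    simp only [hW, sum_mul_sum]
    rw [sum_comm]
    refine cst fun a ha => ?_
    rw [sum_comm, ← add_sum_erase _ _ ha]
    congr 1
    · have := c11 hn4 h2 h3 F 1 0 0 ν μ (Or.inl rfl) hν hμ (mem_compl.1 ha) (hmv a ha).2
        (hmv a ha).1
      simp only [zero_mul, add_zero, mul_one, mul_zero, one_mul] at this
      rw [← this]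
      exact sum_congr rfl fun g _ => by unfold ch cb; split_ifs <;> simp
    · rw [← sum_subset (s₁ := (((Fᶜ).erase a).erase (u • a)).erase (u⁻¹ • a))
        ((erase_subset _ _).trans (erase_subset _ _))]
      · have hc : (((((Fᶜ).erase a).erase (u • a)).erase (u⁻¹ • a)).card : ℚ) = μ - 3 + κ := by
          rcases hκ with ⟨rfl, -, h⟩ | ⟨rfl, -, h⟩
          · have hm : u⁻¹ • a ∈ ((Fᶜ).erase a).erase (u • a) := by
              refine mem_erase.2 ⟨fun e => h a (mem_compl.1 ha) ?_, mem_erase.2 ⟨fun e => ?_,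
                mem_compl.2 fun e => ?_⟩⟩
              · rw [← e, smul_inv_smul]
              · exact (hmv a ha).1 (by conv_rhs => rw [← e, smul_inv_smul])
              · have := (hF _).1 e
                rw [smul_inv_smul] at this
                exact mem_compl.1 ha (this ▸ e)
            rw [card_erase_of_mem hm, Nat.cast_sub (card_pos.2 ⟨_, hm⟩), hZ2 a ha]
            push_cast; ring
          · have : u⁻¹ • a = u • a := by rw [inv_smul_eq_iff, h]
            rw [this, erase_idem, hZ2 a ha]; ring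
        rw [← hc, ← nsmul_eq_mul, ← sum_const]
        refine sum_congr rfl fun b hb => ?_
        simp only [mem_erase] at hb
        have hb1 := hmv b hb.2.2.2
        have := sum4' hn4 h4 (hmv a ha).1 hb.2.2.1.symm hb.2.1.symm (x4 := u • b)
          (fun e => hb.1 (by rw [e, inv_smul_smul]))
          (fun e => hb.2.2.1 (smul_left_cancel u e).symm) hb1.1 (ch F) (cb F) (ch F) (cb F)
        simp only [mul_assoc] at this ⊢
        rw [this]
        simp only [D4_eq, D3_eq, D2_eq, ch_ch, ch_cb, cb_ch, cb_cb, I_ch, I_cb, I_zero, mul_zero,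
          zero_mul, hμ, hν]; ring
      · intro b hb hb'
        refine sum_eq_zero fun g _ => ?_
        simp only [mem_erase, not_and_or, not_not] at hb hb'
        rcases hb' with rfl | rfl | h | h
        · rw [smul_inv_smul]; unfold ch cb; split_ifs <;> simp
        · unfold ch cb; split_ifs <;> simp
        · exact absurd h hb.1
        · exact absurd hb.2 h
  -- W * W'
  have E3 : ∑ g : H, W F u g * W F u g⁻¹ =
      μ * (μ * (ν * (q3 H Ω * ν + (μ - 2) * (q4 H Ω * (ν * (μ - 2)))))) := by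
    simp only [hW, sum_mul_sum]
    rw [sum_comm]
    refine cst fun a ha => ?_
    rw [sum_comm]
    refine cst fun z hz => ?_
    have r1 : ∀ g : H, ch F (g⁻¹ • z) = ∑ c ∈ F, dl z (g • c) := by
      intro g
      have : ∀ c, dl z (g • c) = if c = g⁻¹ • z then 1 else 0 := fun c => by
        simp only [dl, eq_inv_smul_iff]
      simp only [this, sum_ite_eq', ch]
    have r2 : ∀ g : H, cb F (g⁻¹ • u • z) = ∑ c ∈ Fᶜ, dl (u • z) (g • c) := by
      intro g
      have : ∀ c, dl (u • z) (g • c) = if c = g⁻¹ • u • z then 1 else 0 := fun c => by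
        simp only [dl, eq_inv_smul_iff]
      simp only [this, sum_ite_eq', cb, mem_compl, ite_not]
    have r3 : ∀ g : H, ch F (g • a) * cb F (g • u • a) * (ch F (g⁻¹ • z) * cb F (g⁻¹ • u • z)) =
        ∑ c ∈ F, ∑ c' ∈ Fᶜ,
          ch F (g • a) * cb F (g • u • a) * (dl z (g • c) * dl (u • z) (g • c')) := fun g => by
      rw [r1, r2, sum_mul_sum, mul_sum]
      exact sum_congr rfl fun c _ => mul_sum _ _ _
    have cstF : ∀ {f : Ω → ℚ} {c : ℚ}, (∀ a ∈ F, f a = c) → ∑ a ∈ F, f a = ν * c := by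
      intro f c h
      rw [sum_congr rfl h, sum_const, nsmul_eq_mul, hν]
    simp only [r3]
    rw [sum_comm]
    refine cstF fun c hc => ?_
    have ha2 : u • a ∈ (Fᶜ).erase a := mem_erase.2 ⟨(hmv a ha).1.symm, mem_compl.2 (hmv a ha).2⟩
    have hac : a ≠ c := fun e => mem_compl.1 ha (e ▸ hc)
    have hac' : u • a ≠ c := fun e => (hmv a ha).2 (e ▸ hc)
    have t1 : ∑ g : H, ch F (g • a) * cb F (g • u • a) * (dl z (g • c) * dl (u • z) (g • a)) = 0 := by
      refine sum_eq_zero fun g _ => ?_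
      have := congrFun (ch_dl F (hmv z hz).2) (g • a)
      rw [Pi.mul_apply, Pi.zero_apply] at this
      linear_combination (cb F (g • u • a) * dl z (g • c)) * this
    have t2 : ∑ g : H, ch F (g • a) * cb F (g • u • a) *
        (dl z (g • c) * dl (u • z) (g • u • a)) = q3 H Ω * ν := by
      have := sum3' hn4 h3 (hmv a ha).1 hac hac' (ch F) (dl (u • z)) (dl z)
      simp only [D3_eq, D2_eq, ch_dl F (mem_compl.1 hz), ch_dl F (hmv z hz).2,
        dl_dl (hmv z hz).1.symm, I_ch, I_dl, I_zero, mul_zero, zero_mul, mul_one, sub_zero] at this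
      rw [hν, ← this]
      refine sum_congr rfl fun g _ => ?_
      have := congrFun (cb_dl F (hmv z hz).2) (g • u • a)
      rw [Pi.mul_apply] at this
      linear_combination (ch F (g • a) * dl z (g • c)) * this
    have t3 : ∀ c' ∈ ((Fᶜ).erase a).erase (u • a), ∑ g : H, ch F (g • a) * cb F (g • u • a) *
        (dl z (g • c) * dl (u • z) (g • c')) = q4 H Ω * (ν * (μ - 2)) := by
      intro c' hc'
      simp only [mem_erase] at hc'
      have := sum4' hn4 h4 (hmv a ha).1 hac hac' hc'.2.1.symm hc'.1.symm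
        (fun e => mem_compl.1 hc'.2.2 (e ▸ hc)) (ch F) (cb F) (dl z) (dl (u • z))
      simp only [mul_assoc] at this ⊢
      rw [this, D4_dl F (mem_compl.1 hz) (hmv z hz).2 (hmv z hz).1, hμ, hν]
    rw [sum_comm, ← add_sum_erase _ _ ha, ← add_sum_erase _ _ ha2, t1, t2, sum_congr rfl t3,
      sum_const, nsmul_eq_mul, hZ2 a ha, zero_add]
  -- W * C
  have E4 : μ * ((μ - 2) * (μ * (q4 H Ω * (ν * (μ - 2))))) * κ ≤
      (∑ g : H, W F u g * Cc F u g) * κ := by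
    rcases hκ with ⟨rfl, -⟩ | ⟨rfl, -, huu⟩
    · simp
    rw [mul_one, mul_one]
    simp only [hW, Cc, sum_mul_sum]
    rw [sum_comm, ← cst (f := fun _ => (μ - 2) * (μ * (q4 H Ω * (ν * (μ - 2))))) fun _ _ => rfl]
    refine sum_le_sum fun a ha => ?_
    rw [sum_comm]
    refine le_trans (le_of_eq ?_) (sum_le_sum_of_subset_of_nonneg
      (s := ((Fᶜ).erase a).erase (u • a)) ((erase_subset _ _).trans (erase_subset _ _))
      fun y _ _ => sum_nonneg fun g _ => mul_nonneg (mul_nonneg (ch_nonneg _ _) (cb_nonneg _ _))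
        (sum_nonneg fun z _ => mul_nonneg (dl_nonneg _ _) (dl_nonneg _ _)))
    conv_lhs => rw [← hZ2 a ha, ← nsmul_eq_mul, ← sum_const]
    refine sum_congr rfl fun y hy => ?_
    simp only [mem_erase] at hy
    simp only [mul_sum]
    rw [sum_comm]
    refine (cst fun z hz => ?_).symm
    have := sum4' hn4 h4 (hmv a ha).1 hy.2.1.symm hy.1.symm (x4 := u • y)
      (fun e => hy.1 (by rw [e, huu])) (fun e => hy.2.1 (smul_left_cancel u e).symm)
      (hmv y hy.2.2).1 (ch F) (cb F) (dl z) (dl (u • z))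
    simp only [mul_assoc] at this ⊢
    rw [this, D4_dl F (mem_compl.1 hz) (hmv z hz).2 (hmv z hz).1, hZ2 a ha, hμ, hν]
  have tot := sum_nonneg fun g (_ : g ∈ univ) => hp g
  have e : ∀ g : H, W F u g * (W F u g + W F u g⁻¹ - sv F g - κ * Cc F u g) =
      W F u g * W F u g + W F u g * W F u g⁻¹ - W F u g * sv F g - W F u g * Cc F u g * κ :=
    fun g => by ring
  simp only [e, sum_sub_distrib, sum_add_distrib, ← sum_mul] at tot
  rw [E1, E2, E3, e3, show nn Ω = μ + ν by linarith] at tot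
  generalize q4 H Ω = q at tot hq E4
  obtain ⟨i, rfl⟩ : ∃ i, ν = μ + 4 + i := ⟨ν - μ - 4, by ring⟩
  have hi : 0 ≤ i := by linarith
  rcases hκ with ⟨rfl, h5, -⟩ | ⟨rfl, h6, -⟩
  · obtain ⟨j, rfl⟩ : ∃ j, μ = j + 5 := ⟨μ - 5, by ring⟩
    have hj : 0 ≤ j := by linarith
    have : 0 < q * (j + 5) * (j + 5) * (j + 5 + 4 + i) *
      (20 + 21 * j + 2 * j ^ 2 + 20 * i + 13 * i * j + i * j ^ 2 + 2 * i ^ 2 + i ^ 2 * j) := by
      positivity
    nlinarith
  · obtain ⟨j, rfl⟩ : ∃ j, μ = j + 6 := ⟨μ - 6, by ring⟩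
    have hj : 0 ≤ j := by linarith
    have : 0 < q * (j + 6) * (j + 6) * (j + 6 + 4 + i) *
      (14 + 19 * j + 2 * j ^ 2 + 29 * i + 14 * i * j + i * j ^ 2 + 3 * i ^ 2 + i ^ 2 * j) := by
      positivity
    nlinarith

end CF.Prn
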