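import Cfsg.Agent.Pron.C
import Mathlib.GroupTheory.Subgroup.Centralizer
import Mathlib.GroupTheory.Index

/-! Two conjugate subgroups: commutator bounds. -/

set_option autoImplicit false

namespace CF.Prn

open Finset
open scoped Classical

variable {Ω : Type} [Fintype Ω] {H : Type} [Group H] [Fintype H] [MulAction H Ω]

/-- A subgroup as a finset. -/
noncomputable def KF (K : Subgroup H) : Finset H := univ.filter (· ∈ K)
@[simp] theorem mem_KF {K : Subgroup H} {h : H} : h ∈ KF K ↔ h ∈ K := by simp [KF]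
theorem card_KF (K : Subgroup H) : (KF K).card = Nat.card K := by
  rw [Nat.card_eq_fintype_card, Fintype.card_subtype]; rfl

theorem half {A K : Subgroup H} (h : A ≤ K) (hne : A ≠ K) : 2 * (KF A).card ≤ (KF K).card := by
  rw [card_KF, card_KF]
  obtain ⟨c, hc⟩ := Subgroup.card_dvd_of_le h
  have h0 : 0 < Nat.card K := Nat.card_pos
  have : c ≠ 1 := fun e => hne (Subgroup.eq_of_le_of_card_ge h (by rw [hc, e, mul_one]))
  have : c ≠ 0 := fun e => by rw [e, mul_zero] at hc; omega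
  rw [hc, mul_comm]
  exact Nat.mul_le_mul_left _ (by omega)

/-- Fixed points of an element. -/
noncomputable def Fx (Ω : Type) [Fintype Ω] [MulAction H Ω] (h : H) : Finset Ω :=
  univ.filter (fun a => h • a = a)
omit [Fintype H] in
@[simp] theorem mem_Fx {h : H} {a : Ω} : a ∈ Fx Ω h ↔ h • a = a := by simp [Fx]

/-- Setwise stabiliser. -/
def St (H : Type) [Group H] [MulAction H Ω] (Z : Finset Ω) : Subgroup H where
  carrier := {h | ∀ a, h • a ∈ Z ↔ a ∈ Z}
  one_mem' := by simp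
  mul_mem' := fun {x y} hx hy a => by rw [mul_smul, hx, hy]
  inv_mem' := fun {x} hx a => by rw [← hx, smul_inv_smul]

omit [Fintype Ω] [Fintype H] in
theorem le_St {K : Subgroup H} {Z : Finset Ω} (h : ∀ u ∈ K, ∀ a ∈ Z, u • a ∈ Z) : K ≤ St H Z :=
  fun u hu a => ⟨fun ha => by simpa using h _ (K.inv_mem hu) _ ha, h u hu a⟩

noncomputable def wN (B : Finset Ω) (u : H) : ℕ := (B.filter (fun a => u • a ∉ B)).card

omit [Fintype H] in
theorem comm_bd {F B C : Finset Ω} {u v : H} (hu : ∀ a ∈ F, u • a = a) (hv : ∀ a ∈ B, v • a = a)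
    (hC : ∀ y ∈ C, y ∉ F ∧ y ∉ B ∧ u • v • y = v • u • y) :
    Fintype.card Ω + C.card ≤
      (Fx Ω ((v * u)⁻¹ * (u * v))).card + ((F ∪ B)ᶜ).card + wN B u + wN F v := by
  have h1 : (Fx Ω ((v * u)⁻¹ * (u * v)))ᶜ ⊆ ((F ∪ B)ᶜ \ C) ∪ B.filter (fun a => u • a ∉ B) ∪
      F.filter (fun a => v • a ∉ F) := by
    intro y hy
    rw [mem_compl, mem_Fx, mul_smul, inv_smul_eq_iff, mul_smul, mul_smul] at hy
    by_contra hc
    simp only [mem_union, mem_sdiff, mem_compl, mem_filter, not_or, not_and, not_not] at hc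
    by_cases hB : y ∈ B
    · exact hy (by rw [hv y hB, hv _ (hc.1.2 hB)])
    by_cases hF : y ∈ F
    · exact hy (by rw [hu y hF, hu _ (hc.2 hF)])
    exact hy (hC y (hc.1.1 ⟨hF, hB⟩)).2.2
  have h2 := (card_le_card h1).trans ((card_union_le _ _).trans
    (Nat.add_le_add_right (card_union_le _ _) _))
  have h3 : C ⊆ (F ∪ B)ᶜ := fun y hy => by simp [(hC y hy).1, (hC y hy).2.1]
  have h4 := card_sdiff_add_card_eq_card h3
  have h5 := card_compl_add_card (Fx Ω ((v * u)⁻¹ * (u * v)))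
  unfold wN
  omega

theorem layer {K J : Subgroup H} (hk : (KF J).card = (KF K).card) (w w' : H → ℕ) (σ : ℕ)
    (h : ∀ u ∈ K, ∀ v ∈ J, u * v ≠ v * u → σ ≤ w u + w' v)
    (CJ : ∀ v ∈ J, (∀ u ∈ K, u * v = v * u) → v = 1)
    (CK : ∀ u ∈ K, (∀ v ∈ J, u * v = v * u) → u = 1) :
    σ * ((KF K).card - 1) ≤ ∑ u ∈ KF K, w u + ∑ v ∈ KF J, w' v := by
  have key : ∀ τ ∈ range σ, (KF K).card - 1 ≤ ((KF K).filter (fun u => τ < w u)).card +
      ((KF J).filter (fun v => σ - 1 - τ < w' v)).card := by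
    intro τ hτ
    have hτ := mem_range.1 hτ
    set X := (KF K).filter (fun u => ¬ τ < w u) with hX
    set Y := (KF J).filter (fun v => ¬ σ - 1 - τ < w' v) with hY
    have e1 := card_filter_add_card_filter_not (s := KF K) (fun u => τ < w u)
    have e2 := card_filter_add_card_filter_not (s := KF J) (fun v => σ - 1 - τ < w' v)
    rw [← hX] at e1
    rw [← hY] at e2
    suffices X.card + Y.card ≤ (KF K).card + 1 by omega
    have hc : ∀ u ∈ X, ∀ v ∈ Y, u * v = v * u := by
      intro u hu v hv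
      simp only [hX, hY, mem_filter, mem_KF, not_lt] at hu hv
      by_contra hne
      have := h u hu.1 v hv.1 hne
      omega
    set X' := K ⊓ Subgroup.centralizer (Y : Set H) with hX'
    set Y' := J ⊓ Subgroup.centralizer (X' : Set H) with hY'
    have hXX : X ⊆ KF X' := fun u hu => mem_KF.2 ⟨mem_KF.1 (mem_filter.1 hu).1,
      Subgroup.mem_centralizer_iff.2 fun v hv => (hc u hu v hv).symm⟩
    have hYY : Y ⊆ KF Y' := fun v hv => mem_KF.2 ⟨mem_KF.1 (mem_filter.1 hv).1,
      Subgroup.mem_centralizer_iff.2 fun u hu =>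
        (Subgroup.mem_centralizer_iff.1 hu.2 v hv).symm⟩
    by_cases c1 : X' = K
    · have : Y ⊆ {1} := fun v hv => mem_singleton.2 (CJ v (mem_KF.1 (mem_filter.1 hv).1)
        fun u hu => (Subgroup.mem_centralizer_iff.1 (c1 ▸ hu : u ∈ X').2 v hv).symm)
      have := card_le_card this
      rw [card_singleton] at this
      omega
    by_cases c2 : Y' = J
    · have : X ⊆ {1} := fun u hu => mem_singleton.2 (CK u (mem_KF.1 (mem_filter.1 hu).1)
        fun v hv => Subgroup.mem_centralizer_iff.1 (c2 ▸ hv : v ∈ Y').2 u (mem_KF.1 (hXX hu)))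
      have := card_le_card this
      rw [card_singleton] at this
      omega
    have a1 : 2 * (KF X').card ≤ (KF K).card := half (inf_le_left : X' ≤ K) c1
    have a2 : 2 * (KF Y').card ≤ (KF J).card := half (inf_le_left : Y' ≤ J) c2
    have := card_le_card hXX
    have := card_le_card hYY
    omega
  have s1 := sum_le_sum key
  rw [sum_const, card_range, smul_eq_mul, sum_add_distrib] at s1
  refine s1.trans (Nat.add_le_add ?_ ?_)
  · simp only [card_filter]
    rw [sum_comm]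
    refine sum_le_sum fun u _ => ?_
    rw [← card_filter]
    refine (card_le_card (t := range (w u)) fun τ hτ => mem_range.2 (mem_filter.1 hτ).2).trans ?_
    rw [card_range]
  · simp only [card_filter]
    rw [sum_comm]
    refine sum_le_sum fun v _ => ?_
    rw [← card_filter]
    refine (card_le_card_of_injOn (t := range (w' v)) (fun τ => σ - 1 - τ)
      (fun τ hτ => mem_coe.2 (mem_range.2 (mem_filter.1 (mem_coe.1 hτ)).2)) ?_).trans ?_
    · intro a ha b hb e
      have := mem_range.1 (mem_filter.1 (mem_coe.1 ha)).1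
      have := mem_range.1 (mem_filter.1 (mem_coe.1 hb)).1
      simp only at e
      omega
    · rw [card_range]

omit [Fintype Ω] in
theorem orb_stab (K : Subgroup H) (y : Ω) : (KF K).card =
    ((KF K).image (· • y)).card * ((KF K).filter (fun u => u • y = y)).card := by
  rw [card_eq_sum_card_image (· • y) (KF K), ← smul_eq_mul, ← sum_const]
  refine sum_congr rfl fun x hx => ?_
  obtain ⟨t, ht, rfl⟩ := mem_image.1 hx
  refine card_bij (fun u _ => t⁻¹ * u) ?_ ?_ ?_
  · intro u hu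
    simp only [mem_filter, mem_KF] at hu ht ⊢
    exact ⟨K.mul_mem (K.inv_mem ht) hu.1, by rw [mul_smul, hu.2, inv_smul_smul]⟩
  · intro a _ b _ e; exact mul_left_cancel e
  · intro u hu
    simp only [mem_filter, mem_KF] at hu ht ⊢
    exact ⟨t * u, ⟨K.mul_mem ht hu.1, by rw [mul_smul, hu.2]⟩, by group⟩

omit [Fintype Ω] in
theorem semireg_dvd (T : Subgroup H) (A : Finset Ω) (hA : ∀ t ∈ T, ∀ a ∈ A, t • a ∈ A)
    (hs : ∀ t ∈ T, ∀ a ∈ A, t • a = a → t = 1) : (KF T).card ∣ A.card := by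
  induction' hn : A.card using Nat.strong_induction_on with n ih generalizing A
  rcases A.eq_empty_or_nonempty with rfl | ⟨a, ha⟩
  · rw [← hn]; simp
  have e := orb_stab T a
  have e1 : (KF T).filter (fun u => u • a = a) = {1} := by
    ext t
    simp only [mem_filter, mem_KF, mem_singleton]
    exact ⟨fun h => hs t h.1 a ha h.2, fun h => by simp [h]⟩
  rw [e1, card_singleton, mul_one] at e
  have hO : (KF T).image (· • a) ⊆ A := fun x hx => by
    obtain ⟨t, ht, rfl⟩ := mem_image.1 hx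
    exact hA t (mem_KF.1 ht) a ha
  have e2 := card_sdiff_add_card_eq_card hO
  have h0 : 0 < (KF T).card := card_pos.2 ⟨1, mem_KF.2 T.one_mem⟩
  have := ih (A \ (KF T).image (· • a)).card (by omega) _ (fun t ht x hx => by
    rw [mem_sdiff] at hx ⊢
    refine ⟨hA t ht x hx.1, fun h => hx.2 ?_⟩
    obtain ⟨t', ht', e⟩ := mem_image.1 h
    exact mem_image.2 ⟨t⁻¹ * t', mem_KF.2 (T.mul_mem (T.inv_mem ht) (mem_KF.1 ht')),
      by rw [mul_smul, e, inv_smul_smul]⟩) (fun t ht x hx => hs t ht x (mem_sdiff.1 hx).1) rfl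
  rw [← hn, ← e2, ← e]
  exact dvd_add this dvd_rfl

/-- Two conjugate subgroups with different fixed point sets, each half of the points. -/
structure Pr (K J : Subgroup H) (F B : Finset Ω) (m : ℕ) : Prop where
  hF : ∀ a, a ∈ F ↔ ∀ k ∈ K, k • a = a
  hB : ∀ a, a ∈ B ↔ ∀ k ∈ J, k • a = a
  cF : F.card = m
  cB : B.card = m
  n : Fintype.card Ω = 2 * m
  ne : F ≠ B
  cj : ∀ L : Subgroup H, K ≤ L → J ≤ L → ∃ w ∈ L, ∀ h, h ∈ J ↔ w⁻¹ * h * w ∈ K

namespace Pr
variable {K J : Subgroup H} {F B : Finset Ω} {m : ℕ}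

omit [Fintype H] in
theorem symm (P : Pr K J F B m) : Pr J K B F m :=
  ⟨P.hB, P.hF, P.cB, P.cF, P.n, P.ne.symm, fun L h1 h2 => by
    obtain ⟨w, hw, e⟩ := P.cj L h2 h1
    exact ⟨w⁻¹, L.inv_mem hw, fun h => by rw [e]; simp [mul_assoc]⟩⟩

omit [Fintype H] in
theorem tr (P : Pr K J F B m) {w : H} (e : ∀ h, h ∈ J ↔ w⁻¹ * h * w ∈ K) (a : Ω) :
    w • a ∈ B ↔ a ∈ F := by
  rw [P.hF, P.hB]
  constructor
  · intro h k hk
    have := h (w * k * w⁻¹) ((e _).2 (by simpa [mul_assoc] using hk))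
    rwa [mul_smul, inv_smul_smul, mul_smul, smul_left_cancel_iff] at this
  · intro h k hk
    have := h _ ((e k).1 hk)
    rwa [mul_smul, mul_smul, inv_smul_eq_iff] at this

theorem card_eq (P : Pr K J F B m) : (KF J).card = (KF K).card := by
  obtain ⟨w, -, e⟩ := P.cj ⊤ le_top le_top
  refine card_bij (fun h _ => w⁻¹ * h * w) (fun h hh => mem_KF.2 ((e h).1 (mem_KF.1 hh)))
    (fun a _ b _ h => by simpa using h) fun k hk => ⟨w * k * w⁻¹, mem_KF.2 ((e _).2 ?_), by group⟩
  simpa [mul_assoc] using hk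

omit [Fintype H] in
theorem nb (P : Pr K J F B m) : ¬ ∀ u ∈ K, ∀ a ∈ B, u • a ∈ B := by
  intro h
  obtain ⟨w, hw, e⟩ := P.cj (St H B) (le_St h)
    (le_St fun v hv a ha => by rw [(P.hB a).1 ha v hv]; exact ha)
  exact P.ne (by ext a; rw [← P.tr e a, hw a])

omit [Fintype H] in
theorem sd (P : Pr K J F B m) : (F \ B).card = (B \ F).card := by
  have := card_sdiff_add_card_inter F B
  have := card_sdiff_add_card_inter B F
  rw [inter_comm] at this
  have := P.cF; have := P.cB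
  omega

omit [Fintype H] in
theorem nc (P : Pr K J F B m) {θ : ℕ} (M : ∀ h : H, h ≠ 1 → (Fx Ω h).card ≤ m + θ) {u v : H}
    (hu : u ∈ K) (hv : v ∈ J) (h : u * v ≠ v * u) : (B \ F).card ≤ wN B u + wN F v + θ := by
  have h1 := comm_bd (F := F) (B := B) (C := ∅) (u := u) (v := v)
    (fun a ha => (P.hF a).1 ha u hu) (fun a ha => (P.hB a).1 ha v hv) (by simp)
  have h2 := M ((v * u)⁻¹ * (u * v)) fun e => h (inv_mul_eq_one.1 e).symm
  have h3 := card_compl_add_card (F ∪ B)
  have h4 := card_sdiff_add_card B F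
  rw [union_comm] at h4
  have := P.cF; have := P.n
  rw [card_empty] at h1
  omega

omit [Fintype H] in
theorem fx_inv {z : H} (hz : ∀ u ∈ K, u * z = z * u) {u : H} (hu : u ∈ K) {a : Ω}
    (ha : z • a = a) : z • u • a = u • a := by
  rw [← mul_smul, ← hz u hu, mul_smul, ha]

omit [Fintype H] in
theorem cen0 (P : Pr K J F B m) (M : ∀ h : H, h ≠ 1 → (Fx Ω h).card ≤ m + 0) (z : H) (hz : z ∈ J)
    (hc : ∀ u ∈ K, u * z = z * u) : z = 1 := by
  by_contra h
  have h1 : B ⊆ Fx Ω z := fun a ha => mem_Fx.2 ((P.hB a).1 ha z hz)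
  have h2 := eq_of_subset_of_card_le h1 (by rw [P.cB]; exact M z h)
  exact P.nb fun u hu a ha => by
    rw [h2] at ha ⊢; exact mem_Fx.2 (fx_inv hc hu (mem_Fx.1 ha))

theorem lb0 (P : Pr K J F B m) (M : ∀ h : H, h ≠ 1 → (Fx Ω h).card ≤ m + 0) :
    (B \ F).card * ((KF K).card - 1) ≤ ∑ u ∈ KF K, wN B u + ∑ v ∈ KF J, wN F v :=
  layer P.card_eq _ _ _ (fun _ hu _ hv h => P.nc M hu hv h) (P.cen0 M)
    fun u hu h => P.symm.cen0 M u hu fun v hv => (h v hv).symm

end Pr

end CF.Prn
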