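import Cfsg.Agent.Pron.D

/-! The lower bound when elements may fix one extra point. -/

set_option autoImplicit false

namespace CF.Prn

open Finset
open scoped Classical

variable {Ω : Type} [Fintype Ω] {H : Type} [Group H] [Fintype H] [MulAction H Ω]

omit [Fintype H] in
theorem fx1 {m : ℕ} (M : ∀ h : H, h ≠ 1 → (Fx Ω h).card ≤ m + 1) {h : H} (h1 : h ≠ 1)
    {Z : Finset Ω} (hZ : Z.card = m) (hf : ∀ a ∈ Z, h • a = a) {x : Ω} (hx : x ∉ Z)
    (hx' : h • x = x) (a : Ω) : h • a = a ↔ a ∈ Z ∨ a = x := by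
  have e : insert x Z = Fx Ω h := eq_of_subset_of_card_le (fun a ha => mem_Fx.2 (by
    rcases mem_insert.1 ha with rfl | ha
    · exact hx'
    · exact hf a ha)) (by rw [card_insert_of_notMem hx, hZ]; exact M h h1)
  rw [← mem_Fx, ← e, mem_insert, or_comm]

omit [Fintype Ω] in
theorem sum_ge (K : Subgroup H) (y : Ω) (w : H → ℕ) (c : ℕ)
    (h : ∀ u ∈ K, u • y ≠ y → c ≤ w u) :
    ((KF K).card - ((KF K).filter (fun u => u • y = y)).card) * c ≤ ∑ u ∈ KF K, w u := by
  have e := card_filter_add_card_filter_not (s := KF K) (fun u => u • y = y)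
  rw [← e, Nat.add_sub_cancel_left, ← smul_eq_mul]
  refine (card_nsmul_le_sum _ w c fun u hu => ?_).trans (sum_le_sum_of_subset (filter_subset _ _))
  exact h u (mem_KF.1 (mem_filter.1 hu).1) (mem_filter.1 hu).2

namespace Pr
variable {K J : Subgroup H} {F B : Finset Ω} {m : ℕ}

theorem bad (P : Pr K J F B m) (M : ∀ h : H, h ≠ 1 → (Fx Ω h).card ≤ m + 1) (hm : 5 ≤ m)
    {z : H} (hz : z ∈ J) (hz1 : z ≠ 1) (hc : ∀ u ∈ K, u * z = z * u) :
    (B \ F).card * ((KF K).card - 1) ≤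
        ∑ u ∈ KF K, wN B u + ∑ v ∈ KF J, wN F v + ((KF K).card - 1) ∨
      16 ≤ m ∧ 11 * ((B \ F).card * ((KF K).card - 1)) ≤
        11 * (∑ u ∈ KF K, wN B u + ∑ v ∈ KF J, wN F v) + 15 * ((KF K).card - 1) := by
  have hnb := P.nb
  push Not at hnb
  obtain ⟨u0, hu0, a0, ha0, hy⟩ := hnb
  obtain ⟨y, hyd⟩ : ∃ y, y = u0 • a0 := ⟨_, rfl⟩
  rw [← hyd] at hy
  have zB : ∀ a ∈ B, z • a = a := fun a ha => (P.hB a).1 ha z hz
  have fz := fx1 M hz1 P.cB zB hy (by rw [hyd]; exact fx_inv hc hu0 (zB a0 ha0))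
  have inv : ∀ u ∈ K, ∀ a, a ∈ B ∨ a = y → u • a ∈ B ∨ u • a = y := fun u hu a ha =>
    (fz _).1 (fx_inv hc hu ((fz a).2 ha))
  have kF : ∀ u ∈ K, ∀ a, u • a ∈ F → a ∈ F := fun u hu a ha => by
    have := (P.hF _).1 ha _ (K.inv_mem hu)
    rw [inv_smul_smul] at this
    rwa [this]
  have yF : y ∉ F := fun h => by
    have h1 := kF u0 hu0 a0 (hyd ▸ h)
    rw [(P.hF _).1 h1 u0 hu0] at hyd
    exact hy (hyd ▸ ha0)
  have hO : (KF K).image (· • y) = insert y (B \ F) := by
    refine Subset.antisymm (fun x hx => ?_) fun x hx => ?_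
    · obtain ⟨u, hu, rfl⟩ := mem_image.1 hx
      rcases inv u (mem_KF.1 hu) y (Or.inr rfl) with h | h
      · exact mem_insert_of_mem (mem_sdiff.2 ⟨h, fun h => yF (kF u (mem_KF.1 hu) y h)⟩)
      · rw [h]; exact mem_insert_self _ _
    · rcases mem_insert.1 hx with rfl | hx
      · exact mem_image.2 ⟨1, mem_KF.2 K.one_mem, one_smul _ _⟩
      by_contra hn
      obtain ⟨w, hw, e⟩ := P.cj (St H ((B \ F) \ (KF K).image (· • y))) (le_St fun u hu a ha => by
        simp only [mem_sdiff] at ha ⊢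
        have h2 : u • a ∉ (KF K).image (· • y) := fun h => by
          obtain ⟨t, ht, e⟩ := mem_image.1 h
          exact ha.2 (mem_image.2 ⟨u⁻¹ * t, mem_KF.2 (K.mul_mem (K.inv_mem hu) (mem_KF.1 ht)),
            by rw [mul_smul, e, inv_smul_smul]⟩)
        refine ⟨⟨(inv u hu a (Or.inl ha.1.1)).resolve_right fun h => h2 ?_,
          fun h => ha.1.2 (kF u hu a h)⟩, h2⟩
        rw [h]; exact mem_image.2 ⟨1, mem_KF.2 K.one_mem, one_smul _ _⟩)
        (le_St fun v hv a ha => by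
          rw [(P.hB a).1 (mem_sdiff.1 (mem_sdiff.1 ha).1).1 v hv]; exact ha)
      have := (hw x).2 (mem_sdiff.2 ⟨hx, hn⟩)
      exact (mem_sdiff.1 hx).2 ((P.tr e x).1 (mem_sdiff.1 (mem_sdiff.1 this).1).1)
  have hk := orb_stab K y
  rw [hO, card_insert_of_notMem fun h => hy (mem_sdiff.1 h).1] at hk
  have stab : ∀ x, x ∉ F → ∀ h ∈ K, h ≠ 1 → h • x = x → x ∈ insert y (B \ F) := by
    intro x hx h hh h1 hx'
    have f := fx1 M h1 P.cF (fun a ha => (P.hF a).1 ha h hh) hx hx'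
    have : h • z • x = z • x := by rw [← mul_smul, hc h hh, mul_smul, hx']
    rcases (f _).1 this with h2 | h2
    · refine absurd ((P.hF x).2 fun k hk => smul_left_cancel z ?_) hx
      rw [← mul_smul, ← hc k hk, mul_smul, (P.hF _).1 h2 k hk]
    · rcases (fz x).1 h2 with h3 | h3
      · exact mem_insert_of_mem (mem_sdiff.2 ⟨h3, hx⟩)
      · rw [h3]; exact mem_insert_self _ _
  obtain ⟨w, hwy, e⟩ : ∃ w : H, w • y = y ∧ ∀ h, h ∈ J ↔ w⁻¹ * h * w ∈ K := by
    obtain ⟨w, -, e⟩ := P.cj ⊤ le_top le_top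
    have hx : w⁻¹ • y ∉ F := fun h => hy (by simpa using (P.tr e _).2 h)
    have := stab _ hx _ ((e z).1 hz) (fun h => hz1 (by
      have : z = w * (w⁻¹ * z * w) * w⁻¹ := by group
      rw [this, h]; group)) (by rw [mul_smul, smul_inv_smul, mul_smul, (fz y).2 (Or.inr rfl)])
    rw [← hO] at this
    obtain ⟨t, ht, e'⟩ := mem_image.1 this
    refine ⟨w * t, by rw [mul_smul, e', smul_inv_smul], fun h => ?_⟩
    rw [e, show (w * t)⁻¹ * h * (w * t) = t⁻¹ * (w⁻¹ * h * w) * t by group,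
      K.mul_mem_cancel_right (mem_KF.1 ht), K.mul_mem_cancel_left (K.inv_mem (mem_KF.1 ht))]
  have hwy' : w⁻¹ • y = y := by rw [inv_smul_eq_iff, hwy]
  have hJy : ((KF J).filter (fun v => v • y = y)).card =
      ((KF K).filter (fun u => u • y = y)).card := by
    refine card_bij (fun h _ => w⁻¹ * h * w) (fun h hh => ?_) (fun a _ b _ h => by simpa using h)
      fun k hk => ⟨w * k * w⁻¹, ?_, by group⟩
    · simp only [mem_filter, mem_KF] at hh ⊢
      exact ⟨(e h).1 hh.1, by rw [mul_smul, mul_smul, hwy, hh.2, hwy']⟩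
    · simp only [mem_filter, mem_KF] at hk ⊢
      exact ⟨(e _).2 (by simpa [mul_assoc] using hk.1),
        by rw [mul_smul, mul_smul, hwy', hk.2, hwy]⟩
  have w1 : ∀ u ∈ K, u • y ≠ y → 1 ≤ wN B u := fun u hu h => by
    refine card_pos.2 ⟨u⁻¹ • y, mem_filter.2 ⟨?_, by rwa [smul_inv_smul]⟩⟩
    exact (inv _ (K.inv_mem hu) y (Or.inr rfl)).resolve_right fun e => h (inv_smul_eq_iff.1 e).symm
  have w2 : ∀ u ∈ K, wN B u ≤ 1 := fun u hu => by
    refine (card_le_card (t := {u⁻¹ • y}) fun a ha => ?_).trans (card_singleton _).le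
    rw [mem_filter] at ha
    rw [mem_singleton, eq_inv_smul_iff]
    exact (inv u hu a (Or.inl ha.1)).resolve_left ha.2
  have w3 : ∀ u ∈ K, u • y = y → wN B u = 0 := fun u hu h => by
    refine card_eq_zero.2 (filter_eq_empty_iff.2 fun a ha h' => hy ?_)
    have := (inv u hu a (Or.inl ha)).resolve_left h'
    rw [← h, smul_left_cancel_iff] at this
    rwa [← this]
  have v1 : ∀ v ∈ J, v • y ≠ y → (B \ F).card - 2 ≤ wN F v := by
    intro v hv h
    by_cases hcv : ∀ u ∈ K, u * v = v * u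
    · refine absurd (fun u hu a ha => ?_) P.nb
      refine (inv u hu a (Or.inl ha)).resolve_right fun e => h ?_
      rw [← e]; exact fx_inv hcv hu ((P.hB a).1 ha v hv)
    · push Not at hcv
      obtain ⟨u, hu, hn⟩ := hcv
      have := P.nc M hu hv hn
      have := w2 u hu
      omega
  have S1 := sum_ge K y _ 1 w1
  have hkJ := P.card_eq
  by_cases hI : ∀ v ∈ J, v • y ≠ y → ∃ t ∈ K, t • y = y ∧ t * v ≠ v * t
  · have S2 := sum_ge J y (wN F) ((B \ F).card - 1) fun v hv h => by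
      obtain ⟨t, ht, h1, h2⟩ := hI v hv h
      have := P.nc M ht hv h2
      have := w3 t ht h1
      omega
    left
    rw [hkJ, hJy] at S2
    generalize ∑ u ∈ KF K, wN B u = X at *
    generalize ∑ u ∈ KF J, wN F u = Y at *
    have h0 : 0 < (KF K).card := card_pos.2 ⟨1, mem_KF.2 K.one_mem⟩
    generalize (KF K).card = k at *
    generalize ((KF K).filter (fun u => u • y = y)).card = τ at *
    generalize (B \ F).card = s at *
    have e1 : k - τ = s * τ := by rw [hk, add_mul, one_mul, Nat.add_sub_cancel]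
    rw [e1] at S1 S2
    obtain ⟨k', rfl⟩ : ∃ k', k = k' + 1 := ⟨k - 1, by omega⟩
    rw [Nat.add_sub_cancel]
    rcases s with _ | s
    · simp
    rw [Nat.add_sub_cancel] at S2
    have : 1 ≤ τ := Nat.pos_of_ne_zero fun h => by simp [h] at hk
    nlinarith
  push Not at hI
  obtain ⟨v0, hv0, hv0y, hv0c⟩ := hI
  have hh0 : w⁻¹ * z * w ∈ K := (e z).1 hz
  have hh1 : w⁻¹ * z * w ≠ 1 := fun h => hz1 (by
    have : z = w * (w⁻¹ * z * w) * w⁻¹ := by group
    rw [this, h]; group)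
  have hh2 : (w⁻¹ * z * w) • y = y := by
    rw [mul_smul, mul_smul, hwy, (fz y).2 (Or.inr rfl), hwy']
  generalize w⁻¹ * z * w = h0 at hh0 hh1 hh2
  have s3 : (B \ F).card ≤ 3 := by
    have f := fx1 M hh1 P.cF (fun a ha => (P.hF a).1 ha h0 hh0) yF hh2
    have : wN F v0 ≤ 1 := by
      refine (card_le_card (t := {v0⁻¹ • y}) fun a ha => ?_).trans (card_singleton _).le
      rw [mem_filter] at ha
      rw [mem_singleton, eq_inv_smul_iff]
      refine ((f _).1 ?_).resolve_left ha.2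
      rw [← mul_smul, hv0c h0 hh0 hh2, mul_smul, (P.hF a).1 ha.1 h0 hh0]
    have := v1 v0 hv0 hv0y
    omega
  have eT : KF (K ⊓ MulAction.stabilizer H y) = (KF K).filter (fun u => u • y = y) := by
    ext u; simp
  have dv := semireg_dvd (K ⊓ MulAction.stabilizer H y) (B \ F) (fun t ht a ha => by
    rw [mem_sdiff] at ha ⊢
    refine ⟨(inv t ht.1 a (Or.inl ha.1)).resolve_right fun h => hy ?_, fun h => ha.2 (kF t ht.1 a h)⟩
    have h2 : t • y = y := ht.2
    rw [← h2, smul_left_cancel_iff] at h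
    exact h ▸ ha.1) (fun t ht a ha h => by
    by_contra h1
    rw [mem_sdiff] at ha
    rcases (fx1 M h1 P.cF (fun a ha => (P.hF a).1 ha t ht.1) yF ht.2 a).1 h with h | h
    · exact ha.2 h
    · exact hy (h ▸ ha.1))
  rw [eT] at dv
  have t2 : 1 < ((KF K).filter (fun u => u • y = y)).card :=
    one_lt_card.2 ⟨1, by simp, h0, by simp [hh0, hh2], hh1.symm⟩
  have s0 : (B \ F).card ≠ 0 := fun h => P.ne (eq_of_subset_of_card_le
    (sdiff_eq_empty_iff_subset.1 (card_eq_zero.1 h)) (by rw [P.cF, P.cB])).symm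
  have S2 := sum_ge J y _ _ v1
  rw [hkJ, hJy] at S2
  have t3 := Nat.le_of_dvd (Nat.pos_of_ne_zero s0) dv
  by_cases h2 : (B \ F).card = 2
  · left
    have hn := P.symm.nb
    push Not at hn
    obtain ⟨v, hv, a, ha, ha'⟩ := hn
    have : 1 ≤ wN F v := card_pos.2 ⟨a, mem_filter.2 ⟨ha, ha'⟩⟩
    have := single_le_sum (f := wN F) (fun _ _ => Nat.zero_le _) (mem_KF.2 hv)
    have : ((KF K).filter (fun u => u • y = y)).card = 2 := by omega
    rw [this, h2] at hk
    rw [this, hk] at S1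
    rw [h2, hk]
    omega
  have h3 : (B \ F).card = 3 := by omega
  have : ((KF K).filter (fun u => u • y = y)).card = 3 := by
    rw [h3] at dv
    exact ((Nat.dvd_prime Nat.prime_three).1 dv).resolve_left (by omega)
  rw [this, h3] at hk
  rw [this, hk] at S1
  rw [this, hk, h3] at S2
  right
  refine ⟨?_, by rw [h3, hk]; omega⟩
  have dv2 := semireg_dvd K (Fᶜ \ insert y (B \ F)) (fun t ht a ha => by
    rw [mem_sdiff, mem_compl, ← hO] at ha ⊢
    refine ⟨fun h => ha.1 (kF t ht a h), fun h => ha.2 ?_⟩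
    obtain ⟨t', ht', e⟩ := mem_image.1 h
    exact mem_image.2 ⟨t⁻¹ * t', mem_KF.2 (K.mul_mem (K.inv_mem ht) (mem_KF.1 ht')),
      by rw [mul_smul, e, inv_smul_smul]⟩) (fun t ht a ha h => by
    by_contra h1
    rw [mem_sdiff, mem_compl] at ha
    exact ha.2 (stab a ha.1 t ht h1 h))
  have sub : insert y (B \ F) ⊆ Fᶜ := fun a ha => by
    rcases mem_insert.1 ha with rfl | ha
    · exact mem_compl.2 yF
    · exact mem_compl.2 (mem_sdiff.1 ha).2
  have c1 := card_sdiff_add_card_eq_card sub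
  rw [card_insert_of_notMem fun h => hy (mem_sdiff.1 h).1, h3] at c1
  have c2 := card_compl_add_card F
  have := P.n; have := P.cF
  rw [hk] at dv2
  omega

theorem lb1 (P : Pr K J F B m) (M : ∀ h : H, h ≠ 1 → (Fx Ω h).card ≤ m + 1) (hm : 5 ≤ m) :
    (B \ F).card * ((KF K).card - 1) ≤
        ∑ u ∈ KF K, wN B u + ∑ v ∈ KF J, wN F v + ((KF K).card - 1) ∨
      16 ≤ m ∧ 11 * ((B \ F).card * ((KF K).card - 1)) ≤
        11 * (∑ u ∈ KF K, wN B u + ∑ v ∈ KF J, wN F v) + 15 * ((KF K).card - 1) := by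
  by_cases CJ : ∀ v ∈ J, (∀ u ∈ K, u * v = v * u) → v = 1
  · by_cases CK : ∀ u ∈ K, (∀ v ∈ J, u * v = v * u) → u = 1
    · left
      have := layer P.card_eq (wN B) (wN F) ((B \ F).card - 1) (fun _ hu _ hv h => by
        have := P.nc M hu hv h; omega) CJ CK
      rw [Nat.sub_mul, one_mul] at this
      omega
    · push Not at CK
      obtain ⟨z, hz, hc, h1⟩ := CK
      have := P.symm.bad M hm hz h1 fun u hu => (hc u hu).symm
      rw [P.sd, P.card_eq, add_comm (∑ u ∈ KF J, wN F u)] at this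
      exact this
  · push Not at CJ
    obtain ⟨z, hz, hc, h1⟩ := CJ
    exact P.bad M hm hz h1 hc

end Pr

end CF.Prn
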