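import Cfsg.Agent.Pron.E
import Mathlib.GroupTheory.Perm.Cycle.Type

/-! The multiply transitive case. -/

set_option autoImplicit false

namespace CF.Prn

open Finset
open scoped Classical

variable {Ω : Type} [Fintype Ω] {H : Type} [Group H] [Fintype H] [MulAction H Ω]

def cjK (K : Subgroup H) (g : H) : Subgroup H := K.comap (MulAut.conj g).toMonoidHom

omit [Fintype H] in
theorem mem_cjK {K : Subgroup H} {g h : H} : h ∈ cjK K g ↔ g * h * g⁻¹ ∈ K := Iff.rfl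

/-- Pronormality. -/
def Pn (K : Subgroup H) : Prop := ∀ (g : H) (L : Subgroup H), K ≤ L → cjK K g ≤ L →
  ∃ w ∈ L, ∀ h, h ∈ cjK K g ↔ w⁻¹ * h * w ∈ K

noncomputable def pull (F : Finset Ω) (g : H) : Finset Ω := univ.filter (fun a => g • a ∈ F)

omit [Fintype H] in
@[simp] theorem mem_pull {F : Finset Ω} {g : H} {a : Ω} : a ∈ pull F g ↔ g • a ∈ F := by
  simp [pull]

omit [Fintype H] in
theorem card_pull (F : Finset Ω) (g : H) : (pull F g).card = F.card :=
  card_bij (fun a _ => g • a) (fun _ ha => mem_pull.1 ha) (fun _ _ _ _ h => smul_left_cancel g h)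
    fun b hb => ⟨g⁻¹ • b, by simpa using hb, smul_inv_smul _ _⟩

omit [Fintype H] in
theorem fix_cjK {K : Subgroup H} {F : Finset Ω} (hF : ∀ a, a ∈ F ↔ ∀ k ∈ K, k • a = a) (g : H)
    (a : Ω) : a ∈ pull F g ↔ ∀ k ∈ cjK K g, k • a = a := by
  rw [mem_pull, hF]
  constructor
  · intro h k hk
    have := h _ (mem_cjK.1 hk)
    rwa [mul_smul, inv_smul_smul, mul_smul, smul_left_cancel_iff] at this
  · intro h k hk
    have := h (g⁻¹ * k * g) (mem_cjK.2 (by simpa [mul_assoc] using hk))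
    rwa [mul_smul, mul_smul, inv_smul_eq_iff] at this

omit [Fintype H] in
theorem mkPr {K : Subgroup H} (hP : Pn K) {F : Finset Ω} (hF : ∀ a, a ∈ F ↔ ∀ k ∈ K, k • a = a)
    (hn : Fintype.card Ω = 2 * F.card) {g : H} (hg : F ≠ pull F g) :
    Pr K (cjK K g) F (pull F g) F.card :=
  ⟨hF, fix_cjK hF g, rfl, card_pull F g, hn, hg, hP g⟩

omit [Fintype H] in
theorem W_wN (F : Finset Ω) (u g : H) : W F u g = wN (pull F g) u := by
  rw [wN, pull, filter_filter, card_filter, W]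
  push_cast
  refine sum_congr rfl fun a _ => ?_
  simp only [ch, cb, mem_filter, mem_univ, true_and]
  split_ifs <;> simp_all

omit [Fintype H] in
theorem wN_cj (F : Finset Ω) (u g : H) : wN F (g⁻¹ * u * g) = wN (pull F g⁻¹) u := by
  refine card_bij (fun a _ => g • a) (fun a ha => ?_) (fun _ _ _ _ h => smul_left_cancel g h)
    fun b hb => ⟨g⁻¹ • b, ?_, smul_inv_smul _ _⟩
  · simpa [mul_smul] using ha
  · simpa [mul_smul] using hb

theorem sum_cj (K : Subgroup H) (F : Finset Ω) (g : H) :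
    ((∑ v ∈ KF (cjK K g), wN F v : ℕ) : ℚ) = ∑ u ∈ KF K, W F u g⁻¹ := by
  push_cast
  refine (sum_bij (fun u _ => g⁻¹ * u * g) (fun u hu => ?_) (fun a _ b _ h => by simpa using h)
    (fun v hv => ⟨g * v * g⁻¹, mem_KF.2 (mem_cjK.1 (mem_KF.1 hv)), by group⟩)
    fun u _ => by rw [W_wN, wN_cj]).symm
  exact mem_KF.2 (mem_cjK.2 (by simpa [mul_assoc] using hu))

theorem W_zero {K : Subgroup H} {F : Finset Ω} (hF : ∀ a, a ∈ F ↔ ∀ k ∈ K, k • a = a) {g : H}
    (hg : F = pull F g) : ∑ u ∈ KF K, W F u g + ∑ u ∈ KF K, W F u g⁻¹ = 0 := by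
  have h2 : pull F g⁻¹ = F := by
    ext a; rw [mem_pull]; conv_lhs => rw [hg]
    simp
  have h3 : ∀ u ∈ KF K, (wN F u : ℚ) = 0 := fun u hu => by
    rw [Nat.cast_eq_zero, wN, card_eq_zero, filter_eq_empty_iff]
    intro a ha h
    exact h (by rw [(hF a).1 ha u (mem_KF.1 hu)]; exact ha)
  simp only [W_wN, h2, ← hg, sum_congr rfl h3]
  simp

theorem two_le {K : Subgroup H} (hK : K ≠ ⊥) : 2 ≤ (KF K).card := by
  rw [card_KF]; exact (Subgroup.one_lt_card_iff_ne_bot K).2 hK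

theorem fin0 (h1 : Tr1 H Ω) (h2 : Tr2 H Ω) (h3 : Tr3 H Ω) {K : Subgroup H} (hP : Pn K)
    (hK : K ≠ ⊥) {F : Finset Ω} (hF : ∀ a, a ∈ F ↔ ∀ k ∈ K, k • a = a)
    (hn : Fintype.card Ω = 2 * F.card) (hm : 2 ≤ F.card)
    (M : ∀ h : H, h ≠ 1 → (Fx Ω h).card ≤ F.card + 0) : False := by
  have k2 := two_le hK
  refine num0 h1 h2 h3 F (by exact_mod_cast hn) hm (KF K) (mem_KF.2 K.one_mem) k2
    (fun u hu a ha => (hF a).1 ha u (mem_KF.1 hu)) (fun g => ?_) fun g hg => W_zero hF ?_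
  · by_cases hg : F = pull F g
    · rw [W_zero hF hg, sv_nat, ← pull, ← hg]; simp
    · have := (mkPr hP hF hn hg).lb0 M
      rw [← sum_cj, sv_nat, ← pull]
      simp only [W_wN]
      have e : ((KF K).card - 1 : ℚ) = ((KF K).card - 1 : ℕ) := by
        rw [Nat.cast_sub (by omega), Nat.cast_one]
      rw [e, mul_comm]
      exact_mod_cast this
  · rw [sv_nat, ← pull, Nat.cast_eq_zero, card_eq_zero, sdiff_eq_empty_iff_subset] at hg
    exact (eq_of_subset_of_card_le hg (card_pull F g).ge).symm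

theorem fin1 (h1 : Tr1 H Ω) (h2 : Tr2 H Ω) (h3 : Tr3 H Ω) (h4 : Tr4 H Ω) {K : Subgroup H}
    (hP : Pn K) (hK : K ≠ ⊥) {F : Finset Ω} (hF : ∀ a, a ∈ F ↔ ∀ k ∈ K, k • a = a)
    (hn : Fintype.card Ω = 2 * F.card) (hm : 6 ≤ F.card)
    (M : ∀ h : H, h ≠ 1 → (Fx Ω h).card ≤ F.card + 1) : False := by
  have k2 := two_le hK
  have k2' : (0 : ℚ) ≤ (KF K).card - 1 := by
    have : (2 : ℚ) ≤ (KF K).card := by exact_mod_cast k2
    linarith
  obtain ⟨θ, hθ, hθ'⟩ : ∃ θ : ℚ, (θ = 1 ∧ 6 ≤ F.card ∨ θ = 15 / 11 ∧ 16 ≤ F.card) ∧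
      (16 ≤ F.card → θ = 15 / 11) := by
    by_cases h : 16 ≤ F.card
    · exact ⟨_, Or.inr ⟨rfl, h⟩, fun _ => rfl⟩
    · exact ⟨_, Or.inl ⟨rfl, hm⟩, fun h' => absurd h' h⟩
  have θ1 : 1 ≤ θ := by rcases hθ with h | h <;> rw [h.1] <;> norm_num
  refine num1 h1 h2 h3 h4 F (by exact_mod_cast hn) θ hθ (KF K) (mem_KF.2 K.one_mem) k2
    (fun u hu a ha => (hF a).1 ha u (mem_KF.1 hu)) (fun g => ?_)
  by_cases hg : F = pull F g
  · rw [W_zero hF hg, sv_nat, ← pull, ← hg]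
    simp only [sdiff_self, bot_eq_empty, card_empty, Nat.cast_zero]
    nlinarith
  · have := (mkPr hP hF hn hg).lb1 M (by omega)
    rw [← sum_cj, sv_nat, ← pull]
    simp only [W_wN]
    have e : ((KF K).card - 1 : ℚ) = ((KF K).card - 1 : ℕ) := by
      rw [Nat.cast_sub (by omega), Nat.cast_one]
    rw [e] at k2' ⊢
    rw [← Nat.cast_sum]
    generalize (KF K).card - 1 = k at *
    generalize ∑ u ∈ KF K, wN (pull F g) u = X at *
    generalize ∑ u ∈ KF (cjK K g), wN F u = Y at *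
    generalize (pull F g \ F).card = s at *
    rcases this with h | ⟨h16, h⟩
    · have : (s : ℚ) * k ≤ X + Y + k := by exact_mod_cast h
      nlinarith
    · have : 11 * ((s : ℚ) * k) ≤ 11 * (X + Y) + 15 * k := by exact_mod_cast h
      rw [hθ' h16]
      linarith

theorem sup3 (h3 : Tr3 H Ω) {K : Subgroup H} (hP : Pn K) {F : Finset Ω}
    (hF : ∀ a, a ∈ F ↔ ∀ k ∈ K, k • a = a) (hn : Fintype.card Ω = 2 * F.card) (hm : 2 ≤ F.card)
    {u : H} {a0 : Ω} (h0 : u • a0 ≠ a0) : (Fx Ω u).card + 4 ≤ Fintype.card Ω := by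
  by_contra hc
  obtain ⟨c0, hc1, hc2, hc0⟩ : ∃ c0, a0 ≠ c0 ∧ u • a0 ≠ c0 ∧
      ∀ x, x ≠ a0 → x ≠ u • a0 → x ≠ c0 → u • x = x := by
    have m1 : a0 ∈ (Fx Ω u)ᶜ := by simpa using h0
    have m2 : u • a0 ∈ ((Fx Ω u)ᶜ).erase a0 := by simpa using h0
    have e1 := card_erase_add_one m1
    have e2 := card_erase_add_one m2
    have e3 := card_compl_add_card (Fx Ω u)
    rcases ((((Fx Ω u)ᶜ).erase a0).erase (u • a0)).eq_empty_or_nonempty with h | ⟨c, h⟩
    · obtain ⟨c, -, hc⟩ := exists_mem_notMem_of_card_lt_card (s := {a0, u • a0}) (t := univ)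
        (by rw [card_univ]; exact (card_le_two).trans_lt (by omega))
      simp only [mem_insert, mem_singleton, not_or] at hc
      refine ⟨c, Ne.symm hc.1, Ne.symm hc.2, fun x x1 x2 _ => by_contra fun hx => ?_⟩
      exact (eq_empty_iff_forall_notMem.1 h) x (by simp [x1, x2, hx])
    · refine ⟨c, (ne_of_mem_erase (mem_of_mem_erase h)).symm, (ne_of_mem_erase h).symm,
        fun x x1 x2 x3 => by_contra fun hx => x3 ?_⟩
      exact card_le_one.1 (by omega) x (by simp [x1, x2, hx]) c h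
  obtain ⟨g, -, hg⟩ := exists_max_image (univ : Finset H) (fun g => (pull F g \ F).card)
    univ_nonempty
  have c1 := card_pull F g
  have c2 := card_compl_add_card F
  have c3 := card_compl_add_card (pull F g)
  by_cases hd : ∃ a ∈ pull F g, a ∈ F
  · obtain ⟨a, ha, haF⟩ := hd
    obtain ⟨b, hb1, hb2⟩ : ∃ b, b ∉ F ∧ b ∉ pull F g := by
      by_contra hn
      push Not at hn
      have : Fᶜ = pull F g := eq_of_subset_of_card_le (fun x hx => hn x (mem_compl.1 hx)) (by omega)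
      exact mem_compl.1 (this ▸ ha) haF
    obtain ⟨c, hc, hcb⟩ := exists_mem_ne (s := (pull F g)ᶜ) (by omega) b
    rw [mem_compl] at hc
    obtain ⟨t, t1, t2, t3⟩ := h3 a0 (u • a0) c0 a b c h0.symm hc1 hc2
      (fun e => hb2 (e ▸ ha)) (fun e => hc (e ▸ ha)) hcb.symm
    have := hg (g * (t * u⁻¹ * t⁻¹)) (mem_univ _)
    refine absurd this (not_le.2 (lt_of_lt_of_le (lt_add_one _) ?_))
    rw [← card_insert_of_notMem (a := b) fun h => hb2 (mem_sdiff.1 h).1]
    refine card_le_card fun x hx => ?_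
    rcases mem_insert.1 hx with rfl | hx
    · refine mem_sdiff.2 ⟨mem_pull.2 ?_, hb1⟩
      rw [mul_smul, mul_smul, mul_smul, ← t2, inv_smul_smul, inv_smul_smul, t1]
      exact mem_pull.1 ha
    · rw [mem_sdiff] at hx ⊢
      refine ⟨mem_pull.2 ?_, hx.2⟩
      have : u • t⁻¹ • x = t⁻¹ • x := hc0 _
        (fun e => hx.2 (by rw [inv_smul_eq_iff.1 e, t1]; exact haF))
        (fun e => hb2 (by rw [← t2, ← e, smul_inv_smul]; exact hx.1))
        (fun e => hc (by rw [← t3, ← e, smul_inv_smul]; exact hx.1))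
      rw [mul_smul, mul_smul, mul_smul, inv_smul_eq_iff.2 this.symm, smul_inv_smul]
      exact mem_pull.1 hx.1
  · push Not at hd
    have e : pull F g = Fᶜ := eq_of_subset_of_card_le (fun x hx => mem_compl.2 (hd x hx)) (by omega)
    obtain ⟨a, ha⟩ : F.Nonempty := card_pos.1 (by omega)
    refine (mkPr hP hF hn (g := g) fun h => hd a (h ▸ ha) ha).nb fun k hk x hx => ?_
    rw [e, mem_compl] at hx ⊢
    intro h
    have := (hF _).1 h _ (K.inv_mem hk)
    rw [inv_smul_smul] at this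
    exact hx (this ▸ h)

omit [Fintype H] in
theorem sup4 (h4 : Tr4 H Ω) (hn : 5 ≤ Fintype.card Ω) {u : H}
    (hu : (Fx Ω u).card + 4 = Fintype.card Ω) :
    ∃ (h : H) (a : Ω), h • a ≠ a ∧ Fintype.card Ω ≤ (Fx Ω h).card + 3 := by
  have e3 := card_compl_add_card (Fx Ω u)
  obtain ⟨d, hd⟩ : ((Fx Ω u)ᶜ).Nonempty := card_pos.1 (by omega)
  obtain ⟨e, he⟩ : (Fx Ω u).Nonempty := card_pos.1 (by omega)
  have e1 := card_erase_add_one hd
  obtain ⟨a, b, c, ab, ac, bc, h⟩ := card_eq_three.1 (show (((Fx Ω u)ᶜ).erase d).card = 3 by omega)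
  have mem : ∀ x, x ≠ d ∧ u • x ≠ x ↔ x = a ∨ x = b ∨ x = c := fun x => by
    have := Finset.ext_iff.1 h x
    simpa using this
  have ha := (mem a).2 (Or.inl rfl)
  have hb := (mem b).2 (Or.inr (Or.inl rfl))
  have hc := (mem c).2 (Or.inr (Or.inr rfl))
  rw [mem_Fx] at he
  have hd' : u • d ≠ d := by simpa using hd
  obtain ⟨g, g1, g2, g3, g4⟩ := h4 a b c d a b c e ab ac bc ha.1 hb.1 hc.1 ab ac bc
    (fun h => ha.2 (h ▸ he)) (fun h => hb.2 (h ▸ he)) (fun h => hc.2 (h ▸ he))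
  have gf : ∀ x, x ≠ d → u • x ≠ x → g • x = x := fun x h1 h2 => by
    rcases (mem x).1 ⟨h1, h2⟩ with rfl | rfl | rfl <;> assumption
  refine ⟨u⁻¹ * (g * u * g⁻¹), e, ?_, ?_⟩
  · rw [mul_smul, mul_smul, mul_smul, ← g4, inv_smul_smul, gf (u • d) hd' (by simpa using hd'),
      inv_smul_smul, g4]
    exact fun h => hd' (h ▸ he)
  · have : ({d, e, u⁻¹ • d} : Finset Ω)ᶜ ⊆ Fx Ω (u⁻¹ * (g * u * g⁻¹)) := fun x hx => by
      simp only [mem_compl, mem_insert, mem_singleton, not_or] at hx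
      rw [mem_Fx, mul_smul, inv_smul_eq_iff, mul_smul, mul_smul]
      by_cases h : u • x = x
      · have : u • g⁻¹ • x = g⁻¹ • x := by
          by_contra h'
          by_cases hd : g⁻¹ • x = d
          · exact hx.2.1 (by rw [← g4, ← hd, smul_inv_smul])
          · have := gf _ hd h'
            rw [smul_inv_smul] at this
            exact h' (this ▸ h)
        rw [this, smul_inv_smul, h]
      · rw [inv_smul_eq_iff.2 (gf x hx.1 h).symm]
        exact gf _ (fun e => hx.2.2 (eq_inv_smul_iff.2 e)) (by simpa using h)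
    have h1 := card_le_card this
    have h2 := card_compl_add_card ({d, e, u⁻¹ • d} : Finset Ω)
    have h3 : ({d, e, u⁻¹ • d} : Finset Ω).card ≤ 3 := card_le_three
    omega

theorem boch (h2 : Tr2 H Ω) (h3 : Tr3 H Ω) (h4 : Tr4 H Ω) {m : ℕ} (hn : Fintype.card Ω = 2 * m)
    (M5 : ∀ h : H, h ≠ 1 → (Fx Ω h).card + 5 ≤ Fintype.card Ω) (h : H) (h1 : h ≠ 1) :
    (Fx Ω h).card ≤ m + 1 := by
  obtain ⟨u, hu, mx⟩ := exists_max_image (univ.filter (fun h : H => h ≠ 1))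
    (fun h => (Fx Ω h).card) ⟨h, by simpa using h1⟩
  simp only [mem_filter, mem_univ, true_and] at hu mx
  by_contra hc
  have c1 := mx h h1
  have c2 := M5 u hu
  have c3 : ((Fx Ω u).card : ℚ) + 5 ≤ nn Ω := by exact_mod_cast c2
  have c4 : (m : ℚ) + 2 ≤ (Fx Ω u).card := by exact_mod_cast (show m + 2 ≤ (Fx Ω u).card by omega)
  have c5 : nn Ω = 2 * m := by exact_mod_cast hn
  have pt : ∀ (g : H) (C : Finset Ω), (∀ y ∈ C, y ∉ Fx Ω u ∧ y ∉ pull (Fx Ω u) g ∧
      u • (g⁻¹ * u * g) • y = (g⁻¹ * u * g) • u • y) →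
      0 ≤ W (Fx Ω u) u g * (W (Fx Ω u) u g + W (Fx Ω u) u g⁻¹ - sv (Fx Ω u) g - C.card) := by
    intro g C hC
    by_cases h0 : wN (pull (Fx Ω u) g) u = 0
    · rw [W_wN, h0]; simp
    refine mul_nonneg (W_nonneg _ _ _) ?_
    obtain ⟨a, ha⟩ := card_pos.1 (Nat.pos_of_ne_zero h0)
    simp only [mem_filter, mem_pull, mem_Fx] at ha
    have hv : ∀ a ∈ pull (Fx Ω u) g, (g⁻¹ * u * g) • a = a := fun a ha => by
      rw [mul_smul, mul_smul, mem_Fx.1 (mem_pull.1 ha), inv_smul_smul]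
    have b1 := comm_bd (fun a ha => mem_Fx.1 ha) hv hC
    have b2 := mx (((g⁻¹ * u * g) * u)⁻¹ * (u * (g⁻¹ * u * g))) fun e => ha.2 (by
      have := congrArg (· • a) (inv_mul_eq_one.1 e)
      simp only [mul_smul, ha.1, inv_smul_smul, inv_smul_eq_iff] at this
      exact this)
    have b3 := card_compl_add_card (Fx Ω u ∪ pull (Fx Ω u) g)
    have b4 := card_sdiff_add_card (pull (Fx Ω u) g) (Fx Ω u)
    rw [union_comm] at b4
    rw [W_wN, W_wN, ← wN_cj, sv_nat, ← pull]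
    have : C.card + (pull (Fx Ω u) g \ Fx Ω u).card ≤
        wN (pull (Fx Ω u) g) u + wN (Fx Ω u) (g⁻¹ * u * g) := by omega
    have : (C.card : ℚ) + (pull (Fx Ω u) g \ Fx Ω u).card ≤
        wN (pull (Fx Ω u) g) u + wN (Fx Ω u) (g⁻¹ * u * g) := by exact_mod_cast this
    linarith
  by_cases huu : u * u = 1
  · have uu : ∀ a : Ω, u • u • a = a := fun a => by rw [← mul_smul, huu, one_smul]
    have ev := Equiv.Perm.two_dvd_card_support (σ := MulAction.toPerm (β := Ω) u)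
      (by ext a; simp [sq, uu])
    have es : (MulAction.toPerm (β := Ω) u).support = (Fx Ω u)ᶜ := by ext a; simp
    have e3 := card_compl_add_card (Fx Ω u)
    rw [es] at ev
    have c6 : ((Fx Ω u).card : ℚ) + 6 ≤ nn Ω := by
      exact_mod_cast (show (Fx Ω u).card + 6 ≤ Fintype.card Ω by omega)
    refine boch_num h2 h3 h4 (Fx Ω u) u (fun a => mem_Fx) _ _ 1 rfl rfl (by linarith)
      (Or.inr ⟨rfl, by linarith, uu⟩) fun g => ?_
    have := pt g (((Fx Ω u)ᶜ).filter (fun y => g • y ∉ Fx Ω u ∧ g • u • y = u • g • y))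
      fun y hy => by
        simp only [mem_filter, mem_compl] at hy
        refine ⟨hy.1, fun h => hy.2.1 (mem_pull.1 h), ?_⟩
        rw [mul_smul, mul_smul, mul_smul, mul_smul, hy.2.2, uu, ← hy.2.2, inv_smul_smul, uu,
          inv_smul_smul]
    convert this using 3
    rw [one_mul, Cc, card_filter]
    push_cast
    refine sum_congr rfl fun y _ => ?_
    have : ∀ z, dl z (g • y) * dl (u • z) (g • u • y) =
        if g • y = z then (if g • u • y = u • g • y then 1 else 0) else 0 := fun z => by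
      unfold dl; split_ifs <;> simp_all
    simp only [this, sum_ite_eq, mem_compl]
    split_ifs <;> simp_all
  · have e : Fx Ω u = Fx Ω (u * u) := eq_of_subset_of_card_le
      (fun a ha => mem_Fx.2 (by rw [mul_smul, mem_Fx.1 ha, mem_Fx.1 ha])) (mx _ huu)
    refine boch_num h2 h3 h4 (Fx Ω u) u (fun a => mem_Fx) _ _ 0 rfl rfl (by linarith)
      (Or.inl ⟨rfl, by linarith, fun a ha h => ha (by rw [e, mem_Fx, mul_smul, h])⟩) fun g => ?_
    simpa using pt g ∅ (by simp)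

theorem fin3 (hf : ∀ h : H, h ≠ 1 → ∃ a : Ω, h • a ≠ a) (h1 : Tr1 H Ω) (h2 : Tr2 H Ω)
    (h3 : Tr3 H Ω) {K : Subgroup H} (hP : Pn K) (hK : K ≠ ⊥) {F : Finset Ω}
    (hF : ∀ a, a ∈ F ↔ ∀ k ∈ K, k • a = a) (hn : Fintype.card Ω = 2 * F.card) (hm : 2 ≤ F.card)
    (h4 : F.card ≤ 4 ∨ Tr4 H Ω) : False := by
  have M4 : ∀ h : H, h ≠ 1 → (Fx Ω h).card + 4 ≤ Fintype.card Ω := fun h h1 => by
    obtain ⟨a, ha⟩ := hf h h1
    exact sup3 h3 hP hF hn hm ha
  by_cases m4 : F.card ≤ 4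
  · exact fin0 h1 h2 h3 hP hK hF hn hm fun h h1 => by have := M4 h h1; omega
  have h4 := h4.resolve_left m4
  have M5 : ∀ h : H, h ≠ 1 → (Fx Ω h).card + 5 ≤ Fintype.card Ω := fun h h1 => by
    by_contra hc
    obtain ⟨h', a, ha, h5⟩ := sup4 h4 (by omega) (u := h) (by have := M4 h h1; omega)
    have := sup3 h3 hP hF hn hm ha
    omega
  by_cases m5 : F.card = 5
  · exact fin0 h1 h2 h3 hP hK hF hn hm fun h h1 => by have := M5 h h1; omega
  exact fin1 h1 h2 h3 h4 hP hK hF hn (by omega) (boch h2 h3 h4 hn M5)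

end CF.Prn
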