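import Cfsg.Agent.Pron.F

/-! Induction tools: orbits, closures, quotients. -/

set_option autoImplicit false

namespace CF.Prn

open Finset
open scoped Classical

/-- The statement for degree `n`. -/
def St0 (n : ℕ) : Prop := ∀ (Ω H : Type) [Fintype Ω] [Group H] [Fintype H] [MulAction H Ω],
  Fintype.card Ω = n → Tr1 H Ω → ∀ K : Subgroup H, Pn K → (∃ k ∈ K, ∃ a : Ω, k • a ≠ a) →
  ∀ F : Finset Ω, (∀ a, a ∈ F ↔ ∀ k ∈ K, k • a = a) →
    2 * F.card + 1 ≤ n ∧ (2 * F.card + 1 = n → Tr2 H Ω)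

variable {Ω : Type} [Fintype Ω] {H : Type} [Group H] [Fintype H] [MulAction H Ω]

omit [Fintype H] in
theorem Pn.sub {K L : Subgroup H} (hP : Pn K) (hL : K ≤ L) : Pn (K.subgroupOf L) := by
  intro g L' h1 h2
  obtain ⟨_, ⟨w, hw, rfl⟩, e⟩ := hP g (L'.map L.subtype)
    (fun k hk => ⟨⟨k, hL hk⟩, h1 hk, rfl⟩) fun h hh => by
      have : h ∈ L := by
        have := L.mul_mem (L.mul_mem (L.inv_mem g.2) (hL (mem_cjK.1 hh))) g.2
        simpa [mul_assoc] using this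
      exact ⟨⟨h, this⟩, h2 hh, rfl⟩
  exact ⟨w, hw, fun h => e h⟩

omit [Fintype H] in
theorem Pn.map {H' : Type} [Group H'] {K : Subgroup H} (hP : Pn K) (φ : H →* H')
    (hφ : Function.Surjective φ) : Pn (K.map φ) := by
  intro g' L h1 h2
  obtain ⟨g, rfl⟩ := hφ g'
  obtain ⟨w, hw, e⟩ := hP g (L.comap φ) (fun k hk => h1 ⟨k, hk, rfl⟩) fun h hh =>
    h2 (mem_cjK.2 ⟨_, mem_cjK.1 hh, by simp⟩)
  refine ⟨φ w, hw, fun h => ⟨fun hh => ?_, fun ⟨k, hk, e'⟩ => ?_⟩⟩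
  · obtain ⟨k, hk, e'⟩ := mem_cjK.1 hh
    refine ⟨_, (e (g⁻¹ * k * g)).1 (mem_cjK.2 (by simpa [mul_assoc] using hk)), ?_⟩
    simp only [map_mul, map_inv, e']; group
  · refine mem_cjK.2 ⟨_, mem_cjK.1 ((e (w * k * w⁻¹)).2 (by simpa [mul_assoc] using hk)), ?_⟩
    simp only [map_mul, map_inv, e']; group

omit [Fintype H] in
theorem Pn.cj {K : Subgroup H} (hP : Pn K) (g : H) : Pn (cjK K g) := by
  intro g' L h1 h2
  obtain ⟨w, hw, e⟩ := hP (g * g' * g⁻¹) (cjK L g⁻¹)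
    (fun k hk => mem_cjK.2 (h1 (mem_cjK.2 (by simpa [mul_assoc] using hk))))
    fun h hh => mem_cjK.2 (h2 (mem_cjK.2 (mem_cjK.2 (by simpa [mul_assoc] using mem_cjK.1 hh))))
  refine ⟨_, mem_cjK.1 hw, fun h => ?_⟩
  have := e (g * h * g⁻¹)
  simp only [mem_cjK] at this ⊢
  convert this using 2 <;> group

omit [Fintype H] in
theorem Pn.tr {K : Subgroup H} (hP : Pn K) {F : Finset Ω} (hF : ∀ a, a ∈ F ↔ ∀ k ∈ K, k • a = a)
    (g : H) (L : Subgroup H) (h1 : K ≤ L) (h2 : cjK K g ≤ L) :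
    ∃ w ∈ L, ∀ a, g • w • a ∈ F ↔ a ∈ F := by
  obtain ⟨w, hw, e⟩ := hP g L h1 h2
  refine ⟨w, hw, fun a => ?_⟩
  rw [← mem_pull, fix_cjK hF, hF]
  constructor
  · intro h k hk
    have := h (w * k * w⁻¹) ((e _).2 (by simpa [mul_assoc] using hk))
    rwa [mul_smul, inv_smul_smul, mul_smul, smul_left_cancel_iff] at this
  · intro h k hk
    have := h _ ((e k).1 hk)
    rwa [mul_smul, mul_smul, inv_smul_eq_iff] at this

/-- Orbit of a subgroup. -/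
noncomputable def Ob (L : Subgroup H) (x : Ω) : Finset Ω :=
  univ.filter (fun y => ∃ g ∈ L, g • x = y)

theorem mem_Ob {L : Subgroup H} {x y : Ω} : y ∈ Ob L x ↔ ∃ g ∈ L, g • x = y := by simp [Ob]
theorem Ob_self (L : Subgroup H) (x : Ω) : x ∈ Ob L x := mem_Ob.2 ⟨1, L.one_mem, one_smul _ _⟩
theorem Ob_smul {L : Subgroup H} {x y : Ω} {g : H} (hg : g ∈ L) : g • y ∈ Ob L x ↔ y ∈ Ob L x := by
  simp only [mem_Ob]
  exact ⟨fun ⟨t, ht, e⟩ => ⟨g⁻¹ * t, L.mul_mem (L.inv_mem hg) ht, by rw [mul_smul, e, inv_smul_smul]⟩,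
    fun ⟨t, ht, e⟩ => ⟨g * t, L.mul_mem hg ht, by rw [mul_smul, e]⟩⟩
theorem Ob_eq {L : Subgroup H} {x y : Ω} (h : y ∈ Ob L x) : Ob L y = Ob L x := by
  obtain ⟨g, hg, rfl⟩ := mem_Ob.1 h
  ext z
  simp only [mem_Ob]
  exact ⟨fun ⟨t, ht, e⟩ => ⟨t * g, L.mul_mem ht hg, by rw [mul_smul, e]⟩,
    fun ⟨t, ht, e⟩ => ⟨t * g⁻¹, L.mul_mem ht (L.inv_mem hg), by rw [mul_smul, inv_smul_smul, e]⟩⟩

theorem orb (IH : ∀ n < Fintype.card Ω, St0 n) {K L : Subgroup H} (hP : Pn K) (hL : K ≤ L)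
    {F : Finset Ω} (hF : ∀ a, a ∈ F ↔ ∀ k ∈ K, k • a = a) {x a0 : Ω} (ha0 : a0 ∉ Ob L x)
    (hn : ¬ Ob L x ⊆ F) : 2 * (Ob L x ∩ F).card + 1 ≤ (Ob L x).card ∧ 2 ≤ (Ob L x).card ∧
      (2 * (Ob L x ∩ F).card + 1 = (Ob L x).card → ∀ a ∈ Ob L x, ∀ b ∈ Ob L x, ∀ c ∈ Ob L x,
        ∀ d ∈ Ob L x, a ≠ b → c ≠ d → ∃ g ∈ L, g • a = c ∧ g • b = d) := by
  have hm : ∀ y, y ∈ Ob L x ↔ y ∈ MulAction.orbit L x := fun y => by
    rw [mem_Ob, MulAction.mem_orbit_iff]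
    exact ⟨fun ⟨g, hg, e⟩ => ⟨⟨g, hg⟩, e⟩, fun ⟨g, e⟩ => ⟨g.1, g.2, e⟩⟩
  obtain ⟨y, hy, hyF⟩ := not_subset.1 hn
  rw [hF] at hyF
  push Not at hyF
  obtain ⟨k, hk, hky⟩ := hyF
  have hc : Fintype.card (MulAction.orbit L x) = (Ob L x).card := Fintype.card_of_subtype _ hm
  have := IH (Ob L x).card (card_lt_univ_of_notMem ha0) (MulAction.orbit L x) L hc
    (fun a b => MulAction.exists_smul_eq L a b) (K.subgroupOf L) (hP.sub hL)
    ⟨⟨k, hL hk⟩, hk, ⟨y, (hm y).1 hy⟩, fun e => hky (congrArg Subtype.val e)⟩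
    (univ.filter (fun a => a.1 ∈ F)) fun a => by
      rw [mem_filter, hF]
      exact ⟨fun h k hk => Subtype.ext (h.2 k.1 hk), fun h => ⟨mem_univ _, fun k hk =>
        congrArg Subtype.val (h ⟨k, hL hk⟩ hk)⟩⟩
  have e : (univ.filter (fun a : MulAction.orbit L x => a.1 ∈ F)).card = (Ob L x ∩ F).card :=
    card_bij (fun a _ => a.1) (fun a ha => mem_inter.2 ⟨(hm _).2 a.2, (mem_filter.1 ha).2⟩)
      (fun _ _ _ _ h => Subtype.ext h) fun b hb =>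
        ⟨⟨b, (hm b).1 (mem_inter.1 hb).1⟩, mem_filter.2 ⟨mem_univ _, (mem_inter.1 hb).2⟩, rfl⟩
  rw [e] at this
  refine ⟨this.1, one_lt_card.2 ⟨_, (Ob_smul (hL hk)).2 hy, y, hy, hky⟩,
    fun h a ha b hb c hc d hd ab cd => ?_⟩
  obtain ⟨g, e1, e2⟩ := this.2 h ⟨a, (hm a).1 ha⟩ ⟨b, (hm b).1 hb⟩ ⟨c, (hm c).1 hc⟩ ⟨d, (hm d).1 hd⟩
    (fun e => ab (congrArg Subtype.val e)) (fun e => cd (congrArg Subtype.val e))
  exact ⟨g.1, g.2, congrArg Subtype.val e1, congrArg Subtype.val e2⟩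

theorem clo {K L : Subgroup H} (hP : Pn K) (hL : K ≤ L) {F : Finset Ω}
    (hF : ∀ a, a ∈ F ↔ ∀ k ∈ K, k • a = a) {x : Ω} (h : Ob L x ⊆ F) {g : H} (hg : cjK K g ≤ L) :
    g • x ∈ F := by
  obtain ⟨w, hw, e⟩ := hP.tr hF g L hL hg
  simpa using (e (w⁻¹ • x)).2 (h (mem_Ob.2 ⟨_, L.inv_mem hw, rfl⟩))

/-- Defect of a set. -/
noncomputable def dd (F Z : Finset Ω) : ℤ := ∑ b ∈ Z, if b ∈ F then -1 else 1

omit [Fintype Ω] in
theorem dd_eq (F Z : Finset Ω) : dd F Z = Z.card - 2 * (Z ∩ F).card := by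
  have : ∀ b, (if b ∈ F then -1 else 1 : ℤ) = 1 - 2 * if b ∈ F then 1 else 0 := fun b => by
    split_ifs <;> norm_num
  simp only [dd, this, sum_sub_distrib, ← mul_sum, sum_boole, filter_mem_eq_inter]
  simp

omit [Fintype Ω] in
theorem dd_sdiff (F : Finset Ω) {Y Z : Finset Ω} (h : Y ⊆ Z) : dd F (Z \ Y) + dd F Y = dd F Z :=
  sum_sdiff h

theorem dd_pos (F : Finset Ω) (L : Subgroup H) (Z : Finset Ω) (hZ : ∀ g ∈ L, ∀ a ∈ Z, g • a ∈ Z)
    (h : ∀ x ∈ Z, 1 ≤ dd F (Ob L x)) : 0 ≤ dd F Z ∧ (Z.Nonempty → 1 ≤ dd F Z) := by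
  induction' hn : Z.card using Nat.strong_induction_on with n ih generalizing Z
  rcases Z.eq_empty_or_nonempty with rfl | ⟨a, ha⟩
  · simp [dd]
  have hO : Ob L a ⊆ Z := fun x hx => by
    obtain ⟨t, ht, rfl⟩ := mem_Ob.1 hx
    exact hZ t ht a ha
  have e2 := card_sdiff_add_card_eq_card hO
  have h0 : 0 < (Ob L a).card := card_pos.2 ⟨a, Ob_self L a⟩
  have h1 := (ih (Z \ Ob L a).card (by omega) _ (fun t ht x hx => by
    rw [mem_sdiff] at hx ⊢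
    exact ⟨hZ t ht x hx.1, fun h => hx.2 ((Ob_smul ht).1 h)⟩)
    (fun x hx => h x (mem_sdiff.1 hx).1) rfl).1
  have h2 := dd_sdiff F hO
  have h3 := h a ha
  exact ⟨by omega, fun _ => by omega⟩

theorem dd_rest (F : Finset Ω) (L : Subgroup H) (Z : Finset Ω) (hZ : ∀ g ∈ L, ∀ a ∈ Z, g • a ∈ Z)
    (h : ∀ x ∈ Z, 1 ≤ dd F (Ob L x)) {x : Ω} (hx : x ∈ Z) :
    dd F (Ob L x) ≤ dd F Z ∧ ∀ y ∈ Z, y ∉ Ob L x → dd F (Ob L x) + dd F (Ob L y) ≤ dd F Z ∧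
      ∀ z ∈ Z, z ∉ Ob L x → z ∉ Ob L y → dd F (Ob L x) + dd F (Ob L y) + 1 ≤ dd F Z := by
  have sub : ∀ Z : Finset Ω, (∀ g ∈ L, ∀ a ∈ Z, g • a ∈ Z) → ∀ a ∈ Z, Ob L a ⊆ Z ∧
      ∀ g ∈ L, ∀ b ∈ Z \ Ob L a, g • b ∈ Z \ Ob L a := fun Z hZ a ha =>
    ⟨fun x hx => by
      obtain ⟨t, ht, rfl⟩ := mem_Ob.1 hx
      exact hZ t ht a ha, fun t ht x hx => by
      rw [mem_sdiff] at hx ⊢
      exact ⟨hZ t ht x hx.1, fun h => hx.2 ((Ob_smul ht).1 h)⟩⟩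
  obtain ⟨s1, i1⟩ := sub Z hZ x hx
  have e1 := dd_sdiff F s1
  have p1 := (dd_pos F L _ i1 fun x hx => h x (mem_sdiff.1 hx).1).1
  refine ⟨by omega, fun y hy hy' => ?_⟩
  obtain ⟨s2, i2⟩ := sub _ i1 y (mem_sdiff.2 ⟨hy, hy'⟩)
  have e2 := dd_sdiff F s2
  have p2 := dd_pos F L _ i2 fun x hx => h x (mem_sdiff.1 (mem_sdiff.1 hx).1).1
  refine ⟨by omega, fun z hz h1 h2 => ?_⟩
  have := p2.2 ⟨z, mem_sdiff.2 ⟨mem_sdiff.2 ⟨hz, h1⟩, h2⟩⟩
  omega

theorem cnt_iff {P Q : H → Prop} (t : H) (h : ∀ g, P g → Q g) (e : ∀ g, Q g → P (g * t)) (g : H)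
    (hg : Q g) : P g := by
  have h1 : univ.filter P ⊆ univ.filter Q := fun g hg =>
    mem_filter.2 ⟨mem_univ _, h g (mem_filter.1 hg).2⟩
  have h2 : (univ.filter Q).card ≤ (univ.filter P).card :=
    card_le_card_of_injOn (· * t) (fun g hg => mem_coe.2 (mem_filter.2
      ⟨mem_univ _, e g (mem_filter.1 (mem_coe.1 hg)).2⟩)) fun _ _ _ _ h => mul_right_cancel h
  have := eq_of_subset_of_card_le h1 h2
  exact (mem_filter.1 (this ▸ mem_filter.2 ⟨mem_univ _, hg⟩ : g ∈ univ.filter P)).2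

/-- Points lying in the same conjugates of `F`. -/
def sameB (H : Type) [Group H] [MulAction H Ω] (F : Finset Ω) : Setoid Ω :=
  ⟨fun x y => ∀ g : H, g • x ∈ F ↔ g • y ∈ F,
    ⟨fun _ _ => Iff.rfl, fun h g => (h g).symm, fun h h' g => (h g).trans (h' g)⟩⟩

/-- The action on classes. -/
@[reducible] def qAct (H : Type) [Group H] [MulAction H Ω] (F : Finset Ω) :
    MulAction H (Quotient (sameB H F)) where
  smul g := Quotient.map (g • ·) fun x y h t => by simpa only [mul_smul] using h (t * g)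
  one_smul := by
    rintro ⟨x⟩
    exact congrArg (Quotient.mk (sameB H F)) (one_smul H x)
  mul_smul g h := by
    rintro ⟨x⟩
    exact congrArg (Quotient.mk (sameB H F)) (mul_smul g h x)

theorem quo (IH : ∀ n < Fintype.card Ω, St0 n) (h1 : Tr1 H Ω) {K : Subgroup H} (hP : Pn K)
    (hK : ∃ k ∈ K, ∃ a : Ω, k • a ≠ a) {F : Finset Ω} (hF : ∀ a, a ∈ F ↔ ∀ k ∈ K, k • a = a)
    {α x : Ω} (hα : α ∈ F) (hx : α ≠ x) (h : ∀ g : H, g • α ∈ F → g • x ∈ F) :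
    2 * F.card + 2 ≤ Fintype.card Ω := by
  letI := qAct H F
  have hs : ∀ (g : H) (a : Ω), g • Quotient.mk (sameB H F) a = Quotient.mk (sameB H F) (g • a) :=
    fun _ _ => rfl
  have e0 : Quotient.mk (sameB H F) α = Quotient.mk (sameB H F) x := by
    obtain ⟨t, ht⟩ := h1 α x
    exact Quotient.sound fun g => ⟨h g, cnt_iff (P := fun g => g • α ∈ F) (Q := fun g => g • x ∈ F)
      t h (fun g hg => by rwa [mul_smul, ht]) g⟩
  have lt : Fintype.card (Quotient (sameB H F)) < Fintype.card Ω :=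
    Fintype.card_lt_of_surjective_not_injective _ Quotient.mk_surjective fun hi => hx (hi e0)
  have nt : ∃ k ∈ K, ∃ a : Quotient (sameB H F), k • a ≠ a := by
    by_contra hc
    push Not at hc
    obtain ⟨k, hk, y, hy⟩ := hK
    obtain ⟨g, hg⟩ := h1 y α
    obtain ⟨w, hw, e⟩ := hP.tr hF g (MulAction.stabilizer H (Quotient.mk (sameB H F) y))
      (fun k hk => hc k hk _) fun v hv => by
        rw [MulAction.mem_stabilizer_iff, hs, (fix_cjK hF g y).1 (mem_pull.2 (hg ▸ hα)) v hv]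
    rw [MulAction.mem_stabilizer_iff, hs] at hw
    have := (e y).1 ((Quotient.exact hw g).2 (hg ▸ hα))
    exact hy ((hF y).1 this k hk)
  have := (IH _ lt (Quotient (sameB H F)) H rfl (by
      rintro ⟨a⟩ ⟨b⟩
      obtain ⟨g, hg⟩ := h1 a b
      exact ⟨g, congrArg (Quotient.mk (sameB H F)) hg⟩) K hP nt
    (univ.filter (fun a => ∀ k ∈ K, k • a = a)) (by simp)).1
  obtain ⟨b, hb2, hb⟩ : ∃ b, 2 ≤ b ∧ ∀ q : Quotient (sameB H F),
      (univ.filter (fun a => Quotient.mk (sameB H F) a = q)).card = b := by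
    refine ⟨(univ.filter (fun a => Quotient.mk (sameB H F) a = Quotient.mk (sameB H F) α)).card,
      one_lt_card.2 ⟨α, by simp, x, by simp [e0], hx⟩, ?_⟩
    rintro ⟨y⟩
    obtain ⟨g, rfl⟩ := h1 α y
    refine (card_bij (fun a _ => g • a) (fun a ha => ?_) (fun _ _ _ _ h => smul_left_cancel g h)
      fun b hb => ⟨g⁻¹ • b, ?_, smul_inv_smul _ _⟩).symm
    · simp only [mem_filter, mem_univ, true_and] at ha ⊢
      exact congrArg (g • ·) ha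
    · simp only [mem_filter, mem_univ, true_and] at hb ⊢
      have := congrArg (g⁻¹ • ·) hb
      simp only [hs] at this
      rw [this]
      exact congrArg (Quotient.mk (sameB H F)) (inv_smul_smul g α)
  have c1 : F.card ≤ b * (univ.filter
      (fun a : Quotient (sameB H F) => ∀ k ∈ K, k • a = a)).card :=
    card_le_mul_card_image_of_maps_to (f := Quotient.mk (sameB H F)) (fun a ha => by
      simp only [mem_filter, mem_univ, true_and]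
      intro k hk
      rw [hs, (hF a).1 ha k hk]) b fun q _ => by
        rw [← hb q]; exact card_le_card (filter_subset_filter _ (subset_univ _))
  have c2 : Fintype.card Ω = Fintype.card (Quotient (sameB H F)) * b := by
    rw [← card_univ, card_eq_sum_card_fiberwise (f := Quotient.mk (sameB H F)) (t := univ)
      (fun _ _ => mem_coe.2 (mem_univ _)), sum_congr rfl fun q _ => hb q]
    simp
  rw [c2]
  nlinarith

end CF.Prn
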