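import Cfsg.Agent.Pron.G

/-! Triple closures and three point stabilisers. -/

set_option autoImplicit false

namespace CF.Prn

open Finset
open scoped Classical

variable {Ω : Type} [Fintype Ω] {H : Type} [Group H] [Fintype H] [MulAction H Ω]

def R3 (H : Type) [Group H] [MulAction H Ω] (F : Finset Ω) (a b c x : Ω) : Prop :=
  ∀ g : H, g • a ∈ F → g • b ∈ F → g • c ∈ F → g • x ∈ F

omit [Fintype Ω] in
theorem R3.ex (h3 : Tr3 H Ω) {F : Finset Ω} {a b c x : Ω} (h : R3 H F a b c x) (ab : a ≠ b)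
    (ac : a ≠ c) (bc : b ≠ c) (ax : a ≠ x) (bx : b ≠ x) : R3 H F a b x c := by
  obtain ⟨t, t1, t2, t3⟩ := h3 a b c a b x ab ac bc ab ax bx
  intro g g1 g2 g3
  exact (cnt_iff (P := fun g => g • a ∈ F ∧ g • b ∈ F ∧ g • c ∈ F)
    (Q := fun g => g • a ∈ F ∧ g • b ∈ F ∧ g • x ∈ F) t
    (fun g hg => ⟨hg.1, hg.2.1, h g hg.1 hg.2.1 hg.2.2⟩)
    (fun g hg => by simpa only [mul_smul, t1, t2, t3] using hg) g ⟨g1, g2, g3⟩).2.2

noncomputable def Ex (H : Type) [Group H] [MulAction H Ω] (F : Finset Ω) (a b c : Ω) : Finset Ω :=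
  univ.filter (fun x => a ≠ x ∧ b ≠ x ∧ c ≠ x ∧ R3 H F a b c x)

omit [Fintype H] in
theorem mem_Ex {F : Finset Ω} {a b c x : Ω} :
    x ∈ Ex H F a b c ↔ a ≠ x ∧ b ≠ x ∧ c ≠ x ∧ R3 H F a b c x := by simp [Ex]

omit [Fintype H] in
theorem Ex_smul {F : Finset Ω} {a b c x : Ω} (t : H) (h : x ∈ Ex H F a b c) :
    t • x ∈ Ex H F (t • a) (t • b) (t • c) := by
  rw [mem_Ex] at h ⊢
  refine ⟨by simpa using h.1, by simpa using h.2.1, by simpa using h.2.2.1, fun g => ?_⟩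
  simpa only [mul_smul] using h.2.2.2 (g * t)

omit [Fintype H] in
theorem Ex_le (h3 : Tr3 H Ω) (F : Finset Ω) {a b c p q r : Ω} (ab : a ≠ b) (ac : a ≠ c) (bc : b ≠ c)
    (pq : p ≠ q) (pr : p ≠ r) (qr : q ≠ r) : (Ex H F a b c).card ≤ (Ex H F p q r).card := by
  obtain ⟨t, rfl, rfl, rfl⟩ := h3 a b c p q r ab ac bc pq pr qr
  exact card_le_card_of_injOn (t • ·) (fun x hx => mem_coe.2 (Ex_smul t (mem_coe.1 hx)))
    fun _ _ _ _ h => smul_left_cancel t h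

theorem inj (h3 : Tr3 H Ω) (F Z : Finset Ω)
    (hZ : ∀ a ∈ Z, ∀ b ∈ Z, ∀ c ∈ Z, a ≠ b → a ≠ c → b ≠ c → ∀ x, R3 H F a b c x → x ∈ Z)
    {α z : Ω} (hα : α ∈ Z) (hz : z ∉ Z) {a b c : Ω} (ab : a ≠ b) (ac : a ≠ c) (bc : b ≠ c) :
    (Z.card - 1) * (Ex H F a b c).card + Z.card + 1 ≤ Fintype.card Ω := by
  have αz : α ≠ z := fun e => hz (e ▸ hα)
  have nz : ∀ β ∈ Z.erase α, α ≠ β ∧ β ≠ z ∧ β ∈ Z := fun β hβ =>
    ⟨(ne_of_mem_erase hβ).symm, fun e => hz (e ▸ mem_of_mem_erase hβ), mem_of_mem_erase hβ⟩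
  have sub : (Z.erase α).biUnion (fun β => Ex H F α β z) ⊆ (Zᶜ).erase z := by
    intro e he
    obtain ⟨β, hβ, he⟩ := mem_biUnion.1 he
    rw [mem_Ex] at he
    obtain ⟨n1, n2, n3⟩ := nz β hβ
    exact mem_erase.2 ⟨he.2.2.1.symm, mem_compl.2 fun h => hz (hZ α hα β n3 e h n1 he.1 he.2.1 z
      (he.2.2.2.ex h3 n1 αz n2 he.1 he.2.1))⟩
  have c1 := card_le_card sub
  rw [card_biUnion] at c1
  · have c2 := card_nsmul_le_sum (Z.erase α) (fun β => (Ex H F α β z).card) _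
      fun β hβ => Ex_le h3 F ab ac bc (nz β hβ).1 αz (nz β hβ).2.1
    rw [card_erase_of_mem hα, smul_eq_mul] at c2
    have c3 := card_erase_add_one (mem_compl.2 hz)
    have c4 := card_compl_add_card Z
    omega
  · intro β hβ β' hβ' hne
    rw [Function.onFun, disjoint_left]
    intro e h1 h2
    rw [mem_Ex] at h1 h2
    obtain ⟨n1, n2, n3⟩ := nz β (mem_coe.1 hβ)
    obtain ⟨m1, m2, m3⟩ := nz β' (mem_coe.1 hβ')
    have r1 : R3 H F α z β' e := fun g g1 g2 g3 => h2.2.2.2 g g1 g3 g2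
    have r2 := r1.ex h3 αz m1 m2.symm h2.1 h2.2.2.1
    have r3 : R3 H F α β z β' := fun g g1 g2 g3 => r2 g g1 g3 (h1.2.2.2 g g1 g2 g3)
    exact hz (hZ α hα β n3 β' m3 n1 m1 hne z (r3.ex h3 n1 αz n2 m1 hne))

theorem sq_case (hf : ∀ h : H, h ≠ 1 → ∃ a : Ω, h • a ≠ a) (h3 : Tr3 H Ω) (F : Finset Ω)
    (hn : Fintype.card Ω = 2 * F.card) (hm : 2 ≤ F.card) {a b c x : Ω} (ab : a ≠ b) (ac : a ≠ c)
    (bc : b ≠ c) (hx : x ∈ Ex H F a b c) (w : H) (hw : w ≠ 1) :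
    (Fx Ω w).card ≤ F.card + 0 := by
  have one : ∀ p q r : Ω, p ≠ q → p ≠ r → q ≠ r → (Ex H F p q r).card ≤ 1 := by
    intro p q r pq pr qr
    obtain ⟨α, hα⟩ : F.Nonempty := card_pos.1 (by omega)
    obtain ⟨z, -, hz⟩ := exists_mem_notMem_of_card_lt_card (s := F) (t := univ)
      (by rw [card_univ]; omega)
    have := inj h3 F F (fun a ha b hb c hc _ _ _ x h => by
      simpa using h 1 (by simpa using ha) (by simpa using hb) (by simpa using hc)) hα hz pq pr qr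
    by_contra hc
    have : (F.card - 1) * 2 ≤ (F.card - 1) * (Ex H F p q r).card :=
      Nat.mul_le_mul_left _ (by omega)
    omega
  obtain ⟨z, hz⟩ := hf w hw
  rcases (Fx Ω w).eq_empty_or_nonempty with h | ⟨α, hα⟩
  · simp [h]
  have := inj h3 F (Fx Ω w) (fun p hp q hq r hr pq pr qr y h => by
    by_contra hy
    have m : y ∈ Ex H F p q r := mem_Ex.2 ⟨fun e => hy (e ▸ hp), fun e => hy (e ▸ hq),
      fun e => hy (e ▸ hr), h⟩
    have m' := Ex_smul w m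
    rw [mem_Fx.1 hp, mem_Fx.1 hq, mem_Fx.1 hr] at m'
    exact hy (mem_Fx.2 (card_le_one.1 (one p q r pq pr qr) _ m' _ m))) hα
      (fun h => hz (mem_Fx.1 h)) ab ac bc
  have h1 : (Fx Ω w).card - 1 ≤ ((Fx Ω w).card - 1) * (Ex H F a b c).card :=
    Nat.le_mul_of_pos_right _ (card_pos.2 ⟨x, hx⟩)
  omega

/-- Pointwise stabiliser of three points. -/
def S3 (H : Type) [Group H] [MulAction H Ω] (p q r : Ω) : Subgroup H :=
  MulAction.stabilizer H p ⊓ MulAction.stabilizer H q ⊓ MulAction.stabilizer H r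

omit [Fintype Ω] [Fintype H] in
theorem mem_S3 {p q r : Ω} {g : H} : g ∈ S3 H p q r ↔ g • p = p ∧ g • q = q ∧ g • r = r := by
  simp [S3, and_assoc]

/-- The local structure of the orbits of a three point stabiliser. -/
def Gd (H : Type) [Group H] [Fintype H] [MulAction H Ω] (F : Finset Ω) (p q r : Ω) : Prop :=
  ∀ s, s ≠ p → s ≠ q → s ≠ r →
    (Odd (Ob (S3 H p q r) s).card → 3 ≤ (Ob (S3 H p q r) s).card ∧
      dd F (Ob (S3 H p q r) s) = 1 ∧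
      ∀ a ∈ Ob (S3 H p q r) s, ∀ b ∈ Ob (S3 H p q r) s, ∀ c ∈ Ob (S3 H p q r) s,
        ∀ d ∈ Ob (S3 H p q r) s, a ≠ b → c ≠ d → ∃ g ∈ S3 H p q r, g • a = c ∧ g • b = d) ∧
    (Even (Ob (S3 H p q r) s).card → ∀ t, t ≠ p → t ≠ q → t ≠ r → t ∉ Ob (S3 H p q r) s →
      Odd (Ob (S3 H p q r) t).card ∧
        ∀ t', t' ≠ p → t' ≠ q → t' ≠ r → t' ∉ Ob (S3 H p q r) s → t' ∈ Ob (S3 H p q r) t)

theorem Ob_ne {p q r s x : Ω} (h1 : s ≠ p) (h2 : s ≠ q) (h3 : s ≠ r)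
    (h : x ∈ Ob (S3 H p q r) s) : x ≠ p ∧ x ≠ q ∧ x ≠ r := by
  obtain ⟨g, hg, rfl⟩ := mem_Ob.1 h
  rw [mem_S3] at hg
  exact ⟨fun e => h1 (smul_left_cancel g (e.trans hg.1.symm)),
    fun e => h2 (smul_left_cancel g (e.trans hg.2.1.symm)),
    fun e => h3 (smul_left_cancel g (e.trans hg.2.2.symm))⟩

theorem base (IH : ∀ n < Fintype.card Ω, St0 n) (h3 : Tr3 H Ω) (h4 : ¬ Tr4 H Ω) {K : Subgroup H}
    (hP : Pn K) {F : Finset Ω} (hF : ∀ a, a ∈ F ↔ ∀ k ∈ K, k • a = a)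
    (hn : Fintype.card Ω = 2 * F.card) {p q r : Ω} (hp : p ∈ F) (hq : q ∈ F) (hr : r ∈ F)
    (pq : p ≠ q) (pr : p ≠ r) (qr : q ≠ r) (ns : Ex H F p q r = ∅) : Gd H F p q r := by
  have hL : K ≤ S3 H p q r := fun k hk =>
    mem_S3.2 ⟨(hF p).1 hp k hk, (hF q).1 hq k hk, (hF r).1 hr k hk⟩
  have mZ : ∀ x, x ∈ ({p, q, r} : Finset Ω)ᶜ ↔ x ≠ p ∧ x ≠ q ∧ x ≠ r := fun x => by
    simp [not_or]
  have o := fun x (hx : x ∈ ({p, q, r} : Finset Ω)ᶜ) => orb IH hP hL hF (x := x) (a0 := p)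
    (fun h => (Ob_ne ((mZ x).1 hx).1 ((mZ x).1 hx).2.1 ((mZ x).1 hx).2.2 h).1 rfl) fun h => by
      rw [mZ] at hx
      refine eq_empty_iff_forall_notMem.1 ns x (mem_Ex.2 ⟨hx.1.symm, hx.2.1.symm, hx.2.2.symm,
        fun g g1 g2 g3 => clo hP hL hF h fun v hv => mem_S3.2 ⟨?_, ?_, ?_⟩⟩)
      · exact (fix_cjK hF g p).1 (mem_pull.2 g1) v hv
      · exact (fix_cjK hF g q).1 (mem_pull.2 g2) v hv
      · exact (fix_cjK hF g r).1 (mem_pull.2 g3) v hv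
  have o1 : ∀ x ∈ ({p, q, r} : Finset Ω)ᶜ, 1 ≤ dd F (Ob (S3 H p q r) x) := fun x hx => by
    have := (o x hx).1
    rw [dd_eq]; omega
  have hZ : ∀ g ∈ S3 H p q r, ∀ a ∈ ({p, q, r} : Finset Ω)ᶜ, g • a ∈ ({p, q, r} : Finset Ω)ᶜ :=
    fun g hg a ha => (mZ _).2 (Ob_ne ((mZ a).1 ha).1 ((mZ a).1 ha).2.1 ((mZ a).1 ha).2.2
      (mem_Ob.2 ⟨g, hg, rfl⟩))
  have d3 : dd F ({p, q, r} : Finset Ω)ᶜ = 3 := by
    have e1 := dd_sdiff F (subset_univ ({p, q, r} : Finset Ω))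
    have e2 : dd F ({p, q, r} : Finset Ω) = -3 := by
      rw [dd, sum_insert (by simp [pq, pr]), sum_insert (by simp [qr]), sum_singleton]
      simp [hp, hq, hr]
    rw [dd_eq F univ, card_univ, univ_inter, ← compl_eq_univ_sdiff] at e1
    omega
  intro s s1 s2 s3
  have hs := (mZ s).2 ⟨s1, s2, s3⟩
  have D := (dd_rest F _ _ hZ o1 hs).2
  obtain ⟨y, hy, hy'⟩ : ∃ y ∈ ({p, q, r} : Finset Ω)ᶜ, y ∉ Ob (S3 H p q r) s := by
    by_contra hc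
    push Not at hc
    refine h4 fun x1 x2 x3 x4 y1 y2 y3 y4 a12 a13 a23 a14 a24 a34 b12 b13 b23 b14 b24 b34 => ?_
    obtain ⟨t, t1, t2, t3⟩ := h3 x1 x2 x3 p q r a12 a13 a23 pq pr qr
    obtain ⟨t', u1, u2, u3⟩ := h3 y1 y2 y3 p q r b12 b13 b23 pq pr qr
    have m1 := hc (t • x4) ((mZ _).2 ⟨by rw [← t1]; simpa using a14.symm,
      by rw [← t2]; simpa using a24.symm, by rw [← t3]; simpa using a34.symm⟩)
    have m2 := hc (t' • y4) ((mZ _).2 ⟨by rw [← u1]; simpa using b14.symm,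
      by rw [← u2]; simpa using b24.symm, by rw [← u3]; simpa using b34.symm⟩)
    rw [← Ob_eq m1] at m2
    obtain ⟨g, hg, e⟩ := mem_Ob.1 m2
    rw [mem_S3] at hg
    refine ⟨t'⁻¹ * g * t, ?_, ?_, ?_, ?_⟩ <;> rw [mul_smul, mul_smul, inv_smul_eq_iff]
    · rw [t1, u1, hg.1]
    · rw [t2, u2, hg.2.1]
    · rw [t3, u3, hg.2.2]
    · exact e
  have a1 := (D y hy hy').1
  have a2 := o1 y hy
  have a3 := o1 s hs
  have a4 := dd_eq F (Ob (S3 H p q r) s)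
  refine ⟨fun ⟨j, hj⟩ => ?_, fun ⟨j, hj⟩ t t1 t2 t3 ht => ?_⟩
  · have := o s hs
    exact ⟨by omega, by omega, this.2.2 (by omega)⟩
  · have ht' := (mZ t).2 ⟨t1, t2, t3⟩
    have b1 := D t ht' ht
    have b2 := o1 t ht'
    have b3 := dd_eq F (Ob (S3 H p q r) t)
    refine ⟨⟨(Ob (S3 H p q r) t ∩ F).card, by omega⟩, fun t' u1 u2 u3 ht2 => by_contra fun hc => ?_⟩
    have := b1.2 t' ((mZ t').2 ⟨u1, u2, u3⟩) ht2 hc
    omega

end CF.Prn
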