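import Cfsg.Agent.Pron.Q
import Mathlib.Combinatorics.Enumerative.DoubleCounting

/-! Orbital graphs of a two point stabiliser. -/

set_option autoImplicit false

namespace CF.Prn

open Finset
open scoped Classical

variable {Ω : Type} [Fintype Ω] {H : Type} [Group H] [Fintype H] [MulAction H Ω]

theorem card_Ob_smul (t : H) (p q r s : Ω) :
    (Ob (S3 H (t • p) (t • q) (t • r)) (t • s)).card = (Ob (S3 H p q r) s).card := by
  refine (card_bij (fun a _ => t • a) (fun a ha => ?_) (fun _ _ _ _ h => smul_left_cancel t h)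
    fun b hb => ⟨t⁻¹ • b, ?_, smul_inv_smul _ _⟩).symm
  · obtain ⟨g, hg, rfl⟩ := mem_Ob.1 ha
    rw [mem_S3] at hg
    exact mem_Ob.2 ⟨t * g * t⁻¹, mem_S3.2 (by simpa [mul_smul] using hg), by simp [mul_smul]⟩
  · obtain ⟨g, hg, rfl⟩ := mem_Ob.1 hb
    rw [mem_S3] at hg
    exact mem_Ob.2 ⟨t⁻¹ * g * t, mem_S3.2 (by simpa [mul_smul, inv_smul_eq_iff] using hg),
      by simp [mul_smul]⟩

/-- The data of the last case. -/
structure Cx (K : Subgroup H) (F : Finset Ω) (α β : Ω) : Prop where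
  h2 : Tr2 H Ω
  h3 : Tr3 H Ω
  hF : ∀ a, a ∈ F ↔ ∀ k ∈ K, k • a = a
  hn : Fintype.card Ω = 2 * F.card
  hα : α ∈ F
  hβ : β ∈ F
  ne : α ≠ β
  gF : ∀ a ∈ F, a ≠ α → a ≠ β → Gd H F α β a
  gA : ∀ a, a ≠ α → a ≠ β → ∃ F', Gd H F' α β a

def Rl (H : Type) [Group H] [MulAction H Ω] (α β x y a b : Ω) : Prop :=
  ∃ g : H, g • α = α ∧ g • β = β ∧ g • x = a ∧ g • y = b

noncomputable def Nb (H : Type) [Group H] [MulAction H Ω] (α β x y a : Ω) : Finset Ω :=
  univ.filter (fun b => Rl H α β x y a b)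

/-- An admissible pair. -/
structure Ad (H : Type) [Group H] [MulAction H Ω] (α β x y : Ω) : Prop where
  xα : x ≠ α
  xβ : x ≠ β
  yα : y ≠ α
  yβ : y ≠ β
  xy : x ≠ y
  sym : Rl H α β x y y x

variable {K : Subgroup H} {F : Finset Ω} {α β x y : Ω}

omit [Fintype H] in
theorem mem_Nb {a b : Ω} : b ∈ Nb H α β x y a ↔ Rl H α β x y a b := by simp [Nb]

omit [Fintype Ω] [Fintype H] in
theorem Rl.rfl' : Rl H α β x y x y := ⟨1, by simp⟩

omit [Fintype Ω] [Fintype H] in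
theorem Rl.smul {a b : Ω} (h : Rl H α β x y a b) {g : H} (g1 : g • α = α) (g2 : g • β = β) :
    Rl H α β x y (g • a) (g • b) := by
  obtain ⟨t, t1, t2, rfl, rfl⟩ := h
  exact ⟨g * t, by simp [mul_smul, *]⟩

omit [Fintype Ω] [Fintype H] in
theorem Rl.symm (A : Ad H α β x y) {a b : Ω} (h : Rl H α β x y a b) : Rl H α β x y b a := by
  obtain ⟨t, t1, t2, rfl, rfl⟩ := h
  exact A.sym.smul t1 t2

omit [Fintype Ω] [Fintype H] in
theorem Rl.ne (A : Ad H α β x y) {a b : Ω} (h : Rl H α β x y a b) :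
    a ≠ α ∧ a ≠ β ∧ b ≠ α ∧ b ≠ β ∧ a ≠ b := by
  obtain ⟨t, t1, t2, rfl, rfl⟩ := h
  exact ⟨fun e => A.xα (smul_left_cancel t (e.trans t1.symm)),
    fun e => A.xβ (smul_left_cancel t (e.trans t2.symm)),
    fun e => A.yα (smul_left_cancel t (e.trans t1.symm)),
    fun e => A.yβ (smul_left_cancel t (e.trans t2.symm)), fun e => A.xy (smul_left_cancel t e)⟩

theorem Rl.nb {a b : Ω} (h : Rl H α β x y a b) : Nb H α β x y a = Ob (S3 H α β a) b := by
  ext c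
  rw [mem_Nb, mem_Ob]
  constructor
  · obtain ⟨t, t1, t2, rfl, rfl⟩ := h
    rintro ⟨g, g1, g2, g3, rfl⟩
    exact ⟨g * t⁻¹, mem_S3.2 ⟨by rw [mul_smul, inv_smul_eq_iff.2 t1.symm, g1],
      by rw [mul_smul, inv_smul_eq_iff.2 t2.symm, g2], by rw [mul_smul, inv_smul_smul, g3]⟩,
      by rw [mul_smul, inv_smul_smul]⟩
  · rintro ⟨g, hg, rfl⟩
    rw [mem_S3] at hg
    have := h.smul hg.1 hg.2.1
    rwa [hg.2.2] at this

theorem Rl.card {a b : Ω} (h : Rl H α β x y a b) :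
    (Nb H α β x y a).card = (Ob (S3 H α β x) y).card := by
  rw [h.nb]
  obtain ⟨t, t1, t2, rfl, rfl⟩ := h
  rw [← card_Ob_smul t α β x y, t1, t2]

theorem Cx.mv (C : Cx K F α β) {a b : Ω} (a1 : a ≠ α) (a2 : a ≠ β) (b1 : b ≠ α) (b2 : b ≠ β) :
    ∃ g : H, g • α = α ∧ g • β = β ∧ g • a = b :=
  C.h3 α β a α β b C.ne a1.symm a2.symm C.ne b1.symm b2.symm

theorem Cx.ex (C : Cx K F α β) (A : Ad H α β x y) {a : Ω} (a1 : a ≠ α) (a2 : a ≠ β) :
    ∃ b, Rl H α β x y a b := by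
  obtain ⟨g, g1, g2, g3⟩ := C.mv A.xα A.xβ a1 a2
  exact ⟨g • y, g, g1, g2, g3, rfl⟩

theorem Cx.two (C : Cx K F α β) (A : Ad H α β x y) (ho : Odd (Ob (S3 H α β x) y).card)
    {a b c a' b' c' : Ω} (h1 : Rl H α β x y a b) (h2 : Rl H α β x y a c) (bc : b ≠ c)
    (k1 : Rl H α β x y a' b') (k2 : Rl H α β x y a' c') (bc' : b' ≠ c') :
    ∃ g : H, g • α = α ∧ g • β = β ∧ g • a = a' ∧ g • b = b' ∧ g • c = c' := by
  obtain ⟨n1, n2, n3, n4, n5⟩ := k1.ne A
  obtain ⟨t, t1, t2, t3⟩ := C.mv (h1.ne A).1 (h1.ne A).2.1 n1 n2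
  obtain ⟨F', G⟩ := C.gA a' n1 n2
  have := ((G b' n3 n4 n5.symm).1 (by rw [← k1.nb, k1.card]; exact ho)).2.2
  rw [← k1.nb] at this
  obtain ⟨g, hg, e1, e2⟩ := this (t • b) (mem_Nb.2 (t3 ▸ h1.smul t1 t2)) (t • c)
    (mem_Nb.2 (t3 ▸ h2.smul t1 t2)) b' (mem_Nb.2 k1) c' (mem_Nb.2 k2) (by simpa using bc) bc'
  rw [mem_S3] at hg
  exact ⟨g * t, by simp [mul_smul, *]⟩

theorem Cx.three (C : Cx K F α β) (A : Ad H α β x y) (ho : Odd (Ob (S3 H α β x) y).card) :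
    3 ≤ (Ob (S3 H α β x) y).card := by
  obtain ⟨F', G⟩ := C.gA x A.xα A.xβ
  exact ((G y A.yα A.yβ A.xy.symm).1 ho).1

theorem Cx.dd1 (C : Cx K F α β) (A : Ad H α β x y) (ho : Odd (Ob (S3 H α β x) y).card) {a : Ω}
    (ha : a ∈ F) (a1 : a ≠ α) (a2 : a ≠ β) : dd F (Nb H α β x y a) = 1 := by
  obtain ⟨b, hb⟩ := C.ex A a1 a2
  obtain ⟨-, -, n3, n4, n5⟩ := hb.ne A
  have := ((C.gF a ha a1 a2 b n3 n4 n5.symm).1 (by rw [← hb.nb, hb.card]; exact ho)).2.1
  rwa [← hb.nb] at this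

theorem Cx.dd2 (C : Cx K F α β) : dd F ({α, β} : Finset Ω)ᶜ = 2 := by
  have e1 := dd_sdiff F (subset_univ ({α, β} : Finset Ω))
  have e2 : dd F ({α, β} : Finset Ω) = -2 := by
    rw [dd, sum_pair C.ne]
    simp [C.hα, C.hβ]
  rw [dd_eq F univ, card_univ, univ_inter, ← compl_eq_univ_sdiff] at e1
  have := C.hn
  omega

theorem Cx.clique (C : Cx K F α β) (A : Ad H α β x y) (ho : Odd (Ob (S3 H α β x) y).card)
    (tri : ∀ a b c, Rl H α β x y a b → Rl H α β x y a c → b ≠ c → Rl H α β x y b c) : False := by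
  have k3 := C.three A ho
  have mZ : ∀ a, a ∈ ({α, β} : Finset Ω)ᶜ ↔ a ≠ α ∧ a ≠ β := fun a => by simp [not_or]
  obtain ⟨c, hc⟩ : ∃ c : Ω → Finset Ω, ∀ a, c a = insert a (Nb H α β x y a) := ⟨_, fun _ => rfl⟩
  have mc : ∀ a b, b ∈ c a ↔ b = a ∨ Rl H α β x y a b := fun a b => by rw [hc, mem_insert, mem_Nb]
  have nn : ∀ a, a ∉ Nb H α β x y a := fun a h => ((mem_Nb.1 h).ne A).2.2.2.2 rfl
  have cc : ∀ a ∈ ({α, β} : Finset Ω)ᶜ, (c a).card = (Ob (S3 H α β x) y).card + 1 := fun a ha => by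
    obtain ⟨b, hb⟩ := C.ex A ((mZ a).1 ha).1 ((mZ a).1 ha).2
    rw [hc, card_insert_of_notMem (nn a), hb.card]
  have sy : ∀ a b, b ∈ c a → a ∈ c b := fun a b h => by
    rw [mc] at h ⊢
    exact h.imp Eq.symm fun h => h.symm A
  have tr : ∀ a b d, b ∈ c a → d ∈ c a → d ∈ c b := fun a b d h1 h2 => by
    rw [mc] at h1 h2 ⊢
    rcases h1 with rfl | h1
    · exact h2
    rcases h2 with rfl | h2
    · exact Or.inr (h1.symm A)
    by_cases e : d = b
    · exact Or.inl e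
    · exact Or.inr (tri a b d h1 h2 (Ne.symm e))
  have eq : ∀ a b, b ∈ c a → c b = c a := fun a b h =>
    Subset.antisymm (fun d hd => tr b a d (sy a b h) hd) fun d hd => tr a b d h hd
  have cZ : ∀ a ∈ ({α, β} : Finset Ω)ᶜ, ∀ b ∈ c a, b ∈ ({α, β} : Finset Ω)ᶜ := fun a ha b hb => by
    rcases (mc a b).1 hb with rfl | h
    · exact ha
    · exact (mZ b).2 ⟨(h.ne A).2.2.1, (h.ne A).2.2.2.1⟩
  have d1 : ∀ a ∈ ({α, β} : Finset Ω)ᶜ, dd F (c a) =
      if ∀ b ∈ c a, b ∉ F then ((Ob (S3 H α β x) y).card + 1 : ℤ) else 0 := fun a ha => by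
    split_ifs with h
    · rw [dd_eq, cc a ha, eq_empty_iff_forall_notMem.2 fun b hb =>
        h b (mem_inter.1 hb).1 (mem_inter.1 hb).2]
      simp
    · push Not at h
      obtain ⟨b, hb, hbF⟩ := h
      have hb' := (mZ b).1 (cZ a ha b hb)
      rw [← eq a b hb, hc, dd, sum_insert (nn b), if_pos hbF, ← dd, C.dd1 A ho hbF hb'.1 hb'.2]
      rfl
  have d2 : ∑ a ∈ ({α, β} : Finset Ω)ᶜ, dd F (c a) =
      ((Ob (S3 H α β x) y).card + 1 : ℤ) * dd F ({α, β} : Finset Ω)ᶜ := by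
    unfold dd
    rw [sum_comm' (t' := ({α, β} : Finset Ω)ᶜ) (s' := c) fun a b =>
      ⟨fun h => ⟨sy a b h.2, cZ a h.1 b h.2⟩, fun h => ⟨cZ b h.2 a h.1, sy b a h.1⟩⟩, mul_sum]
    refine sum_congr rfl fun b hb => ?_
    rw [sum_const, cc b hb, nsmul_eq_mul]
    push_cast; rfl
  rw [sum_congr rfl d1, ← sum_filter, sum_const, C.dd2, nsmul_eq_mul, mul_comm] at d2
  have d3 : (({α, β} : Finset Ω)ᶜ.filter (fun a => ∀ b ∈ c a, b ∉ F)).card = 2 := by
    have := mul_left_cancel₀ (by positivity) d2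
    exact_mod_cast this
  obtain ⟨a, ha⟩ := card_pos.1 (show 0 < _ by rw [d3]; norm_num)
  rw [mem_filter] at ha
  have := card_le_card (show c a ⊆ ({α, β} : Finset Ω)ᶜ.filter (fun a => ∀ b ∈ c a, b ∉ F) from
    fun b hb => mem_filter.2 ⟨cZ a ha.1 b hb, by rw [eq a b hb]; exact ha.2⟩)
  rw [cc a ha.1, d3] at this
  omega

theorem parity (h2 : Tr2 H Ω) (ne : α ≠ β)
    (s : ∀ a b, a ≠ α → a ≠ β → b ≠ α → b ≠ β → a ≠ b →
      (Odd (Ob (S3 H α β a) b).card ↔ Odd (Ob (S3 H α β b) a).card))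
    (t : ∀ a b c, a ≠ α → a ≠ β → b ≠ α → b ≠ β → c ≠ α → c ≠ β → a ≠ b → a ≠ c → b ≠ c →
      (Odd (Ob (S3 H α β a) b).card ↔
        ¬ (Odd (Ob (S3 H α β a) c).card ↔ Odd (Ob (S3 H α β b) c).card)))
    {a b c : Ω} (a1 : a ≠ α) (a2 : a ≠ β) (b1 : b ≠ α) (b2 : b ≠ β) (c1 : c ≠ α) (c2 : c ≠ β)
    (ab : a ≠ b) (ac : a ≠ c) (bc : b ≠ c) : ¬ Odd (Ob (S3 H α β a) b).card := by
  obtain ⟨T, hT⟩ : ∃ T : Ω → Ω → Ω → Ω → Prop,
      ∀ p q r s, T p q r s ↔ Odd (Ob (S3 H p q r) s).card := ⟨_, fun _ _ _ _ => Iff.rfl⟩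
  simp only [← hT] at s t ⊢
  have inv : ∀ (g : H) p q r s, T (g • p) (g • q) (g • r) (g • s) ↔ T p q r s := fun g p q r s => by
    rw [hT, hT, card_Ob_smul]
  have s23 : ∀ p q r s, T p q r s ↔ T p r q s := fun p q r s => by
    rw [hT, hT, S3, S3, inf_right_comm]
  have s34 : ∀ p q r s, p ≠ q → r ≠ p → r ≠ q → s ≠ p → s ≠ q → r ≠ s → (T p q r s ↔ T p q s r) := by
    intro p q r s' pq h1 h3 h4 h5 h6
    obtain ⟨g, rfl, rfl⟩ := h2 p q α β pq ne
    rw [← inv g, ← inv g p q s']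
    exact s _ _ (by simpa using h1) (by simpa using h3) (by simpa using h4) (by simpa using h5)
      (by simpa using h6)
  have tt : ∀ p q a b c, p ≠ q → a ≠ p → a ≠ q → b ≠ p → b ≠ q → c ≠ p → c ≠ q → a ≠ b → a ≠ c →
      b ≠ c → (T p q a b ↔ ¬ (T p q a c ↔ T p q b c)) := by
    intro p q a b c pq h1 h3 h4 h5 h6 h7 h8 h9 h10
    obtain ⟨g, rfl, rfl⟩ := h2 p q α β pq ne
    rw [← inv g, ← inv g p q a c, ← inv g p q b c]
    exact t _ _ _ (by simpa using h1) (by simpa using h3) (by simpa using h4) (by simpa using h5)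
      (by simpa using h6) (by simpa using h7) (by simpa using h8) (by simpa using h9)
      (by simpa using h10)
  have e1 := t a b c a1 a2 b1 b2 c1 c2 ab ac bc
  have e2 := tt α a β b c a1.symm ne.symm a2.symm b1 ab.symm c1 ac.symm b2.symm c2.symm bc
  have e3 := tt α b β a c b1.symm ne.symm b2.symm a1 ab c1 bc.symm a2.symm c2.symm ac
  have e4 := tt α c β a b c1.symm ne.symm c2.symm a1 ac b1 bc a2.symm b2.symm ab
  rw [s23 α a β, s23 α a β] at e2
  rw [s23 α b β, s23 α b β, s23 α b a, ← s a b a1 a2 b1 b2 ab] at e3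
  rw [s23 α c β, s23 α c β, s23 α c a, ← s a c a1 a2 c1 c2 ac, ← s b c b1 b2 c1 c2 bc,
    ← s34 α a b c a1.symm b1 ab.symm c1 ac.symm bc] at e4
  tauto

theorem prop3 {a b c a' b' c' : Prop} (v0 : a → b → ¬ c) (v1 : a' → b' → c') (v2 : a' → c' → b')
    (v3 : b' → c' → a') (u1 : ¬ a ↔ a') (u2 : ¬ b ↔ b') (u3 : ¬ c ↔ c') : a ↔ ¬ (b ↔ c) := by
  tauto

theorem prop2 {o r r' : Prop} (f1 : r → o) (f2 : r' → ¬ o) (f3 : r ∨ r') :
    (o ↔ r) ∧ (¬ r ↔ r') := by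
  tauto

theorem Cx.graph (C : Cx K F α β) (A : Ad H α β x y) (ho : Odd (Ob (S3 H α β x) y).card) :
    False := by
  have nt : ∀ a b c, Rl H α β x y a b → Rl H α β x y a c → ¬ Rl H α β x y b c := by
    intro a b c h1 h2 h3
    refine C.clique A ho fun a' b' c' k1 k2 hne => ?_
    obtain ⟨g, g1, g2, -, rfl, rfl⟩ := C.two A ho h1 h2 (h3.ne A).2.2.2.2 k1 k2 hne
    exact h3.smul g1 g2
  have k3 := C.three A ho
  have r0 : Rl H α β x y x y := Rl.rfl'
  obtain ⟨y', hy', yy⟩ := exists_mem_ne (s := Nb H α β x y x) (by rw [r0.card]; omega) y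
  rw [mem_Nb] at hy'
  have R2 : ∀ a b c, Rl H α β x y a b → Rl H α β x y a c → b ≠ c → Rl H α β y y' b c := by
    intro a b c h1 h2 hne
    obtain ⟨g, g1, g2, -, g3, g4⟩ := C.two A ho r0 hy' yy.symm h1 h2 hne
    exact ⟨g, g1, g2, g3, g4⟩
  have A2 : Ad H α β y y' := ⟨A.yα, A.yβ, (hy'.ne A).2.2.1, (hy'.ne A).2.2.2.1, yy.symm,
    R2 x y' y hy' r0 yy⟩
  have cN : ∀ a, a ≠ α → a ≠ β → (Nb H α β x y a).card = (Ob (S3 H α β x) y).card :=
    fun a a1 a2 => by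
      obtain ⟨b, hb⟩ := C.ex A a1 a2
      exact hb.card
  have cm : ∀ a c, Rl H α β y y' a c → (Nb H α β x y a ∩ Nb H α β x y c).card =
      (Nb H α β x y y ∩ Nb H α β x y y').card := by
    rintro a c ⟨g, g1, g2, rfl, rfl⟩
    refine (card_bij (fun a _ => g • a) (fun a ha => ?_) (fun _ _ _ _ h => smul_left_cancel g h)
      fun b hb => ⟨g⁻¹ • b, ?_, smul_inv_smul _ _⟩).symm
    · simp only [mem_inter, mem_Nb] at ha ⊢
      exact ⟨ha.1.smul g1 g2, ha.2.smul g1 g2⟩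
    · simp only [mem_inter, mem_Nb] at hb ⊢
      have g1' := inv_smul_eq_iff.2 g1.symm
      have g2' := inv_smul_eq_iff.2 g2.symm
      exact ⟨by simpa using hb.1.smul g1' g2', by simpa using hb.2.smul g1' g2'⟩
  generalize hμ : (Nb H α β x y y ∩ Nb H α β x y y').card = μ at cm
  by_cases big : (Ob (S3 H α β x) y).card < 2 * μ
  · have tri : ∀ a c c', Rl H α β y y' a c → Rl H α β y y' a c' → c ≠ c' → Rl H α β y y' c c' := by
      intro a c c' h1 h2 hne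
      have e1 := cm a c h1
      have e2 := cm a c' h2
      have e3 := cN a (h1.ne A2).1 (h1.ne A2).2.1
      have e4 := card_union_add_card_inter (Nb H α β x y a ∩ Nb H α β x y c)
        (Nb H α β x y a ∩ Nb H α β x y c')
      have e5 := card_le_card (union_subset (inter_subset_left (s₂ := Nb H α β x y c))
        (inter_subset_left (s₁ := Nb H α β x y a) (s₂ := Nb H α β x y c')))
      obtain ⟨b, hb⟩ := card_pos.1 (show 0 < ((Nb H α β x y a ∩ Nb H α β x y c) ∩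
        (Nb H α β x y a ∩ Nb H α β x y c')).card by omega)
      simp only [mem_inter, mem_Nb] at hb
      exact R2 b c c' (hb.1.2.symm A) (hb.2.2.symm A) hne
    rcases Nat.even_or_odd (Ob (S3 H α β y) y').card with he | ho2
    swap
    · exact C.clique A2 ho2 tri
    have key : ∀ a b, a ≠ α → a ≠ β → b ≠ α → b ≠ β → a ≠ b →
        (Odd (Ob (S3 H α β a) b).card ↔ Rl H α β x y a b) ∧
          (¬ Rl H α β x y a b ↔ Rl H α β y y' a b) := by
      intro a b a1 a2 b1 b2 ab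
      have f1 : ∀ b, Rl H α β x y a b → Odd (Ob (S3 H α β a) b).card := fun b h => by
        rw [← h.nb, h.card]; exact ho
      have f2 : ∀ b, Rl H α β y y' a b → ¬ Odd (Ob (S3 H α β a) b).card := fun b h => by
        rw [← h.nb, h.card]; exact Nat.not_odd_iff_even.2 he
      have f3 : Rl H α β x y a b ∨ Rl H α β y y' a b := by
        by_contra hc
        push Not at hc
        obtain ⟨c, h1⟩ := C.ex A2 a1 a2
        obtain ⟨d, h2⟩ := C.ex A a1 a2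
        obtain ⟨F', G⟩ := C.gA a a1 a2
        obtain ⟨-, -, n3, n4, n5⟩ := h1.ne A2
        obtain ⟨-, -, m3, m4, m5⟩ := h2.ne A
        have := ((G c n3 n4 n5.symm).2 (Nat.not_odd_iff_even.1 (f2 c h1)) d m3 m4 m5.symm (by
          rw [← h1.nb, mem_Nb]; exact fun h => f2 d h (f1 d h2))).2 b b1 b2 ab.symm (by
          rw [← h1.nb, mem_Nb]; exact hc.2)
        rw [← h2.nb, mem_Nb] at this
        exact hc.1 this
      exact prop2 (f1 b) (f2 b) f3
    refine parity C.h2 C.ne (fun a b a1 a2 b1 b2 ab => ?_)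
      (fun a b c a1 a2 b1 b2 c1 c2 ab ac bc => ?_) A.xα A.xβ A.yα A.yβ A2.yα A2.yβ A.xy
      (hy'.ne A).2.2.2.2 A2.xy ho
    · rw [(key a b a1 a2 b1 b2 ab).1, (key b a b1 b2 a1 a2 ab.symm).1]
      exact ⟨fun h => h.symm A, fun h => h.symm A⟩
    · have u1 := key a b a1 a2 b1 b2 ab
      have u2 := key a c a1 a2 c1 c2 ac
      have u3 := key b c b1 b2 c1 c2 bc
      rw [u1.1, u2.1, u3.1]
      exact prop3 (nt a b c) (fun h1 h2 => tri a b c h1 h2 bc)
        (fun h1 h2 => tri b a c (h1.symm A2) h2 ac)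
        (fun h1 h2 => tri c a b (h1.symm A2) (h2.symm A2) ab) u1.2 u2.2 u3.2
  obtain ⟨j, hj⟩ := id ho
  have e1 : ∀ a ∈ (F.erase α).erase β, ((Fᶜ).filter (fun b => Rl H α β x y a b)).card = j + 1 := by
    intro a ha
    simp only [mem_erase] at ha
    have h1 := C.dd1 A ho ha.2.2 ha.2.1 ha.1
    have h2 := cN a ha.2.1 ha.1
    have h3 := card_sdiff_add_card_inter (Nb H α β x y a) F
    have h4 : (Fᶜ).filter (fun b => Rl H α β x y a b) = Nb H α β x y a \ F := by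
      ext b; simp [mem_Nb, and_comm]
    rw [dd_eq] at h1
    rw [h4]; omega
  have e2 : ∀ b ∈ Fᶜ, (((F.erase α).erase β).filter (fun a => Rl H α β x y a b)).card ≤ μ := by
    intro b hb
    rw [mem_compl, C.hF] at hb
    push Not at hb
    obtain ⟨k, hk, hb⟩ := hb
    have k1 := (C.hF α).1 C.hα k hk
    have k2 := (C.hF β).1 C.hβ k hk
    have sm : ∀ a ∈ ((F.erase α).erase β).filter (fun a => Rl H α β x y a b),
        Rl H α β x y a b ∧ Rl H α β x y a (k • b) := fun a ha => by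
      simp only [mem_filter, mem_erase] at ha
      have := ha.2.smul k1 k2
      rw [(C.hF a).1 ha.1.2.2 k hk] at this
      exact ⟨ha.2, this⟩
    rcases (((F.erase α).erase β).filter (fun a => Rl H α β x y a b)).eq_empty_or_nonempty with
      h | ⟨a, ha⟩
    · simp [h]
    rw [← cm b (k • b) (R2 a _ _ (sm a ha).1 (sm a ha).2 hb.symm)]
    exact card_le_card fun a ha =>
      mem_inter.2 ⟨mem_Nb.2 ((sm a ha).1.symm A), mem_Nb.2 ((sm a ha).2.symm A)⟩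
  have e3 := card_mul_le_card_mul (fun a b => Rl H α β x y a b) (s := (F.erase α).erase β)
    (t := Fᶜ) (m := j + 1) (n := μ) (fun a ha => (e1 a ha).ge) e2
  have c1 := card_erase_add_one C.hα
  have c2 := card_erase_add_one (mem_erase.2 ⟨C.ne.symm, C.hβ⟩)
  have c3 := card_compl_add_card F
  have c4 := C.hn
  have c5 := card_compl_add_card ({α, β} : Finset Ω)
  rw [card_pair C.ne] at c5
  have c6 : F.card ≤ 2 * j + 2 := by
    obtain ⟨i, hi⟩ : ∃ i, ((F.erase α).erase β).card = i := ⟨_, rfl⟩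
    rw [hi, show (Fᶜ).card = i + 2 by omega] at e3
    have : (i + 2) * μ ≤ (i + 2) * j := Nat.mul_le_mul_left _ (by omega)
    have : i ≤ 2 * j := by nlinarith
    omega
  have full : ∀ b, Rl H α β x y x b → Nb H α β x y b = ({α, β} : Finset Ω)ᶜ \ Nb H α β x y x := by
    intro b hb
    have sub : ∀ a, Nb H α β x y a ⊆ ({α, β} : Finset Ω)ᶜ := fun a c hc => by
      have := (mem_Nb.1 hc).ne A
      simp [this.2.2.1, this.2.2.2.1]
    refine eq_of_subset_of_card_le (fun c hc => mem_sdiff.2 ⟨sub b hc, fun h =>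
      nt x b c hb (mem_Nb.1 h) (mem_Nb.1 hc)⟩) ?_
    have := card_sdiff_add_card_eq_card (sub x)
    rw [cN b (hb.ne A).2.2.1 (hb.ne A).2.2.2.1]
    rw [r0.card] at this
    omega
  rw [full y' hy', ← full y r0, inter_self, cN y A.yα A.yβ] at hμ
  omega

end CF.Prn
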