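import Cfsg.Agent.Pron.R
import Mathlib.Data.ZMod.Basic

/-! The induction. -/

set_option autoImplicit false

namespace CF.Prn

open Finset
open scoped Classical

variable {Ω : Type} [Fintype Ω] {H : Type} [Group H] [Fintype H] [MulAction H Ω]

theorem Cx.fin {K : Subgroup H} {F : Finset Ω} {α β γ : Ω} (C : Cx K F α β) (g1 : γ ≠ α)
    (g2 : γ ≠ β) : False := by
  have out : ∀ a s, a ≠ α → a ≠ β → s ≠ α → s ≠ β → s ≠ a → Even (Ob (S3 H α β a) s).card →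
      ∃ t, t ≠ α ∧ t ≠ β ∧ t ≠ a ∧ t ∉ Ob (S3 H α β a) s := by
    intro a s a1 a2 s1 s2 s3 ⟨j, hj⟩
    by_contra hc
    push Not at hc
    have e : Ob (S3 H α β a) s = ({α, β, a} : Finset Ω)ᶜ := by
      ext t
      simp only [mem_compl, mem_insert, mem_singleton, not_or]
      exact ⟨Ob_ne s1 s2 s3, fun h => hc t h.1 h.2.1 h.2.2⟩
    have c1 := card_compl_add_card ({α, β, a} : Finset Ω)
    rw [← e, card_eq_three.2 ⟨α, β, a, C.ne, a1.symm, a2.symm, rfl⟩, C.hn] at c1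
    omega
  obtain ⟨t, t1, t2, t3, ht⟩ : ∃ t, t ≠ α ∧ t ≠ β ∧ t ≠ γ ∧ Odd (Ob (S3 H α β γ) t).card := by
    have c1 := card_compl_add_card ({α, β, γ} : Finset Ω)
    rw [card_eq_three.2 ⟨α, β, γ, C.ne, g1.symm, g2.symm, rfl⟩, C.hn] at c1
    obtain ⟨s, hs⟩ := card_pos.1 (show 0 < (({α, β, γ} : Finset Ω)ᶜ).card by omega)
    simp only [mem_compl, mem_insert, mem_singleton, not_or] at hs
    rcases Nat.even_or_odd (Ob (S3 H α β γ) s).card with he | ho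
    · obtain ⟨t, t1, t2, t3, ht⟩ := out γ s g1 g2 hs.1 hs.2.1 hs.2.2 he
      obtain ⟨F', G⟩ := C.gA γ g1 g2
      exact ⟨t, t1, t2, t3, ((G s hs.1 hs.2.1 hs.2.2).2 he t t1 t2 t3 ht).1⟩
    · exact ⟨s, hs.1, hs.2.1, hs.2.2, ho⟩
  obtain ⟨F', G⟩ := C.gA γ g1 g2
  obtain ⟨k3, -, tw⟩ := (G t t1 t2 t3).1 ht
  obtain ⟨x, hx, y, hy, xy⟩ := one_lt_card.1 (show 1 < (Ob (S3 H α β γ) t).card by omega)
  obtain ⟨g, hg, e1, e2⟩ := tw x hx y hy y hy x hx xy xy.symm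
  rw [mem_S3] at hg
  have nx := Ob_ne t1 t2 t3 hx
  have ny := Ob_ne t1 t2 t3 hy
  have A : Ad H α β x y := ⟨nx.1, nx.2.1, ny.1, ny.2.1, xy, g, hg.1, hg.2.1, e1, e2⟩
  rcases Nat.even_or_odd (Ob (S3 H α β x) y).card with he | ho
  swap
  · exact C.graph A ho
  obtain ⟨z, z1, z2, z3, hz⟩ := out x y A.xα A.xβ A.yα A.yβ xy.symm he
  obtain ⟨F1, G1⟩ := C.gA x A.xα A.xβ
  have oz := ((G1 y A.yα A.yβ xy.symm).2 he z z1 z2 z3 hz).1
  refine C.graph (x := x) (y := z) ⟨A.xα, A.xβ, z1, z2, z3.symm, ?_⟩ oz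
  obtain ⟨w, w1, w2, w3⟩ := C.mv A.xα A.xβ z1 z2
  have r1 : Rl H α β x y z (w • y) := ⟨w, w1, w2, w3, rfl⟩
  have r2 : Rl H α β x z z (w • z) := ⟨w, w1, w2, w3, rfl⟩
  obtain ⟨-, -, n3, n4, n5⟩ := r1.ne A
  obtain ⟨F2, G2⟩ := C.gA z z1 z2
  have he' : Even (Ob (S3 H α β z) (w • y)).card := by rw [← r1.nb, r1.card]; exact he
  have oz' : Odd (Ob (S3 H α β z) (w • z)).card := by rw [← r2.nb, r2.card]; exact oz
  have := ((G2 _ n3 n4 n5.symm).2 he' (w • z) (fun e => z1 (smul_left_cancel w (e.trans w1.symm)))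
    (fun e => z2 (smul_left_cancel w (e.trans w2.symm)))
    (fun e => z3 (smul_left_cancel w (e.trans w3.symm)))
    (fun h => Nat.not_odd_iff_even.2 he' (Ob_eq h ▸ oz'))).2 x A.xα A.xβ z3.symm fun h => hz (by
      rw [← r1.nb, mem_Nb] at h
      rw [← (Rl.rfl' : Rl H α β x y x y).nb, mem_Nb]
      exact h.symm A)
  rwa [← r2.nb, mem_Nb] at this

theorem finF (IH : ∀ n < Fintype.card Ω, St0 n) (hf : ∀ h : H, h ≠ 1 → ∃ a : Ω, h • a ≠ a)
    (h1 : Tr1 H Ω) (h2 : Tr2 H Ω) (h3 : Tr3 H Ω) {K : Subgroup H} (hP : Pn K)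
    (hK : ∃ k ∈ K, ∃ a : Ω, k • a ≠ a) {F : Finset Ω} (hF : ∀ a, a ∈ F ↔ ∀ k ∈ K, k • a = a)
    (hn : Fintype.card Ω = 2 * F.card) : False := by
  obtain ⟨k, hk, a, ha⟩ := hK
  have hK : K ≠ ⊥ := fun e => ha (by rw [e, Subgroup.mem_bot] at hk; rw [hk, one_smul])
  have hm : 2 ≤ F.card := by
    have := mv_not (fun a ha => (hF a).1 ha k hk) ha
    have := one_lt_card.2 ⟨_, mem_compl.2 this.2, a, mem_compl.2 this.1, ha⟩
    have := card_compl_add_card F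
    omega
  by_cases h4 : F.card ≤ 4 ∨ Tr4 H Ω
  · exact fin3 hf h1 h2 h3 hP hK hF hn hm h4
  rw [not_or] at h4
  by_cases ns : ∀ a b c : Ω, a ≠ b → a ≠ c → b ≠ c → Ex H F a b c = ∅
  swap
  · push Not at ns
    obtain ⟨a, b, c, ab, ac, bc, x, hx⟩ := ns
    exact fin0 h1 h2 h3 hP hK hF hn hm (sq_case hf h3 F hn hm ab ac bc hx)
  obtain ⟨α, β, γ, hα, hβ, hγ, ab, ac, bc⟩ := two_lt_card_iff.1 (show 2 < F.card by omega)
  refine Cx.fin (K := K) (F := F) ⟨h2, h3, hF, hn, hα, hβ, ab, fun a ha a1 a2 =>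
    base IH h3 h4.2 hP hF hn hα hβ ha ab a1.symm a2.symm (ns _ _ _ ab a1.symm a2.symm),
    fun a a1 a2 => ?_⟩ ac.symm bc.symm
  obtain ⟨g, g1, g2, g3⟩ := h3 α β a α β γ ab a1.symm a2.symm ab ac bc
  refine ⟨pull F g, base IH h3 h4.2 (hP.cj g) (fix_cjK hF g) (by rw [card_pull, hn])
    (mem_pull.2 (g1.symm ▸ hα)) (mem_pull.2 (g2.symm ▸ hβ)) (mem_pull.2 (g3.symm ▸ hγ)) ab a1.symm
    a2.symm (eq_empty_iff_forall_notMem.2 fun x hx => ?_)⟩
  rw [mem_Ex] at hx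
  refine eq_empty_iff_forall_notMem.1 (ns _ _ _ ab a1.symm a2.symm) x
    (mem_Ex.2 ⟨hx.1, hx.2.1, hx.2.2.1, fun h => ?_⟩)
  simpa [mul_smul] using hx.2.2.2 (g⁻¹ * h)

theorem finG (IH : ∀ n < Fintype.card Ω, St0 n)
    (h1 : Tr1 H Ω) (h2 : Tr2 H Ω) (h3 : Tr3 H Ω) {K : Subgroup H} (hP : Pn K)
    (hK : ∃ k ∈ K, ∃ a : Ω, k • a ≠ a) {F : Finset Ω} (hF : ∀ a, a ∈ F ↔ ∀ k ∈ K, k • a = a)
    (hn : Fintype.card Ω = 2 * F.card) : False := by
  have hs : ∀ (g : H) (a : Ω), (MulAction.toPermHom H Ω).rangeRestrict g • a = g • a :=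
    fun _ _ => rfl
  obtain ⟨k, hk, a, ha⟩ := hK
  refine finF (H := (MulAction.toPermHom H Ω).range) IH (fun h h1 => ?_) (fun x y => ?_)
    (fun x1 x2 y1 y2 a b => ?_) (fun x1 x2 x3 y1 y2 y3 a b c d e f => ?_)
    (hP.map _ (MulAction.toPermHom H Ω).rangeRestrict_surjective) ⟨_, ⟨k, hk, rfl⟩, a, ha⟩
    (fun a => ?_) hn
  · by_contra hc
    push Not at hc
    exact h1 (Subtype.ext (Equiv.ext hc))
  · obtain ⟨g, hg⟩ := h1 x y
    exact ⟨(MulAction.toPermHom H Ω).rangeRestrict g, hg⟩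
  · obtain ⟨g, hg⟩ := h2 x1 x2 y1 y2 a b
    exact ⟨(MulAction.toPermHom H Ω).rangeRestrict g, hg⟩
  · obtain ⟨g, hg⟩ := h3 x1 x2 x3 y1 y2 y3 a b c d e f
    exact ⟨(MulAction.toPermHom H Ω).rangeRestrict g, hg⟩
  · rw [hF]
    exact ⟨by rintro h _ ⟨k, hk, rfl⟩; exact h k hk, fun h k hk => h _ ⟨k, hk, rfl⟩⟩

theorem shake (h1 : Tr1 H Ω) {x y α : Ω} (xy : x ≠ y) {t : H} (t1 : t • x = y) (t2 : t • y = x)
    (ho : ∀ z, z ≠ α → Odd (Ob (MulAction.stabilizer H α) z).card) : Even (Fintype.card Ω) := by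
  have e1 : ∀ a, Odd (univ.filter (fun b => ∃ g : H, g • x = a ∧ g • y = b)).card := by
    intro a
    obtain ⟨s, rfl⟩ := h1 α a
    obtain ⟨r, hr⟩ := h1 x α
    have := ho (r • y) (by rw [← hr]; simpa using xy.symm)
    convert this using 1
    refine (card_bij (fun b _ => s • b) (fun b hb => ?_) (fun _ _ _ _ h => smul_left_cancel s h)
      fun b hb => ⟨s⁻¹ • b, ?_, smul_inv_smul _ _⟩).symm
    · obtain ⟨g, hg, rfl⟩ := mem_Ob.1 hb
      rw [MulAction.mem_stabilizer_iff] at hg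
      exact mem_filter.2 ⟨mem_univ _, s * g * r, by simp [mul_smul, hr, hg]⟩
    · obtain ⟨g, g1, rfl⟩ := (mem_filter.1 hb).2
      refine mem_Ob.2 ⟨s⁻¹ * g * r⁻¹, ?_, by simp [mul_smul]⟩
      rw [MulAction.mem_stabilizer_iff, mul_smul, mul_smul, inv_smul_eq_iff.2 hr.symm, g1,
        inv_smul_smul]
  have e2 : ∑ _p ∈ (univ : Finset (Ω × Ω)).filter
      (fun p => ∃ g : H, g • x = p.1 ∧ g • y = p.2), (1 : ZMod 2) = 0 := by
    refine sum_involution (fun p _ => p.swap) (fun _ _ => by decide) (fun p hp _ e => ?_)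
      (fun p hp => ?_) fun _ _ => rfl
    · obtain ⟨g, g1, g2⟩ := (mem_filter.1 hp).2
      have : p.2 = p.1 := congrArg Prod.fst e
      exact xy (smul_left_cancel g (by rw [g1, g2, this]))
    · obtain ⟨g, g1, g2⟩ := (mem_filter.1 hp).2
      exact mem_filter.2 ⟨mem_univ _, g * t, by simp [mul_smul, t1, t2, g1, g2]⟩
  rw [sum_filter, Fintype.sum_prod_type] at e2
  have e3 : ∀ a : Ω, (∑ b : Ω, if ∃ g : H, g • x = a ∧ g • y = b then (1 : ZMod 2) else 0) = 1 := by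
    intro a
    rw [sum_boole]
    exact ZMod.natCast_eq_one_iff_odd.2 (e1 a)
  simp only [e3, sum_const, card_univ, nsmul_eq_mul, mul_one] at e2
  exact ZMod.natCast_eq_zero_iff_even.1 e2

theorem step (n : ℕ) (IH : ∀ m < n, St0 m) : St0 n := by
  intro Ω H _ _ _ _ hn h1 K hP hK F hF
  subst hn
  by_cases hlt : 2 * F.card + 2 ≤ Fintype.card Ω
  · exact ⟨by omega, fun h => by omega⟩
  have n2 : 1 < Fintype.card Ω := by
    obtain ⟨k, -, a, ha⟩ := hK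
    exact Fintype.one_lt_card_iff.2 ⟨_, _, ha⟩
  obtain ⟨α, hα⟩ : F.Nonempty := card_pos.1 (by omega)
  have hL : K ≤ MulAction.stabilizer H α := fun k hk => (hF α).1 hα k hk
  have nα : ∀ x, x ≠ α → ∀ y ∈ Ob (MulAction.stabilizer H α) x, y ≠ α := fun x hx y hy => by
    obtain ⟨g, hg, rfl⟩ := mem_Ob.1 hy
    exact fun e => hx (smul_left_cancel g (e.trans (MulAction.mem_stabilizer_iff.1 hg).symm))
  have o := fun x (hx : x ≠ α) => orb IH hP hL hF (x := x) (a0 := α) (fun h => nα x hx α h rfl)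
    fun h => hlt (quo IH h1 hP hK hF hα hx.symm fun g hg =>
      clo hP hL hF h fun v hv => (fix_cjK hF g α).1 (mem_pull.2 hg) v hv)
  have mZ : ∀ x, x ∈ ({α} : Finset Ω)ᶜ ↔ x ≠ α := fun x => by simp
  have o1 : ∀ x ∈ ({α} : Finset Ω)ᶜ, 1 ≤ dd F (Ob (MulAction.stabilizer H α) x) := fun x hx => by
    have := (o x ((mZ x).1 hx)).1
    rw [dd_eq]; omega
  have hZ : ∀ g ∈ MulAction.stabilizer H α, ∀ a ∈ ({α} : Finset Ω)ᶜ, g • a ∈ ({α} : Finset Ω)ᶜ :=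
    fun g hg a ha => (mZ _).2 (nα a ((mZ a).1 ha) _ (mem_Ob.2 ⟨g, hg, rfl⟩))
  have d1 : dd F ({α} : Finset Ω)ᶜ = Fintype.card Ω - 2 * F.card + 1 := by
    have e1 := dd_sdiff F (subset_univ ({α} : Finset Ω))
    have e2 : dd F ({α} : Finset Ω) = -1 := by simp [dd, hα]
    rw [dd_eq F univ, card_univ, univ_inter, ← compl_eq_univ_sdiff] at e1
    omega
  obtain ⟨x0, hx0⟩ := Fintype.exists_ne_of_one_lt_card n2 α
  by_cases tr : ∀ y, y ≠ α → y ∈ Ob (MulAction.stabilizer H α) x0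
  · have h2 : Tr2 H Ω := fun x1 x2 y1 y2 a b => by
      obtain ⟨t, t1⟩ := h1 x1 α
      obtain ⟨u, u1⟩ := h1 y1 α
      have m1 := tr (t • x2) (by rw [← t1]; simpa using a.symm)
      have m2 := tr (u • y2) (by rw [← u1]; simpa using b.symm)
      rw [← Ob_eq m1] at m2
      obtain ⟨g, hg, e⟩ := mem_Ob.1 m2
      rw [MulAction.mem_stabilizer_iff] at hg
      refine ⟨u⁻¹ * g * t, ?_, ?_⟩ <;> rw [mul_smul, mul_smul, inv_smul_eq_iff]
      · rw [t1, u1, hg]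
      · exact e
    refine ⟨by_contra fun hc => ?_, fun _ => h2⟩
    have a1 := (dd_rest F _ _ hZ o1 ((mZ x0).2 hx0)).1
    have a2 := o1 x0 ((mZ x0).2 hx0)
    have a3 := dd_eq F (Ob (MulAction.stabilizer H α) x0)
    have tw := (o x0 hx0).2.2 (by omega)
    refine finG IH h1 h2 (fun x1 x2 x3 y1 y2 y3 a b c d e f => ?_) hP hK hF (by omega)
    obtain ⟨t, t1⟩ := h1 x1 α
    obtain ⟨u, u1⟩ := h1 y1 α
    obtain ⟨g, hg, e1, e2⟩ := tw _ (tr (t • x2) (by rw [← t1]; simpa using a.symm)) _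
      (tr (t • x3) (by rw [← t1]; simpa using b.symm)) _
      (tr (u • y2) (by rw [← u1]; simpa using d.symm)) _
      (tr (u • y3) (by rw [← u1]; simpa using e.symm)) (by simpa using c) (by simpa using f)
    rw [MulAction.mem_stabilizer_iff] at hg
    refine ⟨u⁻¹ * g * t, ?_, ?_, ?_⟩ <;> rw [mul_smul, mul_smul, inv_smul_eq_iff]
    · rw [t1, u1, hg]
    · exact e1
    · exact e2
  exfalso
  push Not at tr
  obtain ⟨y0, hy0, hy0'⟩ := tr
  have one : ∀ x, x ≠ α → dd F (Ob (MulAction.stabilizer H α) x) = 1 ∧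
      2 * F.card + 1 = Fintype.card Ω := by
    intro x hx
    obtain ⟨y, hy, hy'⟩ : ∃ y, y ≠ α ∧ y ∉ Ob (MulAction.stabilizer H α) x := by
      by_cases h : x0 ∈ Ob (MulAction.stabilizer H α) x
      · exact ⟨y0, hy0, Ob_eq h ▸ hy0'⟩
      · exact ⟨x0, hx0, h⟩
    have a1 := ((dd_rest F _ _ hZ o1 ((mZ x).2 hx)).2 y ((mZ y).2 hy) hy').1
    have a2 := o1 x ((mZ x).2 hx)
    have a3 := o1 y ((mZ y).2 hy)
    omega
  have a3 := dd_eq F (Ob (MulAction.stabilizer H α) x0)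
  have a4 := one x0 hx0
  obtain ⟨x, hx, y, hy, xy⟩ := one_lt_card.1 (o x0 hx0).2.1
  obtain ⟨t, -, t1, t2⟩ := (o x0 hx0).2.2 (by omega) x hx y hy y hy x hx xy xy.symm
  obtain ⟨j, hj⟩ := shake h1 xy t1 t2 (α := α) fun z hz => by
    have := dd_eq F (Ob (MulAction.stabilizer H α) z)
    have := (one z hz).1
    exact ⟨(Ob (MulAction.stabilizer H α) z ∩ F).card, by omega⟩
  omega

theorem all (n : ℕ) : St0 n := Nat.strong_induction_on n step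

theorem main (n : ℕ) (G : Subgroup (Equiv.Perm (Fin n)))
    (htrans : ∀ a b : Fin n, ∃ g ∈ G, g a = b)
    (K : Subgroup (Equiv.Perm (Fin n))) (hKG : K ≤ G) (hK : K ≠ ⊥)
    (hpro : ∀ g ∈ G, ∃ w ∈ K ⊔ K.map (MulAut.conj g).toMonoidHom,
      K.map (MulAut.conj w).toMonoidHom = K.map (MulAut.conj g).toMonoidHom) :
    2 * Nat.card {a : Fin n // ∀ k ∈ K, k a = a} + 1 ≤ n := by
  have mm : ∀ g h : Equiv.Perm (Fin n), h ∈ K.map (MulAut.conj g).toMonoidHom ↔ g⁻¹ * h * g ∈ K :=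
    fun g h => ⟨by rintro ⟨k, hk, rfl⟩; simpa [mul_assoc] using hk,
      fun hh => ⟨_, hh, by simp [mul_assoc]⟩⟩
  have hP : Pn (K.subgroupOf G) := by
    intro g L h1 h2
    obtain ⟨w, hw, e⟩ := hpro _ (G.inv_mem g.2)
    obtain ⟨w, hw', rfl⟩ : w ∈ L.map G.subtype := by
      refine (sup_le (fun k hk => ⟨⟨k, hKG hk⟩, h1 hk, rfl⟩) fun h hh => ?_ : _ ≤ L.map G.subtype) hw
      rw [mm, inv_inv] at hh
      have : h ∈ G := by
        have := G.mul_mem (G.mul_mem (G.inv_mem g.2) (hKG hh)) g.2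
        simpa [mul_assoc] using this
      exact ⟨⟨h, this⟩, h2 hh, rfl⟩
    refine ⟨w, hw', fun h => ?_⟩
    have := SetLike.ext_iff.1 e (h : Equiv.Perm (Fin n))
    rw [mm, mm, inv_inv] at this
    exact this.symm
  obtain ⟨k, hk, hk1⟩ := (K.bot_or_exists_ne_one).resolve_left hK
  obtain ⟨a, ha⟩ : ∃ a, k a ≠ a := by
    by_contra hc
    push Not at hc
    exact hk1 (Equiv.ext hc)
  have := (all n (Fin n) G (Fintype.card_fin n) (fun x y => by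
    obtain ⟨g, hg, e⟩ := htrans x y
    exact ⟨⟨g, hg⟩, e⟩) _ hP ⟨⟨k, hKG hk⟩, hk, a, ha⟩ (univ.filter (fun a => ∀ k ∈ K, k a = a))
    fun a => by
      rw [mem_filter]
      exact ⟨fun h k hk => h.2 k.1 hk, fun h => ⟨mem_univ _, fun k hk => h ⟨k, hKG hk⟩ hk⟩⟩).1
  rwa [Nat.card_eq_fintype_card, Fintype.card_subtype]

end CF.Prn
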